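/- U4 tower (row S5210), slot O6: the automizer of `A` is standard. -/
import Cfsg.Agent.H28.U4Gen

set_option autoImplicit false
set_option linter.unusedSectionVars false
set_option linter.unusedSimpArgs false
set_option linter.unusedVariables false

open Subgroup H90.RF H92 Cfsg
open H90.U5 (BF DD Bq)
open H28.U4

universe v

namespace H99.U4O6

variable {K : Type*} [Field K] [Finite K] {T : BF K} {p : ℕ} {Y : Subgroup (Equiv.Perm (Co T))}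
  {g : Equiv.Perm (Co T)}

theorem back {P Q : Subgroup (Co T)} (hQ : Q ≤ sA T) (h : ∀ z ∈ P, g z ∈ Q) (n : ∀ x ∈ Q, x.nu2 ∈ P)
    {x : Co T} (hx : x ∈ Q) : g⁻¹ x ∈ P := by
  have inj : ∀ u ∈ Q, ∀ w ∈ Q, u.nu2 = w.nu2 → u = w := fun u hu w hw e => by
    rw [← nu2_nu2 (hQ hu), e, nu2_nu2 (hQ hw)]
  obtain ⟨⟨z, hz⟩, e⟩ := Finite.surjective_of_injective
    (f := fun z : P => (⟨(g z).nu2, n _ (h z z.2)⟩ : P))
    (fun a b e => Subtype.ext (g.injective (inj _ (h a a.2) _ (h b b.2) (congrArg Subtype.val e))))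
    ⟨x.nu2, n x hx⟩
  have : g z = x := inj _ (h z hz) _ hx (congrArg Subtype.val e)
  rw [← this]
  simpa using hz

theorem back_X (h : XH T g) {x : Co T} (hx : x ∈ sX T) : g⁻¹ x ∈ sZ T :=
  back (Q := sX T) (fun _ k => k.1) h.1 (fun x k => by
    obtain ⟨a, b, c, d⟩ := nu2_A k.1
    exact ⟨a, b.trans k.2.2, by rw [c, k.2.1]; simp⟩) hx

theorem back_H (h : XH T g) {x : Co T} (hx : x ∈ sH T) : g⁻¹ x ∈ sD T :=
  back (Q := sH T) (fun _ k => k.1) h.2 (fun x k => by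
    obtain ⟨a, b, c, d⟩ := nu2_A k.1
    exact ⟨a, b.trans k.2⟩) hx

theorem mover (a : Au (sA T) g) (h : XH T g) : ¬ PZ T g := fun k => by
  have hz : xd T 1 (map_one _) ∈ sZ T := ⟨rfl, rfl, rfl⟩
  have e : g (xd T 1 (map_one _)) = 1 := eq_of_Z (k.1 _ hz) (one_mem _) (h.1 _ hz).2.2
  have := congrArg Co.d (a.inj _ (Z_le_A hz) e)
  simp [xd] at this

theorem om (s : Sa T p Y) (o : Oc T Y) (hg : g ∈ Y) (h : XH T g) :
    ∀ α ∈ Y, PZ T α ∨ ∃ t, XH T ⇑(ux T t * α) := fun α hα => by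
  by_cases k : PZ T α
  · exact Or.inl k
  obtain ⟨t, e⟩ := o g hg α hα (mover (s.lg.au g hg) h) k
  refine Or.inr ⟨t, fun z hz => ?_, fun z hz => ?_⟩
  · simpa using h.1 _ (e.1 z hz)
  · simpa using h.2 _ (e.2 z hz)

/-- an element of `x_t⁻¹ X` -/
theorem co_X {u : Co T} (hu : u ∈ sA T) {t : K} (h : ux T t u ∈ sX T) :
    u.c = -t * u.b ∧ u.d = t * T.σ t * u.b := by
  obtain ⟨-, -, c, d⟩ := ux_co t hu
  have hc : u.c = -t * u.b := by linear_combination h.2.1 - c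
  refine ⟨hc, ?_⟩
  rw [h.2.2, hc] at d
  simp only [map_mul, map_neg, Co.σb] at d
  linear_combination -d

theorem cone (s : Sa T p Y) (o : Oc T Y) (hg : g ∈ Y) (h : XH T g) {α : Equiv.Perm (Co T)} (hα : α ∈ Y)
    {z : Co T} (hz : z ∈ sZ T) : (α z).b * (α z).d = (α z).c * T.σ (α z).c := by
  rcases om s o hg h α hα with k | ⟨t, k⟩
  · obtain ⟨-, b, c⟩ := k.1 z hz
    simp [b, c]
  · obtain ⟨c, d⟩ := co_X ((s.lg.au α hα).mem z (Z_le_A hz)) (k.1 z hz)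
    rw [c, d]
    simp only [map_mul, map_neg, Co.σb]
    ring

/-- the lower unipotent map -/
def Lw (s : K) (v : Co T → Co T) : Prop := ∀ u ∈ sA T,
  (v u).b = u.b + (u.c * T.σ s + T.σ u.c * s) + s * T.σ s * u.d ∧ (v u).c = u.c + s * u.d ∧ (v u).d = u.d

theorem low [CharP K p] (s : Sa T p Y) (o : Oc T Y) (hg : g ∈ Y) (h : XH T g) (r : K) :
    ∃ s, Lw s ⇑(g * ux T r * g⁻¹) := by
  by_cases hr : r = 0
  · exact ⟨0, fun u hu => by simp [hr, ux_zero]⟩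
  have ag := s.lg.au g hg
  have ai := s.lg.au _ (inv_mem hg)
  have hv : g * ux T r * g⁻¹ ∈ Y := mul_mem (mul_mem hg (s.ux_mem r)) (inv_mem hg)
  have fX : ∀ x ∈ sX T, (g * ux T r * g⁻¹) x = x := fun x hx => by
    rw [Equiv.Perm.mul_apply, Equiv.Perm.mul_apply, ux_Z r (back_X h hx)]; simp
  have dec : ∀ u ∈ sA T, (g * ux T r * g⁻¹) u = u * g (cm (xa T r) (g⁻¹ u)) := fun u hu => by
    have hw := ai.mem u hu
    have e : ux T r (g⁻¹ u) = g⁻¹ u * cm (xa T r) (g⁻¹ u) := by rw [ux_apply r hw, cm]; group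
    rw [Equiv.Perm.mul_apply, Equiv.Perm.mul_apply, e, ag.mul _ hw _ (D_le_A (cm_D _ _))]
    simp
  have fd : ∀ u ∈ sA T, ((g * ux T r * g⁻¹) u).d = u.d := fun u hu => by
    have k := h.2 _ (cm_D (xa T r) (g⁻¹ u))
    rw [dec u hu, (mul_A hu k.1).2.2, k.2, add_zero]
  have fc : ∀ u ∈ sH T, ((g * ux T r * g⁻¹) u).c = u.c := fun u hu => by
    have k := h.1 _ (cm_Z (xa T r) (back_H h hu))
    rw [dec u hu.1, (mul_A hu.1 k.1).2.1, k.2.1, add_zero]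
  have mv : ¬ PZ T ⇑(g * ux T r * g⁻¹) := fun k => by
    obtain ⟨t, e⟩ := s.pel _ hv k ⟨1, by rw [pow_one, conj_pow, ux_pow]; simp⟩
    have hx : xb T 1 (map_one _) ∈ sX T := ⟨rfl, rfl, rfl⟩
    have c := (ux_co t hx.1).2.2.1
    rw [← e, fX _ hx] at c
    have t0 : t = 0 := by simpa [xb] using c.symm
    rw [t0, ux_zero, conj_eq_one_iff, ← ux_zero] at e
    exact hr (ux_inj e)
  generalize g * ux T r * g⁻¹ = v at hv fX fd fc mv
  have av := s.lg.au v hv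
  obtain ⟨t, k⟩ := (om s o hg h v hv).resolve_left mv
  have vz : ∀ z ∈ sZ T, (v z).c = -t * (v z).b ∧ z.d = t * T.σ t * (v z).b := fun z hz => by
    have := co_X (av.mem z (Z_le_A hz)) (k.1 z hz)
    rwa [fd z (Z_le_A hz)] at this
  have t0 : t ≠ 0 := fun e => by
    simpa [xd, e] using (vz (xd T 1 (map_one _)) ⟨rfl, rfl, rfl⟩).2
  have s0 : T.σ t ≠ 0 := (map_ne_zero _).2 t0
  have gen : ∀ u ∈ sA T, (v u).b = u.b + (v (xc T u.c)).b + (t * T.σ t)⁻¹ * u.d ∧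
      (v u).c = u.c + -(T.σ t)⁻¹ * u.d := fun u hu => by
    have e : u = xb T u.b u.hb * xc T u.c * xd T u.d (A_d hu) := by
      rw [mem_sA] at hu
      ext <;> simp [xb, xc, xd, hu]
    have hb : xb T u.b u.hb ∈ sX T := ⟨rfl, rfl, rfl⟩
    have hc : xc T u.c ∈ sH T := ⟨rfl, rfl⟩
    have hd : xd T u.d (A_d hu) ∈ sZ T := ⟨rfl, rfl, rfl⟩
    have e' : v u = xb T u.b u.hb * v (xc T u.c) * v (xd T u.d (A_d hu)) := by
      conv_lhs => rw [e]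
      rw [av.mul _ (mul_mem hb.1 hc.1) _ hd.1, av.mul _ hb.1 _ hc.1, fX _ hb]
    have m1 := mul_A hb.1 (av.mem _ hc.1)
    have m2 := mul_A ((sA T).mul_mem hb.1 (av.mem _ hc.1)) (av.mem _ hd.1)
    obtain ⟨z1, z2⟩ := vz _ hd
    have z3 : (v (xd T u.d (A_d hu))).b = (t * T.σ t)⁻¹ * u.d := by
      rw [eq_inv_mul_iff_mul_eq₀ (mul_ne_zero t0 s0)]; exact z2.symm
    rw [e', m2.1, m2.2.1, m1.1, m1.2.1, fc _ hc, z1, z3]
    exact ⟨rfl, by simp only [xb, xc]; field_simp; ring⟩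
  have mu : ∀ c, (v (xc T c)).b = c * T.σ (-(T.σ t)⁻¹) + T.σ c * -(T.σ t)⁻¹ := fun c => by
    by_cases c0 : c = 0
    · have : xc T c = 1 := by ext <;> simp [xc, c0]
      rw [this, av.one]; simp [c0]
    have hx : xb T 1 (map_one _) ∈ sX T := ⟨rfl, rfl, rfl⟩
    have cn := cone s o hg h (mul_mem (mul_mem hv (s.ux_mem c)) hg) (back_X h hx)
    have e : (v * ux T c * g) (g⁻¹ (xb T 1 (map_one _))) = v (ux T c (xb T 1 (map_one _))) := by simp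
    obtain ⟨a1, b1, c1, d1⟩ := ux_co c hx.1
    obtain ⟨b2, c2⟩ := gen _ a1
    rw [e, b2, c2, fd _ a1, b1, c1, d1] at cn
    simp only [xb, zero_add, mul_one, map_zero, mul_zero, add_zero, map_add, map_mul, map_neg, map_inv₀,
      T.sq] at cn ⊢
    have n0 : c * T.σ c ≠ 0 := mul_ne_zero c0 ((map_ne_zero _).2 c0)
    refine mul_right_cancel₀ n0 ?_
    have i : (t * T.σ t)⁻¹ = t⁻¹ * (T.σ t)⁻¹ := mul_inv _ _
    rw [i] at cn
    linear_combination cn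
  refine ⟨-(T.σ t)⁻¹, fun u hu => ⟨?_, (gen u hu).2, fd u hu⟩⟩
  rw [(gen u hu).1, mu]
  simp only [map_neg, map_inv₀, T.sq, mul_inv]
  ring

theorem all_low [CharP K p] (s : Sa T p Y) (o : Oc T Y) (hg : g ∈ Y) (h : XH T g) (c : K) :
    ∃ v ∈ Y, Lw c ⇑v := by
  choose f hf using low s o hg h
  have ag := s.lg.au g hg
  have hv : ∀ r, g * ux T r * g⁻¹ ∈ Y := fun r => mul_mem (mul_mem hg (s.ux_mem r)) (inv_mem hg)
  have inj : Function.Injective f := fun r r' e => by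
    have hx : xb T 1 (map_one _) ∈ sA T := rfl
    have hu := ag.mem _ hx
    obtain ⟨b, c, d⟩ := hf r _ hu
    obtain ⟨b', c', d'⟩ := hf r' _ hu
    rw [e] at b c
    have k : (g * ux T r * g⁻¹) (g (xb T 1 (map_one _))) = (g * ux T r' * g⁻¹) (g (xb T 1 (map_one _))) :=
      Co.ext (((s.lg.au _ (hv r)).mem _ hu).trans ((s.lg.au _ (hv r')).mem _ hu).symm) (b.trans b'.symm)
        (c.trans c'.symm) (d.trans d'.symm)
    have k' : ux T r (xb T 1 (map_one _)) = ux T r' (xb T 1 (map_one _)) := by simpa using k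
    have a := (ux_co r hx).2.2.1
    rw [k', (ux_co r' hx).2.2.1] at a
    simpa [xb] using a.symm
  obtain ⟨r, rfl⟩ := Finite.surjective_of_injective inj c
  exact ⟨_, hv r, hf r⟩

theorem weyl [CharP K p] (s : Sa T p Y) (o : Oc T Y) (hg : g ∈ Y) (h : XH T g) {t : K} (t0 : t ≠ 0) :
    ∃ n ∈ Y, ∀ u ∈ sA T, (n u).a = 0 ∧ (n u).b = (t * T.σ t)⁻¹ * u.d ∧
      (n u).c = -(t * (T.σ t)⁻¹) * T.σ u.c ∧ (n u).d = t * T.σ t * u.b := by
  obtain ⟨v, hv, e⟩ := all_low s o hg h (-(T.σ t)⁻¹)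
  have s0 : T.σ t ≠ 0 := (map_ne_zero _).2 t0
  refine ⟨ux T t * v * ux T t, mul_mem (mul_mem (s.ux_mem t) hv) (s.ux_mem t), fun u hu => ?_⟩
  obtain ⟨a1, b1, c1, d1⟩ := ux_co t hu
  obtain ⟨b2, c2, d2⟩ := e _ a1
  obtain ⟨a3, b3, c3, d3⟩ := ux_co t ((s.lg.au v hv).mem _ a1)
  have hd := A_d hu
  rw [Equiv.Perm.mul_apply, Equiv.Perm.mul_apply, d3, c3, b3, b2, c2, d2, b1, c1, d1]
  simp only [map_add, map_mul, map_neg, map_inv₀, T.sq, Co.σb, hd]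
  refine ⟨a3, ?_, ?_, ?_⟩ <;> field_simp <;> ring

theorem jobO6 : JobO6.{v} := by
  intro p _ K _ _ _ T Y s o ⟨g, hg, h⟩
  obtain ⟨n, hn, e⟩ := weyl s o hg h one_ne_zero
  have n2 : ∀ u ∈ sA T, n u = u.nu2 := fun u hu => by
    obtain ⟨a, b, c, d⟩ := e u hu
    obtain ⟨a', b', c', d'⟩ := nu2_A hu
    ext <;> simp [*]
  refine ⟨⟨n, hn, n2⟩, fun t => ?_, om s o hg h⟩
  obtain ⟨m, hm, f⟩ := weyl s o hg h t.ne_zero
  refine ⟨m * n, mul_mem hm hn, fun u hu => ?_⟩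
  obtain ⟨a', b', c', d'⟩ := nu2_A hu
  obtain ⟨a, b, c, d⟩ := f _ a'
  have s0 : T.σ t ≠ 0 := (map_ne_zero _).2 t.ne_zero
  have t0 := t.ne_zero
  rw [Equiv.Perm.mul_apply, n2 u hu, sd_inl]
  rw [mem_sA] at hu
  ext
  · simp [a, dg, hu]
  · rw [b, d']; simp [dg, t2, mul_comm]
  · rw [c, c']; simp [dg, t2, T.sq]; left; field_simp
  · rw [d, b']; simp [dg, t2]; field_simp; simp

end H99.U4O6
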