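import Mathlib
import Cfsg.Agent.H0.SimSpec

set_option autoImplicit false

namespace H99.SimStL

theorem jobStL : H0.Sim.JobStL := by
  intro C _ _ _
  haveI : IsArtinianRing C := inferInstance
  obtain ⟨n, hn, D, _, ⟨e⟩⟩ := IsSimpleRing.exists_ringEquiv_matrix_divisionRing C
  haveI : Finite (Matrix (Fin n) (Fin n) D) := Finite.of_equiv C e.toEquiv
  haveI : Finite D := by
    refine Finite.of_injective (fun d : D => (Matrix.of fun (_ : Fin n) (_ : Fin n) => d)) ?_
    intro a b h
    have := congrFun (congrFun h (0 : Fin n)) (0 : Fin n)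
    simpa using this
  letI : Field D := littleWedderburn D
  refine ⟨D, inferInstance, Fintype.ofFinite D, n, Nat.one_le_iff_ne_zero.mpr (NeZero.ne n), ⟨e⟩⟩

end H99.SimStL
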