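import Mathlib
import Cfsg.Agent.H42.SimXBSpec

set_option autoImplicit false

namespace H99.SimXBNU

open Finset

theorem geom_congr (y a : ℤ) (p : ℕ) :
    y - a ∣ ∑ i ∈ range p, y ^ i - ∑ i ∈ range p, a ^ i := by
  rw [← sum_sub_distrib]
  exact dvd_sum fun i _ => sub_dvd_pow_sub_pow y a i

theorem two_mul_le (p : ℕ) (h : 4 ≤ p) : 2 * (p + 1) ≤ 2 ^ p := by
  induction p, h using Nat.le_induction with
  | base => norm_num
  | succ k hk ih => rw [pow_succ]; omega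

theorem core (x p : ℕ) (hp : p.Prime) (ho : Odd p) (hx : 2 ≤ x)
    (hd : (x : ℤ) ^ p + 1 ∣ ((x : ℤ) ^ 2 - 1) ^ 4) : p = 3 ∧ x = 2 := by
  set y : ℤ := -(x : ℤ) with hy
  set Φ : ℤ := ∑ i ∈ range p, y ^ i with hΦ
  have hx' : (2 : ℤ) ≤ x := by exact_mod_cast hx
  have e1 : Φ * (x + 1) = (x : ℤ) ^ p + 1 := by
    have := geom_sum_mul y p
    rw [hy, ho.neg_pow] at this
    rw [hΦ, hy]
    linarith
  have hpos : 0 < Φ := by
    have h1 : (0 : ℤ) < (x : ℤ) ^ p + 1 := by positivity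
    rw [← e1] at h1
    exact (mul_pos_iff_of_pos_right (by linarith)).1 h1
  have c1 : y - 1 ∣ Φ - p := by simpa using geom_congr y 1 p
  have c2 : y - -1 ∣ Φ - 1 := by
    have := geom_congr y (-1) p
    rwa [neg_one_geom_sum, if_neg (Nat.not_even_iff_odd.2 ho)] at this
  obtain ⟨N, hN⟩ := Int.eq_ofNat_of_zero_le hpos.le
  have hN0 : N ≠ 0 := by rintro rfl; simp [hN] at hpos
  have key : ∀ r : ℕ, r.Prime → r ∣ N → (r : ℤ) ∣ y - 1 := by
    intro r hr hrN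
    have h1 : (r : ℤ) ∣ Φ := hN ▸ Int.natCast_dvd_natCast.2 hrN
    have hr' : Prime (r : ℤ) := Nat.prime_iff_prime_int.1 hr
    have h2 : (r : ℤ) ∣ ((x : ℤ) ^ 2 - 1) ^ 4 := (h1.trans (Dvd.intro _ e1)).trans hd
    have h3 : (r : ℤ) ∣ (y - 1) * (y - -1) := by
      have := hr'.dvd_of_dvd_pow h2
      have e : (y - 1) * (y - -1) = (x : ℤ) ^ 2 - 1 := by rw [hy]; ring
      rwa [e]
    rcases hr'.dvd_or_dvd h3 with h | h
    · exact h
    · exfalso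
      have h4 : (r : ℤ) ∣ Φ - (Φ - 1) := dvd_sub h1 (h.trans c2)
      rw [sub_sub_cancel] at h4
      exact hr'.not_dvd_one h4
  have uniq : ∀ {r : ℕ}, r.Prime → r ∣ N → r = p := by
    intro r hr hrN
    have h1 : (r : ℤ) ∣ Φ := hN ▸ Int.natCast_dvd_natCast.2 hrN
    have h4 : (r : ℤ) ∣ Φ - (Φ - p) := dvd_sub h1 ((key r hr hrN).trans c1)
    rw [sub_sub_cancel] at h4
    exact (Nat.prime_dvd_prime_iff_eq hr hp).1 (Int.natCast_dvd_natCast.1 h4)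
  obtain ⟨k, hk⟩ : ∃ k, N = p ^ k := ⟨_, Nat.eq_prime_pow_of_unique_prime_dvd hN0 uniq⟩
  have e2 : N * (x + 1) = x ^ p + 1 := by
    rw [hN] at e1
    exact_mod_cast e1
  have hp3 : 3 ≤ p := by
    have := hp.two_le
    obtain ⟨m, hm⟩ := ho
    omega
  rcases k with _ | _ | k
  · exfalso
    rw [hk, pow_zero, one_mul] at e2
    have : x ^ 1 < x ^ p := Nat.pow_lt_pow_right (by omega) (by omega)
    rw [pow_one] at this
    omega
  · rw [hk, zero_add, pow_one] at e2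
    by_cases h3 : p = 3
    · refine ⟨h3, ?_⟩
      subst h3
      by_contra hne
      have : 3 ≤ x := by omega
      nlinarith [Nat.mul_le_mul this this, Nat.mul_le_mul (Nat.mul_le_mul this this) (le_refl x)]
    · exfalso
      obtain ⟨m, rfl⟩ : ∃ m, p = m + 1 := ⟨p - 1, by omega⟩
      have hm : 4 ≤ m := by
        obtain ⟨j, hj⟩ := ho
        omega
      have h1 := two_mul_le m hm
      have h2 : 2 ^ m ≤ x ^ m := Nat.pow_le_pow_left hx m
      have h4 : 2 * (m + 1) * x ≤ x ^ m * x := Nat.mul_le_mul_right x (h1.trans h2)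
      rw [pow_succ] at e2
      nlinarith
  · exfalso
    have hpN : p ∣ N := hk ▸ dvd_pow_self p (by omega)
    obtain ⟨b, hb⟩ := key p hp hpN
    have h1 := odd_sq_dvd_geom_sum₂_sub (R := ℤ) (a := 1) (b := b) ho
    have hy1 : (1 : ℤ) + p * b = y := by linarith
    simp only [hy1, one_pow, mul_one] at h1
    have h2 : (p : ℤ) ^ 2 ∣ Φ := by
      rw [hN, hk]
      exact_mod_cast pow_dvd_pow p (by omega : 2 ≤ k + 1 + 1)
    have h4 : (p : ℤ) ^ 2 ∣ Φ - (Φ - p) := dvd_sub h2 h1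
    rw [sub_sub_cancel] at h4
    have h5 : p ^ 2 ∣ p := by exact_mod_cast h4
    have := Nat.le_of_dvd (by omega) h5
    nlinarith

theorem jobNU : H42.SX.JobNU := by
  intro q d p hp hq ho hd
  have hop : Odd p := (Nat.odd_mul.1 ho).2
  have hod : Odd d := (Nat.odd_mul.1 ho).1
  have hd0 : d ≠ 0 := by rintro rfl; simp at hod
  have hx : 2 ≤ q ^ d := hq.trans (Nat.le_self_pow hd0 q)
  have hz : ((q : ℤ) ^ 2) ^ (d * p) - 1 ∣
      ((q : ℤ) ^ (d * p) - 1) * ((q : ℤ) ^ 2 - 1) * (((q : ℤ) ^ 2) ^ d - 1) ^ 3 := by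
    have h0 : 0 < q := by omega
    have a1 : 1 ≤ (q ^ 2) ^ (d * p) := Nat.one_le_iff_ne_zero.2 (by positivity)
    have a2 : 1 ≤ q ^ (d * p) := Nat.one_le_iff_ne_zero.2 (by positivity)
    have a3 : 1 ≤ q ^ 2 := Nat.one_le_iff_ne_zero.2 (by positivity)
    have a4 : 1 ≤ (q ^ 2) ^ d := Nat.one_le_iff_ne_zero.2 (by positivity)
    have := Int.natCast_dvd_natCast.2 hd
    push_cast [a1, a2, a3, a4] at this
    exact this
  have hne : (q : ℤ) ^ (d * p) - 1 ≠ 0 := by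
    have : 1 < q ^ (d * p) := Nat.one_lt_pow (by rintro h; simp [h] at ho) (by omega)
    have h2 : (1 : ℤ) < (q : ℤ) ^ (d * p) := by exact_mod_cast this
    linarith
  have e : ((q : ℤ) ^ 2) ^ (d * p) - 1 = ((q : ℤ) ^ (d * p) - 1) * ((q : ℤ) ^ (d * p) + 1) := by
    ring
  rw [e, mul_assoc, mul_dvd_mul_iff_left hne] at hz
  have h2 : (q : ℤ) ^ 2 - 1 ∣ ((q : ℤ) ^ 2) ^ d - 1 := by
    simpa using sub_dvd_pow_sub_pow ((q : ℤ) ^ 2) 1 d
  have h3 : ((q ^ d : ℕ) : ℤ) ^ p + 1 ∣ (((q ^ d : ℕ) : ℤ) ^ 2 - 1) ^ 4 := by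
    push_cast
    have e1 : ((q : ℤ) ^ d) ^ p = (q : ℤ) ^ (d * p) := by ring
    have e2 : (((q : ℤ) ^ d) ^ 2 - 1) ^ 4 = (((q : ℤ) ^ 2) ^ d - 1) * (((q : ℤ) ^ 2) ^ d - 1) ^ 3 := by
      ring
    rw [e1, e2]
    exact hz.trans (mul_dvd_mul_right h2 _)
  obtain ⟨r1, r2⟩ := core (q ^ d) p hp hop hx h3
  have := (Nat.Prime.pow_eq_iff Nat.prime_two).1 r2
  exact ⟨r1, this.2, this.1⟩

end H99.SimXBNU
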