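import Cfsg.Agent.H40.E82Spec
import Cfsg.Agent.H43.AlcE8S
import Cfsg.Agent.H67.Jordan

/-! Tower E82 (S5915), slot `Alc`: the semisimple classes of `E₈(2)`, by a search through the
`2 ^ 8` alcoves inside `2 C` (a port of `H43.AlcE8`). -/

set_option autoImplicit false
set_option linter.unusedSectionVars false

namespace H99.Alc2

open Cfsg.Lie H63 H67 Finset
open H43.Alc hiding code updN sh it fin term wl chk nx code_stp dec wl_spec not_nw chk_zero chk_succ
  rt0 term_of it_eq inv_nx term_sound classes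

noncomputable def code (g : Af chevE8) (i : ℕ) : ℕ :=
  (enc (rt8 (g.w.1 (al8 i))) (L8.K g i) % 1099511627776).toNat

def updN (c a b : ℕ) : ℕ :=
  Nat.mod (Nat.add a (Nat.mul (bif Nat.beq c 2 then 1099511627774 else c) b)) 1099511627776

def sh (H : ℕ) : ℕ := Nat.mod (Nat.add H 2290649224) 1099511627776

def it (R : List (List ℕ)) (u : List ℕ) (f : List ℕ → Bool) : Bool :=
  force (Nat.mul 248 (sm u)) fun S => forceN (mp (fun r =>
    Nat.mod (Nat.add (hd r) (Nat.mul 2 (Nat.add (dot (tl r) u) S))) 256) R) f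

/-- the point is not primitive -/
def imp (n : ℕ) (X : List ℕ) : Bool :=
  [3, 5, 7, 13, 17].any fun p => Nat.beq (n % p) 0 && X.all fun x => Nat.beq (x % p) 0

def fin (tb : List (ℕ × List (List ℕ))) (R : List (List ℕ)) (u : List ℕ) : Bool :=
  tb.all fun p => forceN (mp (fun a => Nat.mod (Nat.mul p.1 a) 64) u) fun X =>
    Nat.blt p.1 (dot th X) || (p.2.elem X || imp p.1 X) ||
      !allz (fun r x => Nat.beq (2 * dot (tl r) X % p.1) ((x + 16 * sm X) % p.1)) R X

def term (tb : List (ℕ × List (List ℕ))) (hs : List ℕ) : Bool :=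
  forceN (zw (fun _ => sh) th hs) fun Ns => forceM (mp row Ns) fun R => it R (mp hd R) fun u =>
    it R u fun u => it R u fun u => it R u fun u => it R u fun u => fin tb R u

def wl : List ℕ := [1, 16, 256, 4096, 65536, 1048576, 16777216, 268435456, 7998184398]

def chk (tb : List (ℕ × List (List ℕ))) (f : ℕ) : List ℕ → List ℤ → Bool :=
  Nat.rec (fun _ _ => false) (fun _ ih hs es => term tb hs && all3 (fun e b c =>
    !(posZ e && allz (fun c a => posZ (updZ c a e)) c.2 es) || (smallZ e && wl.elem b) ||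
      forceN (zw (fun c a => updN c a b) c.1 hs) fun hs' =>
        forceL (zw (fun c a => updZ c a e) c.1 es) fun es' => ih hs' es') es hs cr) f

theorem chk_tb : chk H40.E82.tb2 130 hs0 es0 = true := by decide +kernel

theorem code_stp (g : Af chevE8) {i j : ℕ} (hi : i < 9) (hj : j < 9) :
    updN (cz i j) (code g j) (code g i) = code (stp g (al8 i) (kp8 i)) j := by
  have e1 := L8.rt_stp g i j
  have e2 := L8.K_stp g i j
  change rt8 ((stp g (al8 i) (kp8 i)).w.1 (al8 j)) = rt8 (g.w.1 (al8 j)) -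
    chevE8.pairing (al8 i) (al8 j) • rt8 (g.w.1 (al8 i)) at e1
  change L8.K (stp g (al8 i) (kp8 i)) j = _ - chevE8.pairing (al8 i) (al8 j) * _ at e2
  have e3 : ∀ (u v : Fin 8 → ℤ) (c k l : ℤ), enc (u - c • v) (k - c * l) = enc u k - c * enc v l :=
    fun u v c k l => by simp only [enc, Pi.sub_apply, Pi.smul_apply, smul_eq_mul]; ring
  rw [code, code, code, e1, e2, e3, pair8 i hi j hj]
  generalize enc (rt8 (g.w.1 (al8 j))) (L8.K g j) = A
  generalize enc (rt8 (g.w.1 (al8 i))) (L8.K g i) = B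
  rcases cz_le i hi j hj with e | e | e <;> rw [e] <;>
    simp only [updN, czv, mod_eq, Nat.add_eq, Nat.mul_eq, cond] <;> omega

theorem dec {v : Fin 8 → ℤ} {k : ℤ} (h : ∀ t, -6 ≤ v t ∧ v t ≤ 6) :
    row (sh (enc v k % 1099511627776).toNat) =
      (k % 256).toNat :: List.ofFn fun t => (v t + 8).toNat := by
  have h0 := h 0
  have h1 := h 1
  have h2 := h 2
  have h3 := h 3
  have h4 := h 4
  have h5 := h 5
  have h6 := h 6
  have h7 := h 7
  have e : sh (enc v k % 1099511627776).toNat = (v 0 + 8).toNat + 16 * (v 1 + 8).toNat +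
      256 * (v 2 + 8).toNat + 4096 * (v 3 + 8).toNat + 65536 * (v 4 + 8).toNat +
      1048576 * (v 5 + 8).toNat + 16777216 * (v 6 + 8).toNat + 268435456 * (v 7 + 8).toNat +
      4294967296 * (k % 256).toNat := by
    simp only [sh, enc, mod_eq, Nat.add_eq]
    omega
  rw [e]
  simp only [row, dg, mod_eq, div_eq, List.ofFn_succ, List.ofFn_zero, List.cons.injEq,
    and_true, Fin.succ_zero_eq_one, Fin.succ_one_eq_two, Fin.reduceSucc]
  refine ⟨?_, ?_, ?_, ?_, ?_, ?_, ?_, ?_, ?_⟩ <;> omega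

theorem wl_spec : ∀ x ∈ wl, ∃ j < 9, x = (enc (rt8 (al8 j)) (2 * kp8 j) % 1099511627776).toNat := by
  decide +kernel

theorem not_nw {g : Af chevE8} {i : ℕ} (h : code g i ∈ wl) (h0 : 0 < L8.E g i)
    (h1 : L8.E g i < 100) : ¬ L8.NW 2 g i := fun nw => by
  obtain ⟨j, hj, e⟩ := wl_spec _ h
  have e1 := congrArg (fun x => row (sh x)) e
  simp only [code] at e1
  rw [dec (rt8_bd _), dec (rt8_bd _), List.cons.injEq, List.ofFn_inj] at e1
  have e2 : g.w.1 (al8 i) = al8 j := rt_inj (funext fun t => by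
    have := congrFun e1.2 t
    have := rt8_bd (al8 j) t
    have := rt8_bd (g.w.1 (al8 i)) t
    change rt8 _ t = rt8 _ t
    omega)
  refine nw j hj e2 ?_
  have e3 := e1.1
  have e4 := ht_al8 j
  change 0 < ht (g.w.1 (al8 i)) + 30 * _ at h0
  change ht (g.w.1 (al8 i)) + 30 * _ < 100 at h1
  change _ = 2 * kp8 j
  rw [e2] at h0 h1
  have : kp8 j = 0 ∨ kp8 j = 1 := by unfold kp8; split_ifs <;> simp
  omega

variable {tb : List (ℕ × List (List ℕ))}

theorem chk_zero {hs : List ℕ} {es : List ℤ} : ¬ chk tb 0 hs es = true := Bool.false_ne_true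

theorem chk_succ (f : ℕ) (hs : List ℕ) (es : List ℤ) : chk tb (f + 1) hs es = (term tb hs &&
    all3 (fun e b c => !(posZ e && allz (fun c a => posZ (updZ c a e)) c.2 es) ||
      (smallZ e && wl.elem b) || forceN (zw (fun c a => updN c a b) c.1 hs) fun hs' =>
        forceL (zw (fun c a => updZ c a e) c.1 es) fun es' => chk tb f hs' es') es hs cr) := rfl

theorem rt0 : ∀ i ∈ r9, (enc (rt8 (al8 i)) (kp8 i) % 1099511627776).toNat = hs0.getD i 0 := by
  decide +kernel

theorem term_of {f : ℕ} (h : chk tb f hs0 es0 = true) {g : Af chevE8} (v : L8.Valid 2 g) :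
    term tb (r9.map (code g)) = true := by
  obtain ⟨f, h⟩ := L8.cover (by decide)
    (P := fun g => ∃ f, chk tb f (r9.map (code g)) (r9.map (L8.E g)) = true)
    (fun g h1 h2 => ⟨f, by
      have e : ∀ i, L8.K g i = kp8 i := fun i => by rw [Walls.K, h2, add_zero]; rfl
      rw [List.map_congr_left (g := fun i => hs0.getD i 0) fun i hi => by
        rw [code, h1, e]; exact rt0 i hi, List.map_congr_left (f := L8.E g) (g := fun _ => 1)
        fun i _ => by rw [Walls.E, h1, e]; exact ht_al8 i]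
      exact h⟩) (fun g i hi ⟨f, h⟩ h1 h2 h3 => by
      cases f with
      | zero => exact (chk_zero h).elim
      | succ f =>
        refine ⟨f, ?_⟩
        have h4 := (Bool.and_eq_true_iff.1 (chk_succ f _ _ ▸ h)).2
        rw [cr_eq, all3_map, List.all_eq_true] at h4
        have h5 := h4 i (mem_r9.2 hi)
        rw [allz_take, posZ_iff.2 h1, List.all_eq_true.2 fun j hj => by
          rw [E_stp8 g hi ((mem_take i hi j hj).trans hi)]
          exact posZ_iff.2 (h3 j (mem_take i hi j hj)), forceN_eq, forceL_eq, zw_map, zw_map,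
          List.map_congr_left fun j hj => code_stp g hi (mem_r9.1 hj),
          List.map_congr_left fun j hj => E_stp8 g hi (mem_r9.1 hj)] at h5
        simp only [Bool.and_self, Bool.not_true, Bool.false_or, Bool.or_eq_true, Bool.and_eq_true,
          List.elem_eq_mem, decide_eq_true_eq] at h5
        exact h5.resolve_left fun c => not_nw c.2 h1 (smallZ_lt c.1) h2) v
  cases f with
  | zero => exact (chk_zero h).elim
  | succ f => exact (Bool.and_eq_true_iff.1 (chk_succ f _ _ ▸ h)).1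

section Term

variable (top : Fin 8 → ℕ) (d : Fin 8 → Fin 8 → ℕ)

def nx (u : Fin 8 → ℕ) (j : Fin 8) : ℕ := (top j + 2 * (∑ t, d j t * u t + 248 * ∑ t, u t)) % 256

theorem it_eq (u : Fin 8 → ℕ) (f : List ℕ → Bool) :
    it (List.ofFn fun j => top j :: List.ofFn (d j)) (List.ofFn u) f = f (List.ofFn (nx top d u)) := by
  rw [it, force_eq, forceN_eq, mp_eq, List.map_ofFn, sm_eq, List.sum_ofFn]
  exact congrArg (fun s => f (List.ofFn s)) <| funext fun j => congrArg (fun s => (top j + 2 * (s + 248 * ∑ t, u t)) % 256) (dot_ofFn (d j) u)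

variable {top d} {v : Fin 8 → Fin 8 → ℤ} {k X : Fin 8 → ℤ} {n : ℕ}

theorem inv_nx (hd : ∀ j t, (d j t : ℤ) = v j t + 8) (ht : ∀ j, (top j : ℤ) = k j % 256)
    (e : ∀ j, X j = ∑ t, v j t * (2 * X t) + n * k j) {m : ℤ} (hm : 2 * m ∣ 256) {u : Fin 8 → ℕ}
    (h : ∀ j, m ∣ X j - n * u j) (j : Fin 8) : 2 * m ∣ X j - n * nx top d u j := by
  have e1 : X j - n * nx top d u j = ∑ t, v j t * (2 * (X t - n * u t)) + 256 * (n * (k j / 256 +
      (top j + 2 * (∑ t, d j t * u t + 248 * ∑ t, u t) : ℤ) / 256 - 2 * ∑ t, u t)) := by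
    have e2 := Int.emod_add_mul_ediv (k j) 256
    have e3 := Int.emod_add_mul_ediv (top j + 2 * (∑ t, d j t * u t + 248 * ∑ t, u t) : ℤ) 256
    rw [nx]
    push_cast at e3 ⊢
    generalize (top j + 2 * (∑ t, (d j t : ℤ) * u t + 248 * ∑ t, (u t : ℤ))) / 256 = A at *
    generalize (top j + 2 * (∑ t, (d j t : ℤ) * u t + 248 * ∑ t, (u t : ℤ))) % 256 = B at *
    rw [ht] at e3
    simp only [hd, Fin.sum_univ_eight] at e3
    have e4 := e j
    simp only [Fin.sum_univ_eight] at e4 ⊢
    linear_combination e4 - n * e3 - n * e2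
  rw [e1]
  exact dvd_add (dvd_sum fun t _ => (mul_dvd_mul_left 2 (h t)).mul_left _) (hm.mul_right _)

theorem term_sound (hd : ∀ j t, (d j t : ℤ) = v j t + 8) (ht : ∀ j, (top j : ℤ) = k j % 256)
    (e : ∀ j, X j = ∑ t, v j t * (2 * X t) + n * k j) (h0 : ∀ j, 0 ≤ X j)
    (h1 : ∑ j, thv j * X j ≤ n) (hn : n ≤ 127) {C : List (List ℕ)} (hC : (n, C) ∈ tb) {R : List (List ℕ)}
    (hR : R = List.ofFn fun j => top j :: List.ofFn (d j))
    (h : (it R (mp H43.Alc.hd R) fun u => it R u fun u =>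
      it R u fun u => it R u fun u => it R u fun u => fin tb R u) = true) :
    (List.ofFn fun j => (X j).toNat) ∈ C ∨ imp n (List.ofFn fun j => (X j).toNat) = true := by
  have i1 : ∀ j, (2 : ℤ) ∣ X j - n * top j := fun j => by
    have e2 := Int.emod_add_mul_ediv (k j) 256
    rw [show X j - n * top j = ∑ t, v j t * (2 * X t) + 2 * (128 * n * (k j / 256)) by
      rw [ht]; linear_combination e j - n * e2]
    exact dvd_add (dvd_sum fun t _ => (dvd_mul_right _ _).mul_left _) (dvd_mul_right _ _)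
  have i3 := inv_nx hd ht e (by decide) (inv_nx hd ht e (by decide) i1)
  have i5 := inv_nx hd ht e (by decide) (inv_nx hd ht e (by decide)
    (inv_nx hd ht e (by decide) i3))
  subst hR
  rw [mp_eq, List.map_ofFn] at h
  change it _ (List.ofFn top) _ = true at h
  rw [it_eq, it_eq, it_eq, it_eq, it_eq] at h
  have eth : th = List.ofFn thv := rfl
  · have h2 := List.all_eq_true.1 h _ hC
    have e2 : (fun a => Nat.mod (Nat.mul n a) 64) ∘
        nx top d (nx top d (nx top d (nx top d (nx top d top)))) =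
        fun j => (X j).toNat := funext fun j => by
      have a1 := i5 j
      have a2 := h0 j
      have a3 : 2 * X j ≤ n := ((mul_le_mul_of_nonneg_right (by
        exact_mod_cast (by decide : ∀ j, 2 ≤ thv j) j) a2).trans (single_le_sum
          (f := fun j => (thv j : ℤ) * X j) (fun t _ => mul_nonneg (Nat.cast_nonneg _) (h0 t))
          (mem_univ j))).trans h1
      rw [← Nat.cast_mul] at a1
      simp only [Function.comp, mod_eq, Nat.mul_eq]
      omega
    have c : ∀ j, (((X j).toNat : ℕ) : ℤ) = X j := fun j => Int.toNat_of_nonneg (h0 j)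
    rw [forceN_eq, mp_eq, List.map_ofFn, e2, eth, dot_ofFn, allz_ofFn _ _ _ fun j => by
      rw [Nat.beq_eq, sm_eq, List.sum_ofFn, show tl (top j :: List.ofFn (d j)) = List.ofFn (d j) from rfl,
        dot_ofFn]
      refine Int.natCast_modEq_iff.1 (Int.modEq_iff_dvd.2 ⟨k j, ?_⟩)
      have e4 := e j
      push_cast [c, hd]
      simp only [Fin.sum_univ_eight] at e4 ⊢
      linear_combination e4] at h2
    simp only [Bool.not_true, Bool.or_false, Bool.or_eq_true, Nat.blt_eq, List.elem_eq_mem,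
      decide_eq_true_eq] at h2
    refine h2.resolve_left fun c' => absurd h1 (not_le.2 ?_)
    have := Int.ofNat_lt.2 c'
    push_cast [c] at this
    exact this

end Term

/-- The classes of points `a` modulo `n` with `2 a` conjugate to `a`. -/
theorem classes {f : ℕ} (h : chk tb f hs0 es0 = true) {n : ℕ} (h0 : 0 < n) (hn : n ≤ 127)
    {C : List (List ℕ)} (hC : (n, C) ∈ tb) {a : Fin chevE8.rank → ℤ} {g0 : Af chevE8}
    (ha : ∀ r, 2 * pr a r = val g0 n a r) : ∃ X : Fin 8 → ℕ,
      (List.ofFn X ∈ C ∨ imp n (List.ofFn X) = true) ∧ ∃ u : Af chevE8, ∀ r, val u n a r = ∑ j : Fin 8, rt r j * X j := by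
  obtain ⟨x, u, g, h1, h2, v, h3⟩ := L8.fixed (by decide) (Int.natCast_pos.2 h0) ha
  have p : ∀ j : Fin 8, 0 ≤ pr x (simpleR (D := chevE8) j) := fun j => by
    have := h2 j (j.2.trans (by decide))
    change 0 ≤ pr x (al8 j) + kp8 j * _ at this
    rwa [al8_fin, kp8, if_pos j.2, zero_mul, add_zero] at this
  refine ⟨fun j => (pr x (simpleR (D := chevE8) j)).toNat, ?_, u, fun r => ?_⟩
  · have t := term_of h v
    rw [term, forceN_eq, forceM_eq] at t
    refine term_sound (v := fun j => rt8 (g.w.1 (al8 j))) (k := fun j => L8.K g j)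
      (top := fun j => (L8.K g j % 256).toNat) (d := fun j t => (rt8 (g.w.1 (al8 j)) t + 8).toNat)
      (fun j t => Int.toNat_of_nonneg (by have := rt8_bd (g.w.1 (al8 j)) t; omega))
      (fun j => Int.toNat_of_nonneg (Int.emod_nonneg _ (by decide))) (fun j => ?_) p ?_ hn hC ?_ t
    · rw [h3, H43.Alc.val, pr_lin, ← al8_fin, Walls.K]
      simp only [pr_smul]
      rw [show L8.kp j = 0 from if_pos j.2, zero_add]
      rfl
    · have := h2 8 (by decide)
      change 0 ≤ pr x (al8 8) + 1 * _ at this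
      rw [pr_lin] at this
      change 0 ≤ ∑ j : Fin 8, rt8 (al8 8) j * _ + _ at this
      simp only [rt_low, neg_mul, sum_neg_distrib] at this
      linarith
    · simp only [← fun j : Fin 8 => dec (k := L8.K g j) (rt8_bd (g.w.1 (al8 j)))]
      rfl
  · rw [← h1, pr_lin]
    exact sum_congr rfl fun j _ => by rw [Int.toNat_of_nonneg (p j)]

open H64 H46 H40.E82 in
theorem jobAlc : JobAlc := by
  intro n C hC c w ζ hc hζ ho
  obtain ⟨h0, hn⟩ := (by decide : ∀ p ∈ H40.E82.tb2, 0 < p.1 ∧ p.1 ≤ 127) _ hC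
  change 0 < n at h0
  have : NeZero n := ⟨h0.ne'⟩
  have hp : IsPrimitiveRoot ζ n := hζ ▸ IsPrimitiveRoot.orderOf ζ
  choose a0 _ ha0 using fun i => hp.eq_pow_of_mem_rootsOfUnity
    ((mem_rootsOfUnity _ _).2 (congrFun (ho ▸ pow_orderOf_eq_one c : c ^ n = 1) i))
  obtain ⟨a, rfl⟩ : ∃ a, c = zp ζ a := ⟨fun i => a0 i, funext fun i => by simp [zp, ha0]⟩
  obtain ⟨a', ha'⟩ := exists_pr_comp w a
  have e : zp ζ a' = zp ζ ((2 : ℤ) • a) := eq_of_chi_eq (kerE8.cker_eq_bot _) fun r => by
    rw [chi_zp, ha', ← chi_zp, hc, chi_zp, chi_zp, pr_smul, ← zpow_natCast, ← zpow_mul, mul_comm]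
    rfl
  choose y hy using fun i => (zpow_eq_zpow_iff_modEq.1 (congrFun e i)).dvd
  obtain ⟨X, h1, u, h2⟩ := classes chk_tb h0 hn hC (a := a) (g0 := ⟨w, y⟩) fun r => by
    rw [H43.Alc.val, ← ha', ← pr_smul, ← pr_smul, ← pr_add]
    congr 1
    funext i
    have := hy i
    rw [hζ] at this
    simp only [Pi.add_apply, Pi.smul_apply, smul_eq_mul] at this ⊢
    linarith
  have h3 : ∀ r, chi chevE8 (zp ζ a) (u.w.1 r) = ζ ^ ∑ j : Fin 8, rt8 r j * X j := fun r => by
    rw [chi_zp]
    refine zpow_eq_zpow_iff_modEq.2 (Int.modEq_iff_dvd.2 ⟨pr u.y r, ?_⟩)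
    rw [hζ, sub_eq_iff_eq_add']
    exact (h2 r).symm
  rcases h1 with h1 | h1
  · refine ⟨_, h1, u.w, fun r => (h3 r).trans (congrArg (ζ ^ ·) (sum_congr rfl fun j _ => ?_))⟩
    rw [List.getD_eq_getElem _ _ (by simp), List.getElem_ofFn]
  · exfalso
    obtain ⟨p, hp, h4⟩ := List.any_eq_true.1 h1
    have p1 : 1 < p := (by decide : ∀ p ∈ [3, 5, 7, 13, 17], 1 < p) p hp
    simp only [Bool.and_eq_true, Nat.beq_eq, List.all_eq_true, List.forall_mem_ofFn_iff,
      ← Nat.dvd_iff_mod_eq_zero] at h4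
    obtain ⟨⟨m, hm⟩, h5⟩ := h4
    have : zp ζ a ^ m = 1 := pow_eq_one_of_chi (kerE8.cker_eq_bot _) fun i => by
      obtain ⟨r, hr⟩ := u.w.1.surjective (simpleR i)
      obtain ⟨z, hz⟩ : (p : ℤ) ∣ ∑ j : Fin 8, rt8 r j * X j :=
        dvd_sum fun j _ => (Int.natCast_dvd_natCast.2 (h5 j)).mul_left _
      rw [← simpleR_val, ← hr, h3, hz, ← zpow_natCast, ← zpow_mul, mul_right_comm, ← Nat.cast_mul,
        ← hm, zpow_mul, zpow_natCast, ← hζ, pow_orderOf_eq_one, one_zpow]
    have m0 : 0 < m := Nat.pos_of_ne_zero fun e => by rw [e] at hm; omega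
    have := Nat.le_of_dvd m0 (ho ▸ orderOf_dvd_of_pow_eq_one this)
    nlinarith

end H99.Alc2
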