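import Cfsg.Agent.Base

/-! Binary affine actions: basic lemmas and reflections. -/

set_option autoImplicit false

namespace H99.BA

variable {H V : Type*} [Group H] [AddCommGroup V] [DistribMulAction H V]

variable (H) in
def Sim (v w : V) : Prop := ∃ h : H, h • v = w

variable (V) in
def C (h : H) : AddSubgroup V where
  carrier := {v | h • v = v}
  add_mem' := fun {a b} ha hb => by
    change h • (a + b) = a + b
    rw [smul_add, show h • a = a from ha, show h • b = b from hb]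
  zero_mem' := smul_zero h
  neg_mem' := fun {a} ha => by
    change h • (-a) = -a
    rw [smul_neg, show h • a = a from ha]

variable (V) in
def W (h : H) : AddSubgroup V where
  carrier := {d | ∃ x, x - h • x = d}
  add_mem' := by
    rintro _ _ ⟨x, rfl⟩ ⟨y, rfl⟩
    exact ⟨x + y, by rw [smul_add]; abel⟩
  zero_mem' := ⟨0, by simp⟩
  neg_mem' := by
    rintro _ ⟨x, rfl⟩
    exact ⟨-x, by rw [smul_neg]; abel⟩

theorem mem_C {h : H} {v : V} : v ∈ C V h ↔ h • v = v := Iff.rfl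
theorem mem_W {h : H} {d : V} : d ∈ W V h ↔ ∃ x, x - h • x = d := Iff.rfl
theorem sub_mem_W (h : H) (x : V) : x - h • x ∈ W V h := ⟨x, rfl⟩

variable (H V) in
structure Bin : Prop where
  faith : ∀ h : H, (∀ v : V, h • v = v) → h = 1
  irr : ∀ U : AddSubgroup V, (∀ h : H, ∀ v ∈ U, h • v ∈ U) → U = ⊥ ∨ U = ⊤
  bin : ∀ (A : Set V) (f : V → V), (∀ a ∈ A, ∀ b ∈ A, Sim H (a - b) (f a - f b)) →
    ∃ h : H, ∃ c, ∀ a ∈ A, f a = h • a + c

theorem Sim.refl (v : V) : Sim H v v := ⟨1, one_smul _ _⟩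
theorem Sim.symm {v w : V} (h : Sim H v w) : Sim H w v := by
  obtain ⟨g, rfl⟩ := h; exact ⟨g⁻¹, inv_smul_smul _ _⟩
theorem Sim.trans {u v w : V} (h : Sim H u v) (h' : Sim H v w) : Sim H u w := by
  obtain ⟨g, rfl⟩ := h; obtain ⟨k, rfl⟩ := h'; exact ⟨k * g, mul_smul _ _ _⟩
theorem Sim.neg {v w : V} (h : Sim H v w) : Sim H (-v) (-w) := by
  obtain ⟨g, rfl⟩ := h; exact ⟨g, smul_neg _ _⟩
theorem Sim.smul (h : H) (v : V) : Sim H v (h • v) := ⟨h, rfl⟩
theorem Sim.eq_zero {v : V} (h : Sim H 0 v) : v = 0 := by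
  obtain ⟨g, rfl⟩ := h; exact smul_zero g

theorem smul_ne {h : H} {v : V} (hv : v ≠ 0) : h • v ≠ 0 := fun e => hv ((smul_eq_zero_iff_eq h).1 e)

theorem W_conj {h k : H} {d : V} (hd : d ∈ W V h) : k • d ∈ W V (k * h * k⁻¹) := by
  obtain ⟨x, rfl⟩ := hd
  exact ⟨k • x, by rw [smul_sub, mul_smul, mul_smul, inv_smul_smul]⟩

theorem C_conj {h k : H} {d : V} : k • d ∈ C V (k * h * k⁻¹) ↔ d ∈ C V h := by
  rw [mem_C, mem_C, mul_smul, mul_smul, inv_smul_smul, smul_left_cancel_iff]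

theorem W_smul {h : H} {d : V} (hd : d ∈ W V h) : h • d ∈ W V h := by
  simpa using W_conj (k := h) hd

theorem neg_of_W {t : H} (ht : t * t = 1) {d : V} (hd : d ∈ W V t) : t • d = -d := by
  obtain ⟨x, rfl⟩ := hd
  rw [smul_sub, ← mul_smul, ht, one_smul, neg_sub]

/-- splitting when the two spaces meet trivially -/
theorem surj_W [Finite V] {h : H} (hd : ∀ v ∈ W V h, h • v = v → v = 0) {d : V} (hw : d ∈ W V h) :
    ∃ a ∈ W V h, a - h • a = d := by
  let f : W V h → W V h := fun a => ⟨a - h • (a : V), sub_mem_W _ _⟩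
  have hf : Function.Injective f := fun a b e => by
    have e' : (a : V) - h • (a : V) = b - h • (b : V) := congrArg Subtype.val e
    have := hd (a - b) (sub_mem a.2 b.2) (by rw [smul_sub]; linear_combination (norm := abel) -e')
    exact Subtype.ext (sub_eq_zero.1 this)
  obtain ⟨a, ha⟩ := Finite.surjective_of_injective hf ⟨d, hw⟩
  exact ⟨a, a.2, congrArg Subtype.val ha⟩

theorem split [Finite V] {h : H} (hd : ∀ v ∈ W V h, h • v = v → v = 0) (v : V) :
    ∃ a ∈ W V h, ∃ c ∈ C V h, v = a + c := by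
  obtain ⟨a, ha, e⟩ := surj_W hd (sub_mem_W h v)
  refine ⟨a, ha, v - a, ?_, by abel⟩
  rw [mem_C, smul_sub]
  rw [← sub_eq_zero] at e ⊢
  rw [← e]; abel

namespace Bin

variable (B : Bin H V)
include B

theorem L1 (f : V →+ V) (hf : ∀ v, Sim H v (f v)) : ∃ h : H, ∀ v, h • v = f v := by
  obtain ⟨h, c, e⟩ := B.bin Set.univ f (fun a _ b _ => by rw [← map_sub]; exact hf _)
  have := e 0 trivial
  rw [map_zero, smul_zero, zero_add] at this
  exact ⟨h, fun v => by rw [e v trivial, ← this, add_zero]⟩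

theorem L2 (d : V) : ∃ g : H, ∀ x, Sim H x (x - d) → g • x = x - d := by
  classical
  obtain ⟨h, c, e⟩ := B.bin {a | a = 0 ∨ Sim H (-a) (-a - d)} (fun a => if a = 0 then -d else a) (by
    have k : ∀ a : V, a ≠ 0 → Sim H (-a) (-a - d) → Sim H (a - 0) (a - -d) := fun a _ s => by
      have := s.neg
      convert this using 1 <;> abel
    intro a ha b hb
    by_cases h1 : a = 0 <;> by_cases h2 : b = 0
    · simp only [h1, h2, if_true, sub_self]; exact Sim.refl _
    · simp only [h1, h2, if_true, if_false]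
      have := (k b h2 (hb.resolve_left h2)).neg
      rwa [neg_sub, neg_sub] at this
    · simp only [h1, h2, if_true, if_false]
      exact k a h1 (ha.resolve_left h1)
    · simp only [h1, h2, if_false]; exact Sim.refl _)
  have h0 := e 0 (Or.inl rfl)
  simp only [if_true, smul_zero, zero_add] at h0
  refine ⟨h, fun x hx => ?_⟩
  by_cases hx0 : x = 0
  · subst hx0
    rw [smul_zero, hx.eq_zero]
  · have := e (-x) (Or.inr (by rwa [neg_neg]))
    simp only [neg_eq_zero, hx0, if_false, smul_neg, ← h0] at this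
    rw [← sub_eq_zero] at this ⊢
    rw [← this]; abel

noncomputable def g (d : V) : H := (B.L2 d).choose

theorem g_spec {d x : V} (hx : Sim H x (x - d)) : B.g d • x = x - d := (B.L2 d).choose_spec x hx

theorem g_of {d x : V} {h : H} (e : x - h • x = d) : B.g d • x = h • x := by
  have : h • x = x - d := by rw [← e]; abel
  rw [this]; exact B.g_spec ⟨h, this⟩

theorem g_fix {d x : V} {h : H} (e : x - h • x = d) {c : V} (hc : h • c = c) : B.g d • c = c := by
  have h1 := B.g_of e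
  have h2 := B.g_of (x := x + c) (h := h) (d := d) (by rw [smul_add, hc, ← e]; abel)
  rwa [smul_add, smul_add, h1, hc, add_right_inj] at h2

theorem g_swap {v w : V} (s : Sim H v w) : B.g (v - w) • v = w ∧ B.g (v - w) • w = v := by
  obtain ⟨h, rfl⟩ := s
  refine ⟨B.g_of rfl, ?_⟩
  have := B.g_of (d := v - h • v) (x := -(h • v)) (h := h⁻¹) (by rw [smul_neg, inv_smul_smul]; abel)
  rwa [smul_neg, smul_neg, inv_smul_smul, neg_inj] at this

theorem g_neg {d : V} {h : H} (hd : d ∈ W V h) : B.g d • d = -d := by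
  obtain ⟨x, rfl⟩ := hd
  obtain ⟨h1, h2⟩ := B.g_swap (Sim.smul h x)
  conv_lhs => rw [smul_sub, h1, h2]
  rw [neg_sub]

theorem g_ne {d : V} {h : H} (hd : d ∈ W V h) (h0 : d ≠ 0) : B.g d ≠ 1 := fun e => by
  obtain ⟨x, rfl⟩ := hd
  have := B.g_of (x := x) (h := h) rfl
  rw [e, one_smul] at this
  exact h0 (sub_eq_zero.2 this)

end Bin

variable (V) in
def Refl (t : H) : Prop := t ≠ 1 ∧ ∀ g : H, g ≠ 1 → C V t ≤ C V g → C V g ≤ C V t

theorem exists_refl [Finite V] {g : H} (hg : g ≠ 1) : ∃ r : H, Refl V r ∧ C V g ≤ C V r := by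
  have : Finite (AddSubgroup V) := Finite.of_injective _ SetLike.coe_injective
  obtain ⟨U, h1, ⟨r, hr, rfl⟩, h2⟩ := Finite.exists_le_maximal
    (p := fun U : AddSubgroup V => ∃ r : H, r ≠ 1 ∧ C V r = U) (a := C V g) ⟨g, hg, rfl⟩
  exact ⟨r, ⟨hr, fun k hk le => h2 ⟨k, hk, rfl⟩ le⟩, h1⟩

theorem Refl.conj {t : H} (ht : Refl V t) (k : H) : Refl V (k * t * k⁻¹) := by
  refine ⟨fun e => ht.1 (by simpa [mul_assoc] using congrArg (fun x => k⁻¹ * x * k) e), fun g hg le v hv => ?_⟩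
  have h1 : k⁻¹ * g * k⁻¹⁻¹ ≠ 1 := fun e => hg (by simpa [mul_assoc] using congrArg (fun x => k * x * k⁻¹) e)
  have := ht.2 _ h1 (fun x hx => by
    have := (C_conj (k := k⁻¹)).2 (le ((C_conj (k := k)).2 hx))
    rwa [inv_smul_smul] at this) ((C_conj (k := k⁻¹)).2 hv)
  have := (C_conj (k := k)).2 this
  rwa [smul_inv_smul] at this

namespace Bin

variable (B : Bin H V)
include B

theorem R1 {t : H} (ht : Refl V t) {d : V} (hd : d ∈ W V t) (h0 : d ≠ 0) : B.g d = t := by
  obtain ⟨x, e⟩ := hd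
  by_contra hne
  have h1 : t⁻¹ * B.g d ≠ 1 := fun e => hne (inv_mul_eq_one.1 e).symm
  have := ht.2 _ h1 (fun c hc => by
    rw [mem_C, mul_smul, B.g_fix e hc, inv_smul_eq_iff]; exact hc.symm)
    (show x ∈ C V _ by rw [mem_C, mul_smul, B.g_of e, inv_smul_smul])
  exact h0 (by rw [← e, this, sub_self])

theorem R2 {t : H} (ht : Refl V t) : t * t = 1 := by
  refine B.faith _ fun x => ?_
  by_cases hx : x - t • x = 0
  · rw [mul_smul, ← sub_eq_zero.1 hx, ← sub_eq_zero.1 hx]
  · have := (B.g_swap (Sim.smul t x)).2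
    rwa [B.R1 ht (sub_mem_W t x) hx, ← mul_smul] at this

theorem R3 {t s : H} (ht : Refl V t) (hs : Refl V s) {d : V} (hd : d ∈ W V t) (hd' : d ∈ W V s)
    (h0 : d ≠ 0) : t = s := by rw [← B.R1 ht hd h0, B.R1 hs hd' h0]

theorem exists_W {t : H} (ht : t ≠ 1) : ∃ d ∈ W V t, d ≠ 0 := by
  by_contra hc
  push Not at hc
  exact ht (B.faith _ fun v => (sub_eq_zero.1 (hc _ (sub_mem_W t v))).symm)

theorem R4 [Finite V] {g : H} (hg : g ≠ 1) : ∃ h : H, ∀ v : V, h • v = v → v = 0 := by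
  have : Finite (AddSubgroup V) := Finite.of_injective _ SetLike.coe_injective
  obtain ⟨U, -, ⟨h, rfl⟩, h2⟩ := Finite.exists_le_minimal
    (p := fun U : AddSubgroup V => ∃ r : H, C V r = U) (a := C V g) ⟨g, rfl⟩
  have key : ∀ t : H, Refl V t → C V h ≤ C V t := fun t ht => by
    have ht2 := B.R2 ht
    by_cases hc : ∀ y ∈ C V (t * h), h • y = y
    · intro y hy
      have h3 : (t * h) • y = y := h2 ⟨t * h, rfl⟩ hc hy
      rwa [mul_smul, show h • y = y from hy] at h3
    · push Not at hc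
      obtain ⟨y, hy, hn⟩ := hc
      have h3 : h • y = t • y := by
        rw [← show (t * h) • y = y from hy, ← mul_smul t, ← mul_assoc, ht2, one_mul,
          show (t * h) • y = y from hy]
      intro c hc
      have := B.g_fix (x := y) (h := h) rfl hc
      rwa [B.R1 ht (h3 ▸ sub_mem_W t y) (fun e => hn (sub_eq_zero.1 e).symm)] at this
  obtain ⟨r, hr, -⟩ := exists_refl (V := V) hg
  rcases B.irr (⨅ t : {t : H // Refl V t}, C V t.1) (fun k v hv => by
    rw [AddSubgroup.mem_iInf] at hv ⊢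
    intro t
    have := (C_conj (k := k)).2 (hv ⟨_, t.2.conj k⁻¹⟩)
    simpa [mul_assoc] using this) with e | e
  · refine ⟨h, fun v hv => ?_⟩
    rw [← AddSubgroup.mem_bot, ← e, AddSubgroup.mem_iInf]
    exact fun t => key _ t.2 hv
  · exfalso
    refine hr.1 (B.faith _ fun v => ?_)
    have : v ∈ (⊤ : AddSubgroup V) := trivial
    rw [← e, AddSubgroup.mem_iInf] at this
    exact this ⟨r, hr⟩

theorem all_W [Finite V] {g : H} (hg : g ≠ 1) (d : V) : ∃ h : H, d ∈ W V h := by
  obtain ⟨h, hh⟩ := B.R4 hg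
  obtain ⟨a, ha, c, hc, e⟩ := split (h := h) (fun v _ => hh v) d
  exact ⟨h, by rw [e, hh c hc, add_zero]; exact ha⟩

theorem R5 {t h : H} (ht : Refl V t) {d : V} (hd : d ∈ W V t) (h0 : d ≠ 0) (hd' : h • d ∈ W V t) :
    h * t * h⁻¹ = t ∧ (h • d = d ∨ h • d = -d) := by
  refine ⟨B.R3 (ht.conj h) ht (W_conj hd) hd' (smul_ne h0), ?_⟩
  by_cases e : d - h • d = 0
  · exact Or.inl (sub_eq_zero.1 e).symm
  · have := (B.g_swap (Sim.smul h d)).1
    rw [B.R1 ht (sub_mem hd hd') e, neg_of_W (B.R2 ht) hd] at this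
    exact Or.inr this.symm

/-- the small case -/
theorem small [Finite V] [Nontrivial V] (hs : ∀ (h : H) (v : V), h • v = v ∨ h • v = -v) :
    (Nat.card V).Prime ∧ Nat.card H ≤ 2 := by
  have hi : ∀ U : AddSubgroup V, U = ⊥ ∨ U = ⊤ := fun U => B.irr U fun h v hv => by
    rcases hs h v with e | e <;> rw [e]
    · exact hv
    · exact neg_mem hv
  have : IsSimpleAddGroup V := ⟨fun U _ => hi U⟩
  refine ⟨IsSimpleAddGroup.prime_card, ?_⟩
  obtain ⟨v, hv⟩ := exists_ne (0 : V)
  let f : H → ({v, -v} : Set V) := fun h => ⟨h • v, hs h v⟩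
  have hf : Function.Injective f := fun a b e => by
    have e' : a • v = b • v := congrArg Subtype.val e
    rcases hi (C V (b⁻¹ * a)) with e | e
    · refine (hv ?_).elim
      rw [← AddSubgroup.mem_bot, ← e, mem_C, mul_smul, e', inv_smul_smul]
    · refine (inv_mul_eq_one.1 (B.faith _ fun x => ?_)).symm
      rw [← mem_C, e]; trivial
  refine (Nat.card_le_card_of_injective f hf).trans ?_
  rw [Nat.card_coe_set_eq]
  exact (Set.ncard_insert_le _ _).trans (by rw [Set.ncard_singleton])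

end Bin

end H99.BA
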