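import Cfsg.Agent.H99.BA1
import Cfsg.Agent.H88.IrrField

/-! Binary affine actions: recognition of the plane orthogonal group. -/

set_option autoImplicit false

namespace H99.BA

theorem quad {K : Type} [Field K] [Fintype K] (σ : K ≃+* K) (h2 : ∀ x, σ (σ x) = x) (h1 : σ ≠ 1) :
    ∃ (F : Type) (_ : Field F) (_ : Fintype F) (_ : Algebra F K), Module.finrank F K = 2 ∧
      (∃ φ : K ≃ₐ[F] K, ∀ x, φ x = σ x) ∧ (∀ φ : K ≃ₐ[F] K, (∀ x, φ x = x) ∨ ∀ x, φ x = σ x) ∧
      ∀ a : K, Algebra.norm F a = 1 ↔ a * σ a = 1 := by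
  classical
  have hσ : σ * σ = 1 := RingEquiv.ext h2
  have ho : orderOf σ = 2 := orderOf_eq_prime (by rw [sq, hσ]) h1
  let Γ : Subgroup (RingAut K) := Subgroup.zpowers σ
  have hΓ : ∀ γ : Γ, γ = 1 ∨ γ = ⟨σ, Subgroup.mem_zpowers _⟩ := fun ⟨γ, hγ⟩ => by
    obtain ⟨n, rfl⟩ := hγ
    rcases Int.even_or_odd' n with ⟨k, rfl | rfl⟩
    · left; ext1; simp [zpow_mul, zpow_ofNat, sq, hσ]
    · right; ext1; simp [zpow_add, zpow_mul, zpow_ofNat, sq, hσ]
  have hc : Nat.card Γ = 2 := by rw [Nat.card_zpowers, ho]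
  have : Finite Γ := Nat.finite_of_card_ne_zero (by omega)
  let _ := Fintype.ofFinite Γ
  have : FaithfulSMul Γ K := ⟨fun {a b} h => Subtype.ext (RingEquiv.ext h)⟩
  let F := FixedPoints.subfield Γ K
  let φ₀ : K ≃ₐ[F] K := MulSemiringAction.toAlgAut Γ F K ⟨σ, Subgroup.mem_zpowers _⟩
  have hφ₀ : ∀ x, φ₀ x = σ x := fun _ => rfl
  have hall : ∀ φ : K ≃ₐ[F] K, φ = 1 ∨ φ = φ₀ := fun φ => by
    obtain ⟨γ, rfl⟩ := FixedPoints.toAlgAut_surjective Γ K φ
    rcases hΓ γ with rfl | rfl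
    · exact Or.inl (map_one _)
    · exact Or.inr rfl
  have hne : (1 : K ≃ₐ[F] K) ≠ φ₀ := fun e => h1 (RingEquiv.ext fun x => by
    rw [← hφ₀, ← e]; rfl)
  refine ⟨F, inferInstance, Fintype.ofFinite _, inferInstance, ?_, ⟨φ₀, hφ₀⟩, fun φ => ?_, fun a => ?_⟩
  · rw [FixedPoints.finrank_eq_card, ← Nat.card_eq_fintype_card, hc]
  · rcases hall φ with rfl | rfl
    · exact Or.inl fun _ => rfl
    · exact Or.inr hφ₀
  · have h := Algebra.norm_eq_prod_automorphisms F a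
    have hu : (Finset.univ : Finset (K ≃ₐ[F] K)) = {1, φ₀} := by
      ext φ; simpa using hall φ
    rw [hu, Finset.prod_pair hne, hφ₀, AlgEquiv.one_apply] at h
    rw [← h, ← map_one (algebraMap F K), (algebraMap F K).injective.eq_iff]

variable {H V : Type*} [Group H] [AddCommGroup V] [DistribMulAction H V]

variable (H V) in
def Concl : Prop :=
  ∃ (F E : Type) (_ : Field F) (_ : Fintype F) (_ : Field E) (_ : Fintype E) (_ : Algebra F E)
    (e : V ≃+ E), Module.finrank F E = 2 ∧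
    (∀ h : H, ∃ (a : E) (φ : E ≃ₐ[F] E), Algebra.norm F a = 1 ∧ ∀ v, e (h • v) = a * φ (e v)) ∧
    ∀ (a : E) (φ : E ≃ₐ[F] E), Algebra.norm F a = 1 → ∃ h : H, ∀ v, e (h • v) = a * φ (e v)

variable (V) in
def R (t : H) : Prop := t ≠ 1 ∧ ∃ v : V, v ≠ 0 ∧ t • v = v

structure Fin2 (B : Bin H V) : Prop where
  hA : ∀ v : V, v ≠ 0 → ∃ s : H, s ≠ 1 ∧ s • v = v ∧ ∀ h : H, h • v = v → h = 1 ∨ h = s
  hB : ∀ d : V, d ≠ 0 → ∃ v : V, v ≠ 0 ∧ B.g d • v = v

namespace Fin2

variable {B : Bin H V} (X : Fin2 B)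
include X

theorem same {t s : H} (ht : t ≠ 1) (hs : s ≠ 1) {v : V} (hv : v ≠ 0) (h1 : t • v = v)
    (h2 : s • v = v) : t = s := by
  obtain ⟨r, -, -, hr⟩ := X.hA v hv
  rw [(hr t h1).resolve_left ht, (hr s h2).resolve_left hs]

theorem refl {t : H} (ht : R V t) : Refl V t := by
  obtain ⟨h1, v, hv, e⟩ := ht
  exact ⟨h1, fun g hg le => by rw [X.same h1 hg hv e (le e)]⟩

theorem sq {t : H} (ht : R V t) : t * t = 1 := B.R2 (X.refl ht)

theorem inv {t : H} (ht : R V t) : t⁻¹ = t := inv_eq_of_mul_eq_one_right (X.sq ht)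

theorem rr {t s : H} (ht : R V t) (hs : R V s) : ¬ R V (t * s) := by
  rintro ⟨h1, v, hv, e⟩
  have h2 : s • v = t • v := by rw [mul_smul, ← eq_inv_smul_iff, X.inv ht] at e; exact e
  refine h1 ?_
  have : t = s := by
    by_cases h0 : v - t • v = 0
    · have h3 := (sub_eq_zero.1 h0).symm
      exact X.same ht.1 hs.1 hv h3 (h2.trans h3)
    · exact B.R3 (X.refl ht) (X.refl hs) (sub_mem_W t v) (h2 ▸ sub_mem_W s v) h0
  rw [this, X.sq hs]

variable [Finite V]

theorem gR {d : V} (hd : d ≠ 0) : R V (B.g d) ∧ B.g d • d = -d := by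
  obtain ⟨s, hs, -⟩ := X.hA d hd
  obtain ⟨h, hh⟩ := B.all_W hs d
  exact ⟨⟨B.g_ne hh hd, X.hB d hd⟩, B.g_neg hh⟩

theorem dec {s : H} (hs : R V s) (h : H) : R V h ∨ R V (h * s) := by
  obtain ⟨h1, v, hv, e⟩ := id hs
  have k : ∀ x : H, x • v = v → x = 1 ∨ x = s := fun x hx => by
    by_cases h : x = 1
    · exact Or.inl h
    · exact Or.inr (X.same h h1 hv hx e)
  by_cases h0 : v - h • v = 0
  · rcases k h (sub_eq_zero.1 h0).symm with rfl | rfl
    · right; rwa [one_mul]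
    · exact Or.inl hs
  · have ht := (X.gR h0).1
    have := (B.g_swap (Sim.smul h v)).2
    rw [← mul_smul] at this
    have hh : h = B.g (v - h • v) * (B.g (v - h • v) * h) := by
      rw [← mul_assoc, X.sq ht, one_mul]
    rcases k _ this with e' | e' <;> rw [e'] at hh
    · left; rw [hh, mul_one]; exact ht
    · right; rw [hh, mul_assoc, X.sq hs, mul_one]; exact ht

theorem cinv {c : H} (hc : ¬ R V c) : ¬ R V c⁻¹ := fun h => hc (by rw [← inv_inv c, X.inv h]; exact h)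

theorem cmul {s c c' : H} (hs : R V s) (hc : ¬ R V c) (hc' : ¬ R V c') : ¬ R V (c * c') := by
  have h1 := (X.dec hs c).resolve_left hc
  have h2 := (X.dec hs c'⁻¹).resolve_left (X.cinv hc')
  have := X.rr h1 h2
  rwa [← X.inv h2, show c * s * (c'⁻¹ * s)⁻¹ = c * c' by group] at this

theorem sc {s c : H} (hs : R V s) (hc : ¬ R V c) : s * c = c⁻¹ * s := by
  have h1 := X.inv ((X.dec hs c).resolve_left hc)
  rw [mul_inv_rev, X.inv hs] at h1
  calc s * c = c⁻¹ * (c * s) * c := by group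
    _ = c⁻¹ * s := by rw [← h1]; group

theorem ccomm {s c c' : H} (hs : R V s) (hc : ¬ R V c) (hc' : ¬ R V c') : c * c' = c' * c := by
  have h1 := X.sc hs (X.cmul hs hc hc')
  rw [← mul_assoc, X.sc hs hc, mul_assoc, X.sc hs hc', ← mul_assoc, mul_left_inj, ← mul_inv_rev,
    inv_inj] at h1
  exact h1.symm

theorem orb {v : V} (hv : v ≠ 0) (h : H) : ∃ c : H, ¬ R V c ∧ c • v = h • v := by
  obtain ⟨s, h1, h2, -⟩ := X.hA v hv
  by_cases hh : R V h
  · exact ⟨h * s, X.rr hh ⟨h1, v, hv, h2⟩, by rw [mul_smul, h2]⟩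
  · exact ⟨h, hh, rfl⟩

theorem concl [Nontrivial V] : Concl H V := by
  obtain ⟨v₀, hv₀⟩ := exists_ne (0 : V)
  obtain ⟨s, hs1, hs2, -⟩ := X.hA v₀ hv₀
  have hs : R V s := ⟨hs1, v₀, hv₀, hs2⟩
  obtain ⟨hpp, hK⟩ := H88.exists_field_of_irreducible v₀ hv₀
    {φ | ∃ c : H, ¬ R V c ∧ DistribMulAction.toAddMonoidEnd H V c = φ}
    (by
      rintro _ ⟨c, hc, rfl⟩ _ ⟨c', hc', rfl⟩
      rw [← map_mul, ← map_mul, X.ccomm hs hc hc'])
    (fun U hU => B.irr U fun h v hv => by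
      by_cases h0 : v = 0
      · rw [h0, smul_zero]; exact zero_mem _
      · obtain ⟨c, hc, e⟩ := X.orb h0 h
        rw [← e]
        exact hU _ ⟨c, hc, rfl⟩ v hv)
  obtain ⟨K, _, _, hcard⟩ := H88.exists_field_of_isPrimePow hpp
  obtain ⟨e, he1, he⟩ := hK K hcard
  have hz : ∀ c : H, ¬ R V c → ∀ x, c • e x = e (e.symm (c • v₀) * x) := fun c hc => by
    obtain ⟨z, hz⟩ := he _ ⟨c, hc, rfl⟩
    have hz' : ∀ x, c • e x = e (z * x) := hz
    intro x
    rw [← he1, hz' 1, mul_one, e.symm_apply_apply, hz']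
  let τ : K → K := fun x => e.symm (s • e x)
  have hτ : ∀ x, e (τ x) = s • e x := fun x => e.apply_symm_apply _
  have hadd : ∀ x y, τ (x + y) = τ x + τ y := fun x y => e.injective (by
    rw [map_add, hτ, hτ, hτ, map_add, smul_add])
  have hneg : ∀ x, τ (-x) = - τ x := fun x => e.injective (by
    rw [map_neg, hτ, hτ, map_neg, smul_neg])
  have h0 : τ 0 = 0 := e.injective (by rw [hτ, map_zero, smul_zero])
  have hone : τ 1 = 1 := e.injective (by rw [hτ, he1, hs2])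
  have hττ : ∀ x, τ (τ x) = x := fun x => e.injective (by
    rw [hτ, hτ, ← mul_smul, X.sq hs, one_smul])
  have hc1 : ∀ c : H, ¬ R V c → ∀ x, τ (e.symm (c • v₀) * x) = e.symm (c⁻¹ • v₀) * τ x :=
    fun c hc x => e.injective (by
      rw [hτ, ← hz c hc, ← hz _ (X.cinv hc), hτ, ← mul_smul, ← mul_smul, X.sc hs hc])
  have hc2 : ∀ c : H, ¬ R V c → τ (e.symm (c • v₀)) = e.symm (c⁻¹ • v₀) := fun c hc => by
    have := hc1 c hc 1
    rwa [mul_one, hone, mul_one] at this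
  have hmul : ∀ y x, τ (y * x) = τ y * τ x := by
    let M : AddSubgroup V :=
      { carrier := {v | ∀ x, τ (e.symm v * x) = τ (e.symm v) * τ x}
        add_mem' := fun {a b} ha hb x => by
          rw [map_add, add_mul, hadd, hadd, ha x, hb x, add_mul]
        zero_mem' := fun x => by rw [map_zero, zero_mul, h0, zero_mul]
        neg_mem' := fun {a} ha x => by rw [map_neg, neg_mul, hneg, hneg, ha x, neg_mul] }
    have hM : AddSubgroup.closure (Set.range fun h : H => h • v₀) ≤ M := by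
      rw [AddSubgroup.closure_le]
      rintro _ ⟨h, rfl⟩ x
      obtain ⟨c, hc, e'⟩ := X.orb hv₀ h
      change τ (e.symm (h • v₀) * x) = τ (e.symm (h • v₀)) * τ x
      rw [← e', hc1 c hc, hc2 c hc]
    rcases B.irr (AddSubgroup.closure (Set.range fun h : H => h • v₀)) (fun h v hv => by
      induction hv using AddSubgroup.closure_induction with
      | mem x hx =>
        obtain ⟨k, rfl⟩ := hx
        exact AddSubgroup.subset_closure ⟨h * k, mul_smul _ _ _⟩
      | zero => rw [smul_zero]; exact zero_mem _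
      | add x y _ _ hx hy => rw [smul_add]; exact add_mem hx hy
      | neg x _ hx => rw [smul_neg]; exact neg_mem hx) with h | h
    · refine (hv₀ ?_).elim
      rw [← AddSubgroup.mem_bot, ← h]
      exact AddSubgroup.subset_closure ⟨1, one_smul _ _⟩
    · intro y x
      have := hM (h ▸ AddSubgroup.mem_top (e y)) x
      rwa [e.symm_apply_apply] at this
  let σ : K ≃+* K := ⟨⟨τ, τ, hττ, hττ⟩, hmul, hadd⟩
  have hσ : ∀ x, σ x = τ x := fun _ => rfl
  obtain ⟨F, _, _, _, hr, ⟨φ₀, hφ₀⟩, hall, hn⟩ := quad σ hττ (fun h => hs1 (B.faith _ fun v => by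
    rw [← e.apply_symm_apply v, ← hτ, ← hσ, h]; rfl))
  have hn1 : ∀ c : H, ¬ R V c → Algebra.norm F (e.symm (c • v₀)) = 1 := fun c hc => by
    rw [hn, hσ, hc2 c hc]
    apply e.injective
    rw [← hz c hc, e.apply_symm_apply, smul_inv_smul, he1]
  have hc3 : ∀ c : H, ¬ R V c → ∀ v, e.symm (c • v) = e.symm (c • v₀) * e.symm v := fun c hc v => by
    rw [e.symm_apply_eq, ← hz c hc, e.apply_symm_apply]
  have hc4 : ∀ c : H, ¬ R V c → ∀ v, e.symm ((c * s) • v) = e.symm (c • v₀) * τ (e.symm v) :=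
    fun c hc v => by rw [mul_smul, hc3 c hc]; simp only [τ, e.apply_symm_apply]
  refine ⟨F, K, inferInstance, inferInstance, inferInstance, inferInstance, inferInstance, e.symm, hr,
    fun h => ?_, fun a φ ha => ?_⟩
  · by_cases hh : R V h
    · have hc := X.rr hh hs
      refine ⟨_, φ₀, hn1 _ hc, fun v => ?_⟩
      rw [hφ₀, hσ, ← hc4 _ hc, mul_assoc, X.sq hs, mul_one]
    · exact ⟨_, 1, hn1 _ hh, fun v => hc3 _ hh v⟩
  · have : ∃ c : H, ¬ R V c ∧ e.symm (c • v₀) = a := by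
      by_cases h1 : 1 - a = 0
      · exact ⟨1, fun h => h.1 rfl, by rw [one_smul, ← he1, e.symm_apply_apply, sub_eq_zero.1 h1]⟩
      · obtain ⟨ht, hd⟩ := X.gR (d := e (1 - a)) (by rwa [Ne, e.map_eq_zero_iff])
        have hc := X.rr ht hs
        refine ⟨_, hc, ?_⟩
        have := hc4 _ hc (e (1 - a))
        rw [mul_assoc, X.sq hs, mul_one, hd, map_neg, e.symm_apply_apply, ← hσ, map_sub σ,
          map_one σ] at this
        rw [hn] at ha
        apply mul_right_cancel₀ h1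
        linear_combination a * this - (e.symm ((B.g (e (1 - a)) * s) • v₀)) * ha
    obtain ⟨c, hc, rfl⟩ := this
    rcases hall φ with h | h
    · exact ⟨c, fun v => by rw [h, hc3 c hc]⟩
    · exact ⟨c * s, fun v => by rw [h, hc4 c hc, hσ]⟩

end Fin2

end H99.BA
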