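/- C3 tower (row S5227), slot L1b. -/
import Cfsg.Agent.H20.C3Spec

set_option autoImplicit false
set_option linter.unusedSectionVars false
set_option linter.unusedSimpArgs false

open Subgroup H20.C3
open H90.RF (cm conj_eq_cm)
open H90.U5 (Bq)

namespace H99.C3

variable {E M : Subgroup Co}

theorem nor_of {s : Co} (h : ∀ x ∈ E, cm s x ∈ E) : s ∈ normalizer (E : Set Co) :=
  mem_normalizer_fintype fun x hx => by rw [conj_eq_cm]; exact mul_mem hx (h x hx)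

theorem cenZ (h : Bq 3 zA 1 E M) (s : Co) : s ∈ E ↔ ∀ m ∈ M, cm s m ∈ sZ := h.cen s

theorem Z3_le (h : Bq 3 zA 1 E M) (hD : M ≤ sD) : sZ3 ≤ E := fun s hs => (cenZ h s).2 fun m hm => by
  obtain ⟨h1, h2, h3, h4, h5⟩ := hs
  obtain ⟨k1, k2⟩ := hD hm
  simp [mem_sZ, cm_d, cm_e, cm_f, cm_g, cm_h, *]

theorem xe_not (h : Bq 3 zA 1 E M) (hD : M ≤ sD) {m : Co} (hm : m ∈ M) (hd : m.d ≠ 0) : xe 1 ∉ E :=
  fun e => by
    obtain ⟨k1, k2⟩ := hD hm
    have := ((cenZ h _).1 e m hm).2.2.2.2.2.2.2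
    simp [cm_h, xe, k1, k2, hd] at this

theorem cov (hD : M ≤ sD) : ∀ m ∈ M, ∃ k, (xh k)⁻¹ * cm (xe 1) m ∈ zA 1 := fun m hm => by
  obtain ⟨k1, k2⟩ := hD hm
  refine ⟨-m.d, show _ ∈ sZ from ?_⟩
  simp [mem_sZ, cm_d, cm_e, cm_f, cm_g, cm_h, xe, xh, k1, k2]

theorem leY (h : Bq 3 zA 1 E M) (hD : M ≤ sD) {m : Co} (hm : m ∈ M) (hd : m.d ≠ 0) : M ≤ sY := by
  intro n hn
  obtain ⟨n1, n2⟩ := hD hn
  obtain ⟨k1, k2⟩ := hD hm
  by_contra hne
  have hb : ∀ t ∈ E, t.b = 0 := fun t ht => by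
    obtain ⟨-, -, -, -, e1, -, e2, -⟩ := (cenZ h _).1 ht n hn
    simp only [cm_e, cm_g, n1, n2] at e1 e2
    by_contra hb
    refine hne ⟨n1, n2, ?_⟩
    generalize t.b = b at *
    generalize t.c = c' at *
    generalize t.e = e' at *
    generalize n.c = c at *
    generalize n.e = e at *
    clear * - e1 e2 hb
    revert b c' e' c e
    decide
  refine h.no2 (B := sA) (fun s hs => nor_of fun t ht => Z3_le h hD ?_) (fun x hx y hy n hn => ?_)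
    (s := xe 1) ⟨rfl, rfl, rfl⟩ (xe_not h hD hm hd) (fun i j => xc i * xe j) xh
    (fun i j => by simp [mem_sA, xc, xe]) (fun i j i' j' e => ?_) (cov hD)
  · obtain ⟨h1, h2, h3⟩ := hs
    simp [mem_sZ3, cm_d, cm_e, hb t ht, *]
  · obtain ⟨h1, h2, h3⟩ := hx
    obtain ⟨h4, h5, h6⟩ := hy
    show _ ∈ sZ
    simp [mem_sZ, cm_d, cm_e, cm_f, cm_g, cm_h, *]
  · obtain ⟨-, -, -, -, -, e1, -, e2⟩ := (cenZ h _).1 e m hm
    simp [cm_f, cm_h, xc, xe, k1, k2, hd, neg_add_eq_zero] at e1 e2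
    exact ⟨e1, e2⟩

/-- the orthogonal complement of an element of `Y` -/
def sX (m : Co) : Subgroup Co where
  carrier := {t | t.c = 0 ∧ -m.d * t.e + m.f * t.b + m.g * t.a = 0}
  one_mem' := by simp
  mul_mem' := fun {u w} hu hw => by
    simp only [Set.mem_setOf_eq, Co.mul_a, Co.mul_b, Co.mul_c, Co.mul_e, hu.1, hw.1] at hu hw ⊢
    exact ⟨by simp, by linear_combination hu.2 + hw.2⟩
  inv_mem' := fun {u} hu => by
    simp only [Set.mem_setOf_eq, Co.inv_a, Co.inv_b, Co.inv_c, Co.inv_e, hu.1] at hu ⊢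
    exact ⟨by simp, by linear_combination -hu.2⟩

theorem le_X (h : Bq 3 zA 1 E M) (hY : M ≤ sY) {m : Co} (hm : m ∈ M) (hd : m.d ≠ 0) : E ≤ sX m :=
  fun t ht => by
    obtain ⟨k1, k2, k3, k4⟩ := hY hm
    obtain ⟨-, -, -, -, -, e1, -, e2⟩ := (cenZ h _).1 ht m hm
    simp only [cm_f, cm_h, k1, k2, k3, k4] at e1 e2
    exact ⟨mul_left_cancel₀ hd (by linear_combination -e1), by linear_combination e2⟩

theorem X_le (h : Bq 3 zA 1 E M) (hY : M ≤ sY) {m : Co} (hm : m ∈ M) (hd : m.d ≠ 0) : sX m ≤ E := by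
  have hD : M ≤ sD := fun n hn => ⟨(hY hn).1, (hY hn).2.1⟩
  have YE : sY ≤ E := fun s hs => (cenZ h s).2 fun n hn => by
    obtain ⟨h1, h2, h3, h4⟩ := hs
    obtain ⟨k1, k2, k3, k4⟩ := hY hn
    simp [mem_sZ, cm_d, cm_e, cm_f, cm_g, cm_h, *]
  refine h.full (B := sE3) (fun s hs => nor_of fun t ht => YE ?_) (fun x hx y hy n hn => ?_)
    (s := xe 1) rfl (xe_not h hD hm hd) (fun x _ hx => le_X h hY hm hd hx) (fun x hx => hx.1) xe xh
    (fun _ => rfl) (fun i j e => ?_) (cov hD)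
  · have h1 : s.c = 0 := hs
    simp [mem_sY, cm_e, h1, (le_X h hY hm hd ht).1]
  · have h1 : y.c = 0 := hy
    obtain ⟨k1, k2, k3, k4⟩ := hY hn
    show _ ∈ sZ
    simp [mem_sZ, cm_d, cm_e, cm_f, cm_g, cm_h, *]
  · have := e.2
    simp [xe, hd, neg_add_eq_zero] at this
    exact this

theorem jobL1b : JobL1b := fun E M h hD m hm => by
  refine ⟨(hD hm).1, (hD hm).2, by_contra fun hd => ?_⟩
  have hY := leY h hD hm hd
  have hc : ∀ t ∈ E, t.c = 0 := fun t ht => (le_X h hY hm hd ht).1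
  have key : M ≤ sZ2 := h.gen_le fun β hβ u hu hM => by
    have hu' : u ∈ sZ2 := hu
    have uE : u ∈ E := h.ME (h.le hu)
    obtain ⟨k1, k2, k3, k4⟩ := hY hM
    by_cases h0 : (β u).d = 0
    · have a1 := ((cenZ h _).1 (X_le h hY hm hd (x := ⟨1, 0, 0, 0, m.g * m.d, 0, 0, 0, 0⟩) ⟨rfl, by
        linear_combination -m.g * sq_one hd⟩) _ hM).2.2.2.2.2.2.2
      have a2 := ((cenZ h _).1 (X_le h hY hm hd (x := ⟨0, 1, 0, 0, m.f * m.d, 0, 0, 0, 0⟩) ⟨rfl, by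
        linear_combination -m.f * sq_one hd⟩) _ hM).2.2.2.2.2.2.2
      simp [cm_h, k1, k2, k3, k4, h0] at a1 a2
      exact ⟨k1, k2, h0, k3, k4, a2, a1⟩
    exfalso
    obtain ⟨u1, u2, u3, u4, u5, u6, u7⟩ := hu'
    have u8 : u.h ≠ 0 := fun e => h0 (hβ.2 1 le_rfl u ⟨u1, u2, u3, u4, u5, u6, u7, e⟩).2.2.1
    have ha : ∀ t ∈ E, cm (β t) (β u) = 1 → t.a = 0 := fun t ht e => by
      have := congrArg Co.z (hβ.1.inj _ (mul_mem (inv_mem uE) (mul_mem (mul_mem ht uE) (inv_mem ht)))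
        ((hβ.1.cm ht uE).trans e))
      change (cm t u).z = 0 at this
      simp [cm_z, u1, u2, u3, u4, u5, u6, u7, u8, show (2 : F3) ≠ 0 by decide] at this
      exact this
    have s1 := sq_one h0
    obtain ⟨x, hx, ex⟩ := hβ.1.sur
      ⟨1, 0, 0, 0, (β u).g * (β u).d, (β u).d * ((β u).h - (β u).g), 0, 0, 0⟩
      (X_le h hY hM h0 ⟨rfl, by linear_combination -(β u).g * s1⟩)
    obtain ⟨y, hy, ey⟩ := hβ.1.sur (xg 1) (Z3_le h hD ⟨rfl, rfl, rfl, rfl, rfl⟩)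
    have x1 := ha x hx (by
      rw [ex]
      ext <;> simp [cm_d, cm_e, cm_f, cm_g, cm_h, cm_z, k1, k2, k3, k4]
      · linear_combination -(β u).g * s1
      · linear_combination -2 * ((β u).h - (β u).g) * s1 + (β u).g * three)
    have y1 := ha y hy (by
      rw [ey]
      ext <;> simp [cm_d, cm_e, cm_f, cm_g, cm_h, cm_z, k1, k2, k3, k4, xg])
    have cE : cm x y ∈ E := mul_mem (inv_mem hy) (mul_mem (mul_mem hx hy) (inv_mem hx))
    have e1 : cm x (cm x y) = 1 := by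
      ext <;> simp [cm_d, cm_e, cm_f, cm_g, cm_h, cm_z, x1, y1, hc x hx, hc y hy]
    have e2 := congrArg (fun w => (β w).z) e1
    simp only [hβ.1.cm hx cE, hβ.1.cm hx hy, hβ.1.one, ex, ey] at e2
    simp [cm_d, cm_e, cm_f, cm_g, cm_h, cm_z, xg] at e2
    exact absurd e2 (by decide)
  exact hd (key hm).2.2.1

end H99.C3
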