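import Cfsg.Agent.H99.CL

/-! A minimal centrally large subgroup normalized by `J(P)` and by all minimal centrally large
subgroups (nilpotent groups). -/

open scoped Pointwise commutatorElement
open Cfsg Subgroup

namespace H99

variable {G : Type*} [Group G] [Finite G]

/-- The properties shared by large abelian subgroups and centres of minimal CL-subgroups. -/
def CLGood (A : Subgroup G) : Prop :=
  IsMulCommutative A ∧ ∀ X : Subgroup G, IsCentralizerLarge X → IsMulCommutative X →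
    ((X ⊔ A : Subgroup G) : Set G) = (X : Set G) * (A : Set G) ∧
    Nat.card ↥(centralizer (X : Set G) ⊓ A) * Nat.card X = Nat.card A * Nat.card ↥(X ⊓ A)

theorem cl_centralizer_of_cd_comm {X : Subgroup G} (hX : IsCentralizerLarge X)
    (hc : IsMulCommutative X) : IsCentrallyLarge (centralizer (X : Set G)) := by
  rw [isCentrallyLarge_iff, cd_centralizer_centralizer hX]
  exact ⟨cd_centralizer hX, (isMulCommutative_iff_le_centralizer X).1 hc⟩

theorem clGood_of_maxAb {A : Subgroup G} (hA : A ∈ maxAbelianSubgroups G) : CLGood A := by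
  refine ⟨hA.1, fun X hX hc => ?_⟩
  have hQ := cl_centralizer_of_cd_comm hX hc
  have h1 := cl_coe_centralizer_sup_maxAb hQ hA
  have h2 := (cl_maxAb_key hQ hA).2.2.2.2
  rw [cd_centralizer_centralizer hX] at h1 h2
  exact ⟨h1, h2⟩

theorem clGood_of_mcl {R : Subgroup G} (hR : IsMinimalCentrallyLarge R) :
    CLGood (centralizer (R : Set G)) := by
  have hR1 := cl_cd hR.1
  refine ⟨isMulCommutative_centralizer_of_le (cl_centralizer_le hR.1), fun X hX hc => ?_⟩
  have hQ := cl_centralizer_of_cd_comm hX hc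
  refine ⟨cd_coe_sup hX (cd_centralizer hR1), ?_⟩
  have h1 := (mcl_inf_sup hR hQ).2
  rw [cd_centralizer_centralizer hX] at h1
  have h2 : X ⊓ R = X ⊓ centralizer (R : Set G) :=
    le_antisymm (le_inf inf_le_left h1) (inf_le_inf_left _ (cl_centralizer_le hR.1))
  have h3 := cd_card_sup (cd_centralizer hX) (cd_centralizer hR1)
  have h4 := (isCentralizerLarge_iff _).1 (cd_inf hX hR1)
  have h5 := (isCentralizerLarge_iff _).1 hX
  unfold cdm at h4 h5
  rw [cd_centralizer_inf hX hR1, h2] at h4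
  have p : 0 < Nat.card (centralizer (X : Set G)) := Nat.card_pos
  apply Nat.eq_of_mul_eq_mul_left p
  calc _ = (Nat.card X * Nat.card (centralizer (X : Set G))) *
        Nat.card ↥(centralizer (X : Set G) ⊓ centralizer (R : Set G)) := by ring
    _ = Nat.card ↥(X ⊓ centralizer (R : Set G)) *
        (Nat.card ↥(centralizer (X : Set G) ⊔ centralizer (R : Set G)) *
        Nat.card ↥(centralizer (X : Set G) ⊓ centralizer (R : Set G))) := by rw [h5, ← h4]; ring
    _ = _ := by rw [h3]; ring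

theorem clGood_step {N Z A : Subgroup G} (hN : IsCentralizerLarge N) (hNc : IsMulCommutative N)
    (hZ : IsCentralizerLarge Z) (hZc : IsMulCommutative Z) (hNZ : N < Z)
    (hmin : ∀ D, IsCentralizerLarge D → IsMulCommutative D → N < D → Nat.card Z ≤ Nat.card D)
    (hA : CLGood A) (hAN : A ≤ normalizer (N : Set G)) {g : G} (hg : g ∈ A)
    (hgZ : g ∉ normalizer (Z : Set G)) :
    ∃ D L : Subgroup G, IsCentralizerLarge D ∧ IsMulCommutative D ∧ N < D ∧
      Nat.card D = Nat.card Z ∧ Z ≤ L ∧ (∀ y ∈ L, ⁅g, y⁆ ∈ L) ∧ (∀ y ∈ L, ⁅g, y⁆ ∈ N → y ∈ D) ∧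
      ∀ x ∈ Z, ⁅g, x⁆ ∈ N → x ∈ N := by
  set Z' := Z.map (MulAut.conj g).toMonoidHom with hZ'
  have hZ'1 : IsCentralizerLarge Z' := cd_map_equiv hZ _
  have hmemZ' : ∀ z ∈ Z, g * z * g⁻¹ ∈ Z' := fun z hz => ⟨z, hz, rfl⟩
  have hgN := hAN hg
  have hcard' : Nat.card Z' = Nat.card Z := Subgroup.card_map_of_injective (MulAut.conj g).injective
  have hNZ' : N ≤ Z' := by
    intro n hn
    have := hmemZ' (g⁻¹ * n * g) (hNZ.le ((mem_normalizer_iff''.1 hgN n).1 hn))
    simpa [mul_assoc] using this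
  have hZ'c : IsMulCommutative Z' := inferInstance
  have hZZ' : Z ⊓ Z' = N := by
    by_contra hne
    have hlt : N < Z ⊓ Z' := lt_of_le_of_ne (le_inf hNZ.le hNZ') (Ne.symm hne)
    have h1 := hmin _ (cd_inf hZ hZ'1) (isMulCommutative_of_le hZc inf_le_left) hlt
    have h2 : Z ⊓ Z' = Z := Subgroup.eq_of_le_of_card_ge inf_le_left h1
    have h3 : Z = Z' := Subgroup.eq_of_le_of_card_ge (inf_eq_left.1 h2) hcard'.le
    apply hgZ
    rw [mem_normalizer_iff]
    intro h
    constructor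
    · intro hh
      rw [h3]; exact hmemZ' h hh
    · intro hh
      rw [h3] at hh
      obtain ⟨z, hz, hz2⟩ := hh
      have : z = h := (MulAut.conj g).injective hz2
      exact this ▸ hz
  have hcomm : ∀ a ∈ A, a * g = g * a := fun a ha =>
    ((isMulCommutative_iff_le_centralizer A).1 hA.1 hg) a ha
  have hZA : Z ⊓ A = N ⊓ A := by
    apply le_antisymm _ (inf_le_inf_right _ hNZ.le)
    rintro x ⟨hx1, hx2⟩
    refine ⟨hZZ'.le ⟨hx1, ?_⟩, hx2⟩
    have := hmemZ' x hx1
    rwa [← hcomm x hx2, mul_inv_cancel_right] at this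
  have hlast : ∀ x ∈ Z, ⁅g, x⁆ ∈ N → x ∈ N := by
    intro x hx h
    have h1 : g * x * g⁻¹ ∈ Z := by
      have := Z.mul_mem (hNZ.le h) hx
      simpa [commutatorElement_def] using this
    exact (mem_normalizer_iff.1 hgN x).2 (hZZ'.le ⟨h1, hmemZ' x hx⟩)
  set L := Z ⊔ Z' with hL
  have hL1 : IsCentralizerLarge L := cd_sup hZ hZ'1
  have hLZA : L ≤ Z ⊔ A := by
    refine sup_le le_sup_left ?_
    rintro _ ⟨z, hz, rfl⟩
    exact mul_mem (mul_mem (mem_sup_right hg) (mem_sup_left hz)) (mem_sup_right (A.inv_mem hg))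
  have hdec : ∀ y ∈ L, ∃ z ∈ Z, ∃ a ∈ L ⊓ A, z * a = y := by
    intro y hy
    obtain ⟨z, hz, a, ha, rfl⟩ := mem_sup_of_coe_eq_mul (hA.2 Z hZ hZc).1 (hLZA hy)
    exact ⟨z, hz, a, ⟨(L.mul_mem_cancel_left (mem_sup_left hz)).1 hy, ha⟩, rfl⟩
  have hLset : (L : Set G) = (Z : Set G) * ((L ⊓ A : Subgroup G) : Set G) := by
    apply Set.Subset.antisymm hdec
    rintro _ ⟨z, hz, a, ha, rfl⟩
    exact L.mul_mem (mem_sup_left hz) ha.1
  have hLC : L ≤ centralizer (N : Set G) :=
    sup_le (((isMulCommutative_iff_le_centralizer Z).1 hZc).trans (centralizer_le hNZ.le))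
      (((isMulCommutative_iff_le_centralizer Z').1 hZ'c).trans (centralizer_le hNZ'))
  have hcomp : ∀ z a, a ∈ A → ⁅g, z * a⁆ = ⁅g, z⁆ := by
    intro z a ha
    simp only [commutatorElement_def, mul_inv_rev]
    calc g * (z * a) * g⁻¹ * (a⁻¹ * z⁻¹) = g * z * g⁻¹ * (g * a) * g⁻¹ * (a⁻¹ * z⁻¹) := by group
      _ = g * z * g⁻¹ * (a * g) * g⁻¹ * (a⁻¹ * z⁻¹) := by rw [hcomm a ha]
      _ = _ := by group
  set D := N ⊔ (L ⊓ A) with hD
  have hDc : IsMulCommutative D :=
    isMulCommutative_sup_of_le_centralizer hNc (isMulCommutative_of_le hA.1 inf_le_right)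
      (le_centralizer_iff.1 (inf_le_left.trans hLC))
  have c1 : Nat.card L * Nat.card N = Nat.card Z * Nat.card Z := by
    have := cd_card_sup hZ hZ'1
    rwa [hZZ', hcard'] at this
  have c2 : Nat.card L * Nat.card ↥(N ⊓ A) = Nat.card Z * Nat.card ↥(L ⊓ A) := by
    have := card_eq_of_coe_eq_mul hLset
    rwa [← inf_assoc, inf_eq_left.2 (le_sup_left : Z ≤ L), hZA] at this
  have c3 : Nat.card D * Nat.card ↥(N ⊓ A) = Nat.card N * Nat.card ↥(L ⊓ A) := by
    have := card_sup_mul_card_inf_of_le_normalizer' (H := N) (K := L ⊓ A) (inf_le_right.trans hAN)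
    rwa [← inf_assoc, inf_eq_left.2 (hNZ.le.trans (le_sup_left : Z ≤ L))] at this
  have pNA : 0 < Nat.card ↥(N ⊓ A) := Nat.card_pos
  have pZ : 0 < Nat.card Z := Nat.card_pos
  have pA : 0 < Nat.card A := Nat.card_pos
  have c4 : Nat.card D = Nat.card Z := by
    apply Nat.eq_of_mul_eq_mul_right (Nat.mul_pos pNA pZ)
    calc Nat.card D * (Nat.card ↥(N ⊓ A) * Nat.card Z)
        = (Nat.card D * Nat.card ↥(N ⊓ A)) * Nat.card Z := by ring
      _ = Nat.card N * (Nat.card Z * Nat.card ↥(L ⊓ A)) := by rw [c3]; ring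
      _ = (Nat.card L * Nat.card N) * Nat.card ↥(N ⊓ A) := by rw [← c2]; ring
      _ = _ := by rw [c1]; ring
  have c5 : Nat.card (centralizer (L : Set G)) * Nat.card ↥(centralizer (N : Set G) ⊓ A) ≤
      Nat.card (centralizer (D : Set G)) * Nat.card ↥(centralizer (Z : Set G) ⊓ A) := by
    have h1 := card_mul_card_le_of_le (H := centralizer (L : Set G))
      (K := centralizer (N : Set G) ⊓ A) (L := centralizer (D : Set G))
      (centralizer_le (show D ≤ L from sup_le (hNZ.le.trans le_sup_left) inf_le_left))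
      (by
        rw [hD, centralizer_sup']
        exact le_inf inf_le_left (inf_le_right.trans
          (((isMulCommutative_iff_le_centralizer A).1 hA.1).trans
            (centralizer_le (show L ⊓ A ≤ A from inf_le_right)))))
    refine h1.trans (Nat.mul_le_mul_left _ (Subgroup.card_le_of_le ?_))
    exact le_inf (inf_le_left.trans (centralizer_le (show Z ≤ L from le_sup_left)))
      (inf_le_right.trans inf_le_right)
  have c6 := (hA.2 N hN hNc).2
  have c7 := (hA.2 Z hZ hZc).2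
  rw [hZA] at c7
  have c8 := (isCentralizerLarge_iff _).1 hL1
  unfold cdm at c8
  have hD1 : IsCentralizerLarge D := by
    apply isCentralizerLarge_of_ge
    unfold cdm
    rw [c4, ← c8]
    have e1 : Nat.card (centralizer (L : Set G)) * Nat.card Z ≤
        Nat.card (centralizer (D : Set G)) * Nat.card N := by
      apply Nat.le_of_mul_le_mul_right _ (Nat.mul_pos pA pNA)
      calc Nat.card (centralizer (L : Set G)) * Nat.card Z * (Nat.card A * Nat.card ↥(N ⊓ A))
          = (Nat.card (centralizer (L : Set G)) * Nat.card ↥(centralizer (N : Set G) ⊓ A)) *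
            (Nat.card N * Nat.card Z) := by rw [← c6]; ring
        _ ≤ (Nat.card (centralizer (D : Set G)) * Nat.card ↥(centralizer (Z : Set G) ⊓ A)) *
            (Nat.card N * Nat.card Z) := Nat.mul_le_mul_right _ c5
        _ = _ := by rw [← c7]; ring
    apply Nat.le_of_mul_le_mul_right _ pZ
    calc Nat.card L * Nat.card (centralizer (L : Set G)) * Nat.card Z
        = Nat.card L * (Nat.card (centralizer (L : Set G)) * Nat.card Z) := by ring
      _ ≤ Nat.card L * (Nat.card (centralizer (D : Set G)) * Nat.card N) := Nat.mul_le_mul_left _ e1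
      _ = (Nat.card L * Nat.card N) * Nat.card (centralizer (D : Set G)) := by ring
      _ = _ := by rw [c1]; ring
  refine ⟨D, L, hD1, hDc, lt_of_le_of_ne le_sup_left (fun h => ?_), c4, le_sup_left, ?_, ?_, hlast⟩
  · have := card_lt_card_of_lt hNZ
    rw [h] at this
    omega
  · intro y hy
    obtain ⟨z, hz, a, ha, rfl⟩ := hdec y hy
    rw [hcomp z a ha.2, commutatorElement_def]
    exact L.mul_mem (mem_sup_right (hmemZ' z hz)) (mem_sup_left (Z.inv_mem hz))
  · intro y hy h
    obtain ⟨z, hz, a, ha, rfl⟩ := hdec y hy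
    rw [hcomp z a ha.2] at h
    exact mul_mem_sup (hlast z hz h) ha

omit [Finite G] in
theorem commutator_mem_sup_upperCentralSeries {N : Subgroup G} {g y : G} {j : ℕ}
    (hg : g ∈ normalizer (N : Set G)) (hy : y ∈ N ⊔ Subgroup.upperCentralSeries G (j + 1)) :
    ⁅g, y⁆ ∈ N ⊔ Subgroup.upperCentralSeries G j := by
  obtain ⟨n, hn, u, hu, rfl⟩ := mem_sup_of_coe_eq_mul (Subgroup.mul_normal N _) hy
  have h1 : ⁅g, u⁆ ∈ Subgroup.upperCentralSeries G j := by
    have := (Subgroup.mem_upperCentralSeries_succ_iff.1 hu) g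
    have h2 := (Subgroup.upperCentralSeries G j).inv_mem this
    simpa [commutatorElement_def, mul_assoc] using h2
  have h2 : ⁅g, n * u⁆ = (g * n * g⁻¹) * ⁅g, u⁆ * n⁻¹ := by
    simp only [commutatorElement_def]; group
  rw [h2]
  exact mul_mem (mul_mem (mem_sup_left ((mem_normalizer_iff.1 hg n).1 hn)) (mem_sup_right h1))
    (mem_sup_left (N.inv_mem hn))

theorem clGood_exists_bigger [Group.IsNilpotent G] {N : Subgroup G} (hN : IsCentralizerLarge N)
    (hNc : IsMulCommutative N) (hNA : ∀ A, CLGood A → A ≤ normalizer (N : Set G))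
    {Z₀ : Subgroup G} (hZ₀ : IsCentralizerLarge Z₀) (hZ₀c : IsMulCommutative Z₀) (hlt : N < Z₀) :
    ∃ Z : Subgroup G, IsCentralizerLarge Z ∧ IsMulCommutative Z ∧ N < Z ∧
      ∀ A, CLGood A → A ≤ normalizer (Z : Set G) := by
  classical
  obtain ⟨Z₁, hZ₁⟩ := Set.Finite.exists_minimalFor (fun A : Subgroup G => Nat.card A)
    {Z : Subgroup G | IsCentralizerLarge Z ∧ IsMulCommutative Z ∧ N < Z} (Set.toFinite _)
    ⟨Z₀, hZ₀, hZ₀c, hlt⟩
  have hmin : ∀ D, IsCentralizerLarge D → IsMulCommutative D → N < D →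
      Nat.card Z₁ ≤ Nat.card D := by
    intro D h1 h2 h3
    by_contra h
    have h' : Nat.card D ≤ Nat.card Z₁ := by omega
    exact h (hZ₁.le_of_le ⟨h1, h2, h3⟩ h')
  have hex : ∃ i, ∃ Z : Subgroup G, (IsCentralizerLarge Z ∧ IsMulCommutative Z ∧ N < Z ∧
      Nat.card Z = Nat.card Z₁) ∧ ∃ x ∈ Z, x ∉ N ∧ x ∈ N ⊔ Subgroup.upperCentralSeries G i := by
    obtain ⟨n, hn⟩ := Group.IsNilpotent.nilpotent G
    obtain ⟨x, hx1, hx2⟩ := SetLike.exists_of_lt hZ₁.prop.2.2
    exact ⟨n, Z₁, ⟨hZ₁.prop.1, hZ₁.prop.2.1, hZ₁.prop.2.2, rfl⟩, x, hx1, hx2, by simp [hn]⟩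
  obtain ⟨Z, ⟨h1, h2, h3, h4⟩, x, hxZ, hxN, hxi⟩ := Nat.find_spec hex
  refine ⟨Z, h1, h2, h3, fun A hA g hg => ?_⟩
  by_contra hgZ
  obtain ⟨D, L, d1, d2, d3, d4, d5, d6, d7, d8⟩ := clGood_step hN hNc h1 h2 h3
    (fun D a b c => h4 ▸ hmin D a b c) hA (hNA A hA) hg hgZ
  have hgN := hNA A hA hg
  have hzero : ∀ y, y ∈ N ⊔ Subgroup.upperCentralSeries G 0 → y ∈ N := by
    intro y hy
    simpa using hy
  have hex2 : ∀ j, j < Nat.find hex → ∀ y ∈ L, y ∈ N ⊔ Subgroup.upperCentralSeries G j → y ∈ N := by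
    intro j
    induction j with
    | zero => intro _ y _ hy; exact hzero y hy
    | succ j ih =>
      intro hj y hyL hy
      by_contra hyN
      have h5 := ih (by omega) _ (d6 y hyL) (commutator_mem_sup_upperCentralSeries hgN hy)
      exact Nat.find_min hex hj ⟨D, ⟨d1, d2, d3, d4.trans h4⟩, y, d7 y hyL h5, hyN, hy⟩
  rcases hi : Nat.find hex with _ | i
  · rw [hi] at hxi
    exact hxN (hzero x hxi)
  · rw [hi] at hxi
    exact hxN (d8 x hxZ (hex2 i (by omega) _ (d6 x (d5 hxZ))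
      (commutator_mem_sup_upperCentralSeries hgN hxi)))

theorem exists_cd_comm_normal :
    ∃ N : Subgroup G, IsCentralizerLarge N ∧ IsMulCommutative N ∧ N.Normal := by
  set R : Subgroup G := sSup {X | IsCentralizerLarge X} with hR
  have hR1 : IsCentralizerLarge R := cd_sSup exists_isCentralizerLarge (fun _ h => h)
  have hRn : R.Normal := by
    refine ⟨fun x hx g => ?_⟩
    have : R.map (MulAut.conj g).toMonoidHom ≤ R := le_sSup (cd_map_equiv hR1 _)
    exact this ⟨x, hx, rfl⟩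
  refine ⟨centralizer (R : Set G), cd_centralizer hR1, ?_, inferInstance⟩
  exact isMulCommutative_centralizer_of_le (le_sSup (cd_centralizer hR1))

theorem exists_mcl_normalized [Group.IsNilpotent G] :
    ∃ Q : Subgroup G, IsMinimalCentrallyLarge Q ∧ thompsonSubgroupA G ≤ normalizer (Q : Set G) ∧
      minimalCentrallyLargeJoin G ≤ normalizer (Q : Set G) := by
  obtain ⟨N₀, h1, h2, h3⟩ := exists_cd_comm_normal (G := G)
  obtain ⟨N, -, hN⟩ := exists_maximal_ge_of_wellFoundedGT
    (fun N : Subgroup G => IsCentralizerLarge N ∧ IsMulCommutative N ∧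
      ∀ A, CLGood A → A ≤ normalizer (N : Set G)) N₀ ⟨h1, h2, fun _ _ => le_normalizer_of_normal⟩
  obtain ⟨n1, n2, n3⟩ := hN.prop
  have hmax : ∀ Z, IsCentralizerLarge Z → IsMulCommutative Z → ¬ N < Z := by
    intro Z z1 z2 z3
    obtain ⟨Z', a, b, c, d⟩ := clGood_exists_bigger n1 n2 n3 z1 z2 z3
    exact c.not_ge (hN.le_of_ge ⟨a, b, d⟩ c.le)
  have hQ := cl_centralizer_of_cd_comm n1 n2
  have hQm : IsMinimalCentrallyLarge (centralizer (N : Set G)) := by
    refine ⟨hQ, fun R hRQ hR => ?_⟩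
    have hle : N ≤ centralizer (R : Set G) := le_centralizer_iff.1 hRQ
    have := hmax _ (cd_centralizer (cl_cd hR)) (isMulCommutative_centralizer_of_le
      (cl_centralizer_le hR))
    have heq : N = centralizer (R : Set G) := by
      by_contra hne
      exact this (lt_of_le_of_ne hle hne)
    rw [heq, cd_centralizer_centralizer (cl_cd hR)]
  have hnn : normalizer (N : Set G) ≤
      normalizer ((centralizer (N : Set G) : Subgroup G) : Set G) := by
    intro g hg
    have key : ∀ g ∈ normalizer (N : Set G), ∀ x ∈ centralizer (N : Set G),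
        g * x * g⁻¹ ∈ centralizer (N : Set G) := by
      intro g hg x hx n hn
      have := hx _ ((mem_normalizer_iff''.1 hg n).1 hn)
      calc n * (g * x * g⁻¹) = g * (g⁻¹ * n * g * x) * g⁻¹ := by group
        _ = g * (x * (g⁻¹ * n * g)) * g⁻¹ := by rw [this]
        _ = _ := by group
    rw [mem_normalizer_iff]
    intro x
    refine ⟨key g hg x, fun hx => ?_⟩
    have := key g⁻¹ (inv_mem hg) _ hx
    simpa [mul_assoc] using this
  refine ⟨_, hQm, sSup_le (fun A hA => (n3 A (clGood_of_maxAb hA)).trans hnn),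
    sSup_le (fun R hR => ?_)⟩
  rw [← (mcl_inf_sup hR hQ).1]
  exact sup_le (inf_le_right.trans le_normalizer) ((n3 _ (clGood_of_mcl hR)).trans hnn)

end H99
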