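import Cfsg.Agent.H1.CoprimeGen

/-! Lower bound `|E : Z(E)| ≤ (dim V)²` for modules of groups of class two with faithful scalar centre. -/

namespace H99

open Subgroup
open scoped commutatorElement

theorem index_center_le_sq {E K V : Type*} [Group E] [Finite E] [Field K] [AddCommGroup V]
    [Module K V] [Module.Finite K V] [Nontrivial V] (F : E →* Module.End K V) (χ : center E →* K)
    (hχ : ∀ z : center E, F z = χ z • (1 : Module.End K V)) (hinj : Function.Injective χ)
    (hc : ∀ g e : E, ⁅g, e⁆ ∈ center E) : (center E).index ≤ Module.finrank K V ^ 2 := by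
  classical
  have := Fintype.ofFinite (E ⧸ center E)
  let ψ : E → (E →* K) := fun e =>
    { toFun := fun g => χ ⟨⁅g, e⁆, hc g e⟩
      map_one' := by
        rw [← map_one χ]
        congr 1
        exact Subtype.ext (commutatorElement_one_left e)
      map_mul' := fun g h => by
        rw [← map_mul]
        congr 1
        apply Subtype.ext
        change ⁅g * h, e⁆ = ⁅g, e⁆ * ⁅h, e⁆
        calc ⁅g * h, e⁆ = g * ⁅h, e⁆ * g⁻¹ * ⁅g, e⁆ := by simp only [commutatorElement_def]; group
          _ = ⁅h, e⁆ * ⁅g, e⁆ := by rw [mem_center_iff.1 (hc h e) g]; group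
          _ = _ := (mem_center_iff.1 (hc h e) _).symm }
  have hψ : Function.Injective fun q : E ⧸ center E => ψ q.out := by
    intro q q' h
    rw [← QuotientGroup.out_eq' q, ← QuotientGroup.out_eq' q', QuotientGroup.eq, mem_center_iff]
    intro g
    have h1 : ⁅g⁻¹, q.out⁆ = ⁅g⁻¹, q'.out⁆ :=
      congrArg Subtype.val (hinj (DFunLike.congr_fun h g⁻¹))
    simp only [commutatorElement_def] at h1
    calc g * (q.out⁻¹ * q'.out) = q.out⁻¹ * g * (g⁻¹ * q.out * g⁻¹⁻¹ * q.out⁻¹) * q'.out := by group
      _ = q.out⁻¹ * q'.out * g := by rw [h1]; group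
  have hli := (linearIndependent_monoidHom E K).comp _ hψ
  have hconj : ∀ g e : E, F g * F e * F g⁻¹ = ψ e g • F e := by
    intro g e
    rw [← map_mul, ← map_mul, show g * e * g⁻¹ = ⁅g, e⁆ * e by rw [commutatorElement_def]; group, map_mul]
    rw [hχ ⟨⁅g, e⁆, hc g e⟩, smul_mul_assoc, one_mul]
    rfl
  have hb : LinearIndependent K fun q : E ⧸ center E => F q.out := by
    rw [Fintype.linearIndependent_iff]
    intro c hsum q₀
    have hne : F q₀.out ≠ 0 := ((Group.isUnit q₀.out).map F).ne_zero
    obtain ⟨l, hl⟩ : ∃ l : Module.Dual K (Module.End K V), l (F q₀.out) ≠ 0 := by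
      by_contra hn
      push Not at hn
      exact hne ((Module.forall_dual_apply_eq_zero_iff K _).1 hn)
    have h1 := Fintype.linearIndependent_iff.1 hli (fun q => c q * l (F q.out)) (by
      funext g
      have h2 := congrArg (fun T => l (F g * T * F g⁻¹)) hsum
      simp only [Finset.mul_sum, Finset.sum_mul, mul_smul_comm, smul_mul_assoc, hconj, map_sum,
        map_smul, mul_zero, zero_mul, map_zero, smul_eq_mul] at h2
      simp only [Finset.sum_apply, Pi.smul_apply, Function.comp, smul_eq_mul, Pi.zero_apply]
      rw [← h2]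
      exact Finset.sum_congr rfl fun q _ => by ring) q₀
    exact (mul_eq_zero.1 h1).resolve_right hl
  have h1 := hb.fintype_card_le_finrank
  rw [Module.finrank_linearMap, ← pow_two] at h1
  rwa [index_eq_card, Nat.card_eq_fintype_card]

theorem exists_card_eq_pow_of_irreducible {E V : Type*} [Group E] [Finite E] [CommGroup V] [Finite V]
    [Nontrivial V] (φ : E →* MulAut V)
    (hirr : ∀ W : Subgroup V, (∀ a, ∀ x ∈ W, φ a x ∈ W) → W = ⊥ ∨ W = ⊤)
    (hc : ∀ g e : E, ⁅g, e⁆ ∈ center E) (hf : ∀ z ∈ center E, φ z = 1 → z = 1) :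
    ∃ k d : ℕ, Nat.card V = k ^ d ∧ (center E).index ≤ d ^ 2 ∧ Nat.card (center E) ∣ k - 1 := by
  have : Finite (Module.End ℤ (Additive V)) := DFunLike.finite _
  have : Nontrivial (Module.End ℤ (Additive V)) := by
    refine ⟨⟨0, 1, fun h => ?_⟩⟩
    obtain ⟨x, hx⟩ := exists_ne (0 : Additive V)
    exact hx (LinearMap.congr_fun h x).symm
  set f := H1.toAddEnd φ with hfdef
  let D : Subring (Module.End ℤ (Additive V)) := Subring.centralizer (Set.range f)
  have : NoZeroDivisors D := by
    refine ⟨fun {r s} hrs => ?_⟩
    by_cases h0 : r = 0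
    · exact Or.inl h0
    · right
      apply Subtype.ext
      apply LinearMap.ext
      intro x
      apply H1.injective_of_irreducible φ hirr r.1 (fun a => r.2 (f a) ⟨a, rfl⟩)
        fun h => h0 (Subtype.ext h)
      have h1 : r.1 * s.1 = 0 := congrArg Subtype.val hrs
      rw [← Module.End.mul_apply, h1]
      simp
  have : IsDomain D := NoZeroDivisors.to_isDomain D
  let instM : Module D (Additive V) := inferInstance
  letI : Field D := (Finite.isDomain_to_isField D).toField
  letI : Module D (Additive V) := instM
  have hfD : ∀ z : center E, f z ∈ D := by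
    rintro z _ ⟨b, rfl⟩
    rw [← map_mul, ← map_mul, mem_center_iff.1 z.2 b]
  let χ : center E →* D := (f.comp (center E).subtype).codRestrict D hfD
  let F : E →* Module.End D (Additive V) :=
    { toFun := fun e =>
        { toFun := f e
          map_add' := map_add _
          map_smul' := fun d x => LinearMap.congr_fun (d.2 (f e) ⟨e, rfl⟩) x }
      map_one' := by ext x; simp
      map_mul' := fun a b => by ext x; simp }
  have hinj : Function.Injective χ := by
    rw [injective_iff_map_eq_one]
    intro z hz
    apply Subtype.ext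
    refine hf z z.2 ?_
    ext x
    exact LinearMap.congr_fun (congrArg Subtype.val hz) (Additive.ofMul x)
  refine ⟨Nat.card D, Module.finrank D (Additive V), Module.natCard_eq_pow_finrank (K := D) (V := Additive V),
    index_center_le_sq F χ (fun z => LinearMap.ext fun x => rfl) hinj hc, ?_⟩
  rw [← Nat.card_units]
  exact card_dvd_of_injective χ.toHomUnits fun a b h => hinj (congrArg Units.val h)

end H99
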