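import Cfsg.Agent.H36.E7MSpec

/-! E7MAX (S5934), slot `LQ`: `L` normalises `Q` and centralises `z`, `y`; `Q` has class two. -/

set_option autoImplicit false

namespace H99.E7MLQ

open H36.E7M Subgroup
open scoped commutatorElement

theorem ind {Γ : Type} [Group Γ] {S : Set Γ} (hS : ∀ g ∈ S, g * g = 1) {p : Γ → Prop} (h1 : p 1)
    (hm : ∀ g ∈ S, ∀ a ∈ closure S, p a → p (g * a)) {a : Γ} (ha : a ∈ closure S) : p a := by
  induction ha using closure_induction_left with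
  | one => exact h1
  | mul_left g hg a ha h => exact hm g hg a ha h
  | inv_mul_cancel g hg a ha h =>
    rw [inv_eq_of_mul_eq_one_right (hS g hg)]; exact hm g hg a ha h

theorem cls {Γ : Type} [Group Γ] {z g a c : Γ} (zz : z * z = 1) (hg : Commute g z)
    (h1 : ⁅g, c⁆ = 1 ∨ ⁅g, c⁆ = z) (h2 : ⁅a, c⁆ = 1 ∨ ⁅a, c⁆ = z) :
    ⁅g * a, c⁆ = 1 ∨ ⁅g * a, c⁆ = z := by
  have e : ⁅g * a, c⁆ = g * ⁅a, c⁆ * g⁻¹ * ⁅g, c⁆ := by
    simp only [commutatorElement_def]; group
  have k : g * z * g⁻¹ = z := by rw [hg.eq, mul_inv_cancel_right]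
  rw [e]
  rcases h1 with h1 | h1 <;> rcases h2 with h2 | h2 <;> simp [h1, h2, k, zz]

theorem flip {Γ : Type} [Group Γ] {z a c : Γ} (zz : z * z = 1) (h : ⁅a, c⁆ = 1 ∨ ⁅a, c⁆ = z) :
    ⁅c, a⁆ = 1 ∨ ⁅c, a⁆ = z := by
  rw [← commutatorElement_inv]
  rcases h with h | h <;> rw [h]
  exacts [Or.inl inv_one, Or.inr (inv_eq_of_mul_eq_one_right zz)]

theorem co_lev : ∀ r < 126, co r 0 = lev r := by decide +kernel

theorem co_ne : ∀ r < 126, ∃ i < 7, co r i ≠ 0 := by decide +kernel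

theorem cm (h : JobCM) {r s : ℕ} (hr : r < 126) (hs : s < 126) (e : r + s ≠ 125) :
    Commute (x r) (x s) ∨ ∃ t < 126, t ≠ s ∧ lev t = lev r + lev s ∧ ⁅x r, x s⁆ = x t := by
  by_cases k : ∃ t < 126, Sm r s t
  · obtain ⟨t, ht, k⟩ := k
    refine Or.inr ⟨t, ht, ?_, ?_, (h r hr s hs).1 t ht k⟩
    · rintro rfl
      obtain ⟨i, hi, k2⟩ := co_ne r hr
      have := k i hi
      omega
    · rw [← co_lev t ht, ← co_lev r hr, ← co_lev s hs]; exact k 0 (by omega)
  · exact Or.inl ((h r hr s hs).2 e fun t ht k' => k ⟨t, ht, k'⟩)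

theorem indL (sq : JobSQ) {p : G → Prop} (h1 : p 1)
    (hm : ∀ r, 33 ≤ r → r ≤ 92 → ∀ a, p a → p (x r * a)) {a : G} (ha : a ∈ L) : p a := by
  refine ind (Γ := G) (S := {g : G | ∃ r, 33 ≤ r ∧ r ≤ 92 ∧ g = x r}) ?_ h1 ?_ ha
  · rintro _ ⟨r, -, -, rfl⟩; exact sq.1 r
  · rintro _ ⟨r, k1, k2, rfl⟩ a - h; exact hm r k1 k2 a h

theorem indQ (sq : JobSQ) {p : G → Prop} (h1 : p 1)
    (hm : ∀ r, 93 ≤ r → r < 126 → ∀ a, p a → p (x r * a)) {a : G} (ha : a ∈ Q) : p a := by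
  refine ind (Γ := G) (S := {g : G | ∃ r, 93 ≤ r ∧ r < 126 ∧ g = x r}) ?_ h1 ?_ ha
  · rintro _ ⟨r, -, -, rfl⟩; exact sq.1 r
  · rintro _ ⟨r, k1, k2, rfl⟩ a - h; exact hm r k1 k2 a h

theorem jobLQ : JobCM → JobSQ → JobLQ := by
  intro h sq
  have zz : z * z = 1 := sq.1 125
  have qz : ∀ q ∈ Q, Commute q z := fun q hq => by
    refine indQ sq (p := fun q => Commute q z) ?_ ?_ hq
    · exact Commute.one_left z
    intro r h1 h2 a ha
    refine Commute.mul_left ((cm h (s := 125) h2 (by omega) (by omega)).resolve_right ?_) ha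
    rintro ⟨t, -, -, k, -⟩
    have := lev_cases r; have := lev_cases t; have := lev_cases 125; omega
  refine ⟨fun l hl => ?_, fun l hl => ?_, qz, fun q hq q' hq' => ?_⟩
  · refine indL sq (p := fun l => ∀ q ∈ Q, cj l q ∈ Q) (fun q hq => by rwa [cj_one]) ?_ hl
    intro r h1 h2 a ha q hq
    rw [← cj_cj]
    refine indQ sq (p := fun q => cj (x r) q ∈ Q) (by rw [cj, mul_one, mul_inv_cancel]; exact one_mem _)
      ?_ (ha q hq)
    intro s k1 k2 b hb
    rw [cj_mul]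
    refine mul_mem ?_ hb
    rcases cm h (r := r) (by omega) k2 (by omega) with k | ⟨t, ht, -, k, e⟩
    · rw [cj_eq_iff.2 k]; exact x_mem_Q k1 k2
    · rw [commutatorElement_def, mul_inv_eq_iff_eq_mul] at e
      rw [cj, e]
      refine mul_mem (x_mem_Q ?_ ht) (x_mem_Q k1 k2)
      have := lev_cases r; have := lev_cases t; have := lev_cases s; omega
  · refine indL sq (p := fun l => Commute l z ∧ Commute l y)
      ⟨Commute.one_left _, Commute.one_left _⟩ ?_ hl
    intro r h1 h2 a ha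
    refine ⟨Commute.mul_left ((cm h (s := 125) (by omega) (by omega) (by omega)).resolve_right ?_) ha.1,
      Commute.mul_left ((cm h (s := 0) (by omega) (by omega) (by omega)).resolve_right ?_) ha.2⟩ <;>
      rintro ⟨t, ht, k0, k, -⟩
    · have := lev_cases r; have := lev_cases t; have := lev_cases 125; omega
    · have := lev_cases r; have := lev_cases t; have := lev_cases 0; omega
  · refine indQ sq (p := fun q => ⁅q, q'⁆ = 1 ∨ ⁅q, q'⁆ = z) (Or.inl (commutatorElement_one_left _))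
      ?_ hq
    intro r h1 h2 a ha
    refine cls (Γ := G) (z := z) zz (qz _ (x_mem_Q h1 h2)) (flip (Γ := G) (z := z) zz ?_) ha
    refine indQ sq (p := fun q => ⁅q, x r⁆ = 1 ∨ ⁅q, x r⁆ = z)
      (Or.inl (commutatorElement_one_left _)) ?_ hq'
    intro s k1 k2 b hb
    refine cls (Γ := G) (z := z) zz (qz _ (x_mem_Q k1 k2)) ?_ hb
    rcases cm h k2 h2 (by omega) with k | ⟨t, ht, -, k, e⟩
    · exact Or.inl (commutatorElement_eq_one_iff_commute.2 k)
    · have : t = 125 := by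
        have := lev_cases r; have := lev_cases t; have := lev_cases s; omega
      exact Or.inr (e.trans (by rw [this]; rfl))

end H99.E7MLQ
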