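/- Tower E8G (row S5919), slot Ind: the number of trivial composition factors. -/
import Cfsg.Agent.H40.E8GSpec

set_option autoImplicit false
set_option linter.unusedVariables false

namespace H99.E8GInd

open Module H40.E8F H40.E8G
open scoped MatrixGroups

instance fact13 : Fact (Nat.Prime 13) := ⟨by decide⟩

theorem gen (H : Subgroup S13) (hu : eu ∈ H) (hw : ew ∈ H) (g : S13) : g ∈ H := by
  have U : ∀ x : ZMod 13, (eu ^ x.val).1 = !![1, x; 0, 1] := by decide +kernel
  have L : ∀ x : ZMod 13, (ew * eu ^ (-x).val * ew⁻¹).1 = !![1, 0; x, 1] := by decide +kernel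
  have key : ∀ g : S13, g.1 1 0 ≠ 0 → g ∈ H := fun g hc => by
    have := mul_mem (mul_mem (pow_mem hu ((g.1 0 0 - 1) / g.1 1 0).val)
      (mul_mem (mul_mem hw (pow_mem hu (-g.1 1 0).val)) (inv_mem hw))) (pow_mem hu ((g.1 1 1 - 1) / g.1 1 0).val)
    refine (congrArg (· ∈ H) (Subtype.ext ?_)).mp this
    have d := g.2
    rw [Matrix.det_fin_two] at d
    rw [Matrix.SpecialLinearGroup.coe_mul, Matrix.SpecialLinearGroup.coe_mul, U, U, L]
    ext i j
    fin_cases i <;> fin_cases j <;> simp [Matrix.mul_apply, Fin.sum_univ_two] <;>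
      field_simp <;> first | ring1 | linear_combination d
  by_cases hc : g.1 1 0 = 0
  · refine (mul_mem_cancel_right hw).1 (key _ ?_)
    have d := g.2
    rw [Matrix.det_fin_two, hc, mul_zero, sub_zero] at d
    rw [Matrix.SpecialLinearGroup.coe_mul]
    simpa [ew, Matrix.mul_apply, Fin.sum_univ_two] using right_ne_zero_of_mul_eq_one d
  · exact key g hc

variable {k V W : Type} [Field k] [AddCommGroup V] [Module k V] [AddCommGroup W] [Module k W]

theorem hk_map {ρ : S13 →* End k V} {ρ' : S13 →* End k W} (f : V →ₗ[k] W) (h : ∀ g v, f (ρ g v) = ρ' g (f v))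
    (v : V) : f (hk ρ v) = hk ρ' (f v) := by
  simp only [hk, LinearMap.add_apply, LinearMap.sum_apply, map_add, map_sum, h, End.one_apply, sq, End.mul_apply]

theorem rk_split [FiniteDimensional k V] (M A : Submodule k V) :
    finrank k A = finrank k (A.comap M.subtype) + finrank k (A.map M.mkQ) := by
  have := (M.mkQ.domRestrict A).finrank_range_add_finrank_ker
  rw [LinearMap.range_domRestrict, LinearMap.ker_domRestrict, Submodule.ker_mkQ,
    ← Submodule.finrank_map_subtype_eq, Submodule.map_comap_subtype] at this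
  rw [← Submodule.finrank_map_subtype_eq M, Submodule.map_comap_subtype, inf_comm]
  omega

theorem fx_le [FiniteDimensional k V] (ρ : S13 →* End k V) {g a b : S13} (h : g * a = b * g) :
    finrank k (fx (ρ a)) ≤ finrank k (fx (ρ b)) :=
  LinearMap.finrank_le_finrank_of_injective (f := (ρ g).restrict (p := fx (ρ a)) (q := fx (ρ b)) fun v hv =>
    mem_fx.2 (by rw [← End.mul_apply, ← map_mul, ← h, map_mul, End.mul_apply, mem_fx.1 hv])) fun v w e =>
    Subtype.ext (by
      have := congrArg (fun x => ρ g⁻¹ x.1) e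
      simpa [← End.mul_apply, ← map_mul] using this)

theorem simple (lin : JobLin) (sim : JobSim) [CharP k 3] [FiniteDimensional k V] (ρ : S13 →* End k V)
    (h1 : ρ (-1) = 1) (hs : ∀ W : Submodule k V, (∀ g, ∀ v ∈ W, ρ g v ∈ W) → W = ⊥ ∨ W = ⊤) :
    3 * finrank k (fx (ρ ez)) + 3 * finrank k (fx (ρ (ew * eb))) + 2 * finrank k (fx (ρ eu)) ≤
      2 * finrank k V + 6 * finrank k ↥(fx (ρ eu) ⊓ fx (ρ ez) ⊓ fx (hk ρ)) := by
  by_cases tr : ∀ g v, ρ g v = v
  · have : fx (ρ eu) ⊓ fx (ρ ez) ⊓ fx (hk ρ) = ⊤ := eq_top_iff.2 fun v _ =>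
      ⟨⟨mem_fx.2 (tr _ _), mem_fx.2 (tr _ _)⟩, mem_fx.2 (by
        have h3 : (3 : k) = 0 := CharP.cast_eq_zero k 3
        simp only [hk, LinearMap.add_apply, LinearMap.sum_apply, tr, End.one_apply, sq, End.mul_apply,
          Finset.sum_const, Finset.card_range]
        linear_combination (norm := module) (5 * h3) • v)⟩
    rw [this, finrank_top]
    have a := Submodule.finrank_le (fx (ρ ez))
    have b := Submodule.finrank_le (fx (ρ (ew * eb)))
    have c := Submodule.finrank_le (fx (ρ eu))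
    omega
  have key : ∀ R : Submodule k V, ∀ S : Set V, (∀ g, ∀ v ∈ S, ρ g v - v ∈ R → ρ g v ∈ S) →
      (∀ v ∈ S, ρ ew v - v ∈ R) → (∀ v ∈ S, ρ eb v - v ∈ R) → ∀ g, ∀ v ∈ S, ρ g v - v ∈ R := fun R S hS hw hb g => by
    let H : Submonoid S13 :=
      { carrier := {g | ∀ v ∈ S, ρ g v - v ∈ R}
        one_mem' := fun v _ => by simp
        mul_mem' := fun {a b} ha hb v hv => by
          have := R.add_mem (ha _ (hS b v hv (hb v hv))) (hb v hv)
          rwa [sub_add_sub_cancel, ← End.mul_apply, ← map_mul] at this }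
    let H' : Subgroup S13 := { H with
      inv_mem' := fun {a} ha => by
        have : a⁻¹ = a ^ (orderOf a - 1) := by
          rw [inv_eq_iff_mul_eq_one, ← pow_succ', Nat.sub_add_cancel (orderOf_pos a), pow_orderOf_eq_one]
        exact this ▸ H.pow_mem ha _ }
    have m1 : (-1 : S13) ∈ H' := fun v _ => by simp [h1]
    have hw' : ew ∈ H' := hw
    have hb' : eb ∈ H' := hb
    have : eu = -1 * (eb * eb * ew * eb * ew * eb * ew) := by decide +kernel
    refine gen H' ?_ hw g
    rw [this]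
    exact mul_mem m1 (mul_mem (mul_mem (mul_mem (mul_mem (mul_mem (mul_mem hb' hb') hw') hb') hw') hb') hw')
  have un : ∀ g, IsUnit (ρ g) := fun g => (Group.isUnit g).map ρ
  have sc := (lin k V).1 (ρ ew) (ρ eb) (un _) (un _) (fun v hw hb => by
      have all : ∀ g, ρ g v = v := fun g => sub_eq_zero.1 (key ⊥ {v} (fun g w hw e => by
        rwa [sub_eq_zero.1 e]) (by simp [hw]) (by simp [hb]) g v rfl)
      rcases hs (Representation.invariants ρ) (fun g w hw => by rwa [hw g]) with b | b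
      · exact (Submodule.mem_bot k).1 (b ▸ all)
      · exact absurd (fun g w => (b ▸ Submodule.mem_top : w ∈ Representation.invariants ρ) g) tr) (by
      have all := key (LinearMap.range (ρ ew - 1) ⊔ LinearMap.range (ρ eb - 1)) Set.univ (fun _ _ _ _ => trivial)
        (fun v _ => Submodule.mem_sup_left ⟨v, rfl⟩) fun v _ => Submodule.mem_sup_right ⟨v, rfl⟩
      refine (hs _ fun g v hv => ?_).resolve_left fun b => tr fun g v => ?_
      · simpa using Submodule.add_mem _ (all g v trivial) hv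
      · exact sub_eq_zero.1 ((Submodule.mem_bot k).1 (b ▸ all g v trivial)))
  have fr := (lin k V).2.2 (ρ eu) (ρ et) (by rw [← map_pow, show eu ^ 13 = 1 by decide +kernel, map_one])
    (by rw [← map_pow, show et ^ 3 = 1 by decide +kernel, map_one])
    (by rw [← map_pow, ← map_mul, ← map_mul, show et * eu = eu ^ 9 * et by decide +kernel]) (sim k V ρ hs)
  have c1 := fx_le ρ (g := ⟨!![1, 9; 5, 7], by decide⟩) (a := ez) (b := ew) (by decide +kernel)
  have c2 := fx_le ρ (g := ⟨!![1, 11; 1, 12], by decide⟩) (a := et) (b := eb) (by decide +kernel)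
  rw [← map_mul] at sc
  omega

theorem aux (lin : JobLin) (hH : JobHk) (sim : JobSim) [CharP k 3] (n : ℕ) : ∀ (V : Type) [AddCommGroup V]
    [Module k V] [FiniteDimensional k V] (ρ : S13 →* End k V), finrank k V = n → ρ (-1) = 1 →
    3 * finrank k (fx (ρ ez)) + 3 * finrank k (fx (ρ (ew * eb))) + 2 * finrank k (fx (ρ eu)) ≤
      2 * finrank k V + 6 * finrank k ↥(fx (ρ eu) ⊓ fx (ρ ez) ⊓ fx (hk ρ)) := by
  induction n using Nat.strong_induction_on with
  | _ n ih =>
  intro V _ _ _ ρ hn h1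
  by_cases hs : ∀ W : Submodule k V, (∀ g, ∀ v ∈ W, ρ g v ∈ W) → W = ⊥ ∨ W = ⊤
  · exact simple lin sim ρ h1 hs
  push Not at hs
  obtain ⟨M, hM, m0, m1⟩ := hs
  let ρ1 : S13 →* End k M := Representation.subrepresentation ρ M fun g v hv => hM g v hv
  let ρ2 : S13 →* End k (V ⧸ M) := Representation.quotient ρ M fun g v hv => hM g v hv
  have e1 : ∀ g v, M.subtype (ρ1 g v) = ρ g (M.subtype v) := fun _ _ => rfl
  have e2 : ∀ g v, M.mkQ (ρ g v) = ρ2 g (M.mkQ v) := fun _ _ => rfl
  have d := M.finrank_quotient_add_finrank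
  have l1 := Submodule.finrank_lt m1
  have l0 : 0 < finrank k M := Nat.pos_of_ne_zero fun e => m0 (Submodule.finrank_eq_zero.1 e)
  have i1 := ih _ (hn ▸ l1) M ρ1 rfl (LinearMap.ext fun v => Subtype.ext (LinearMap.congr_fun h1 v))
  have i2 := ih _ (by omega) (V ⧸ M) ρ2 rfl (LinearMap.ext fun q => by
    obtain ⟨v, rfl⟩ := M.mkQ_surjective q
    rw [← e2, h1]; rfl)
  have up : ∀ g, finrank k (fx (ρ g)) ≤ finrank k (fx (ρ1 g)) + finrank k (fx (ρ2 g)) := fun g => by
    rw [rk_split M]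
    refine add_le_add (Submodule.finrank_mono fun v hv => mem_fx.2 (Subtype.ext (mem_fx.1 hv)))
      (Submodule.finrank_mono ?_)
    rintro _ ⟨v, hv, rfl⟩
    exact mem_fx.2 (by rw [← e2, mem_fx.1 hv])
  have lo : finrank k ↥(fx (ρ1 eu) ⊓ fx (ρ1 ez) ⊓ fx (hk ρ1)) + finrank k ↥(fx (ρ2 eu) ⊓ fx (ρ2 ez) ⊓ fx (hk ρ2)) ≤
      finrank k ↥(fx (ρ eu) ⊓ fx (ρ ez) ⊓ fx (hk ρ)) := by
    rw [rk_split M (fx (ρ eu) ⊓ fx (ρ ez) ⊓ fx (hk ρ))]
    refine add_le_add (Submodule.finrank_mono fun v hv => ⟨⟨mem_fx.2 (congrArg Subtype.val (mem_fx.1 hv.1.1)),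
      mem_fx.2 (congrArg Subtype.val (mem_fx.1 hv.1.2))⟩,
      mem_fx.2 ((hk_map M.subtype e1 v).symm.trans (congrArg Subtype.val (mem_fx.1 hv.2)))⟩)
      (Submodule.finrank_mono fun q hq => ?_)
    obtain ⟨v, rfl⟩ := M.mkQ_surjective q
    have h3 : (3 : k) = 0 := CharP.cast_eq_zero k 3
    obtain ⟨w, hw⟩ : ∃ w, w = ∑ i ∈ Finset.range 13, ρ (eu ^ i) v := ⟨_, rfl⟩
    have w1 : ρ eu w = w := by
      have := Finset.sum_range_succ (fun i => ρ (eu ^ i) v) 13
      rw [Finset.sum_range_succ', show eu ^ 13 = 1 by decide +kernel, pow_zero, add_left_inj] at this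
      rw [hw, map_sum, ← this]
      simp only [pow_succ', map_mul, End.mul_apply]
    have wk : ∀ i, ρ (eu ^ i) w = w := fun i => by
      induction i with
      | zero => simp
      | succ i ih => rw [pow_succ, map_mul, End.mul_apply, w1, ih]
    have w2 : w + ρ ez w ∈ fx (ρ eu) ⊓ fx (ρ ez) := ⟨mem_fx.2 (by
        rw [map_add, w1, ← End.mul_apply, ← map_mul, show eu * ez = ez * eu ^ 12 by decide +kernel, map_mul,
          End.mul_apply, wk]), mem_fx.2 (by
        rw [map_add, ← End.mul_apply, ← map_mul, show ez * ez = -1 by decide +kernel, h1, End.one_apply, add_comm])⟩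
    obtain ⟨-, a, b, -⟩ := hH k V ρ h1 _ w2
    refine ⟨w + ρ ez w + hk ρ (w + ρ ez w), ⟨add_mem w2 a, mem_fx.2 (by rw [map_add (hk ρ), b, add_comm])⟩, ?_⟩
    have qk : ∀ i, ρ2 (eu ^ i) (M.mkQ v) = M.mkQ v := fun i => by
      induction i with
      | zero => simp
      | succ i ih => rw [pow_succ, map_mul, End.mul_apply, mem_fx.1 hq.1.1, ih]
    have q1 : M.mkQ w = M.mkQ v := by
      simp only [hw, map_sum, e2, qk, Finset.sum_const, Finset.card_range]
      linear_combination (norm := module) (4 * h3) • M.mkQ v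
    rw [map_add, hk_map M.mkQ e2, map_add, e2, q1, mem_fx.1 hq.1.2, map_add, mem_fx.1 hq.2]
    linear_combination (norm := module) h3 • M.mkQ v
  have u1 := up ez
  have u2 := up (ew * eb)
  have u3 := up eu
  omega

theorem jobInd (lin : JobLin) (hH : JobHk) (sim : JobSim) : JobInd :=
  fun k V _ _ _ _ _ ρ h1 => aux lin hH sim _ V ρ rfl h1

end H99.E8GInd
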