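import Cfsg.Agent.H11.FBSpec
import Cfsg.Agent.H5.FrobCompl

/-! # S3404, job FH: Frobenius complements of odd order -/

set_option autoImplicit false

namespace H99.FBFH

open Subgroup H11.FB

universe u

theorem coprime_minFac {n : ℕ} (hn : n ≠ 1) : n.Coprime (n.minFac - 1) := by
  have hp := Nat.minFac_prime hn
  rw [Nat.coprime_iff_gcd_eq_one]
  by_contra hne
  obtain ⟨q, hq, hd⟩ := Nat.exists_prime_and_dvd hne
  have h1 := Nat.minFac_le_of_dvd hq.two_le (hd.trans (Nat.gcd_dvd_left _ _))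
  have h2 := Nat.le_of_dvd (by have := hp.two_le; omega) (hd.trans (Nat.gcd_dvd_right _ _))
  have := hp.two_le
  omega

theorem jobFH : JobFH.{u} := by
  intro G _ _ L K H f hodd
  have hHK : H ≤ normalizer (K : Set G) :=
    Nm.le_normalizer (fun m hm x hx => f.Kn m (f.Hle hm) x hx)
  have hfpf : ∀ h ∈ H, h ≠ 1 → K ⊓ centralizer {h} = ⊥ := by
    intro h hh h1
    rw [eq_bot_iff]
    rintro k ⟨hk, hc⟩
    rw [mem_bot]
    by_contra k1
    have e : k * h = h * k := mem_centralizer_singleton_iff.1 hc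
    exact h1 (f.disj h (f.cenK k hk k1 h (f.Hle hh) e.symm) hh)
  have hZ : IsZGroup H := H5.isZGroup_of_fpf_of_odd f.Kne hHK hfpf hodd
  have hN : ∀ h ∈ H, (orderOf h).Prime → H ≤ normalizer (zpowers h : Set G) := fun h hh hp =>
    H5.le_normalizer_zpowers_of_fpf f.Kne hHK hfpf hh hp
  refine ⟨fun h hh hp x hx => ?_, fun h hh h' hh' hp e => ?_, fun p hp R hR hP => ?_,
    fun h hh e x hx => ?_⟩
  · exact (mem_normalizer_iff.1 (hN h hh hp hx) h).1 (mem_zpowers h)
  · haveI := Fact.mk hp
    have c1 : Nat.card (zpowers h) = orderOf h := Nat.card_zpowers h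
    have c2 : Nat.card (zpowers h') = orderOf h := (Nat.card_zpowers h').trans e
    have p1 : IsPGroup (orderOf h) (zpowers h) := IsPGroup.of_card (n := 1) (by rw [c1, pow_one])
    have p2 : IsPGroup (orderOf h) (zpowers h') := IsPGroup.of_card (n := 1) (by rw [c2, pow_one])
    have l1 : zpowers h ≤ H := (zpowers_le).2 hh
    have l2 : zpowers h' ≤ H := (zpowers_le).2 hh'
    have p3 : IsPGroup (orderOf h) (zpowers h ⊔ zpowers h' : Subgroup G) :=
      IsPGroup.to_sup_of_normal_left' p1 p2 (l2.trans (hN h hh hp))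
    have := H5.eq_of_card_eq_prime_of_fpf f.Kne ((sup_le l1 l2).trans hHK)
      (H5.fpf_mono hfpf le_rfl (sup_le l1 l2)) p3 le_sup_left le_sup_right c1 c2
    rw [this]
    exact mem_zpowers h'
  · haveI := Fact.mk hp
    have h1 : IsPGroup p (R.subgroupOf H) := hP.of_equiv (subgroupOfEquivOfLe hR).symm
    have h2 : IsCyclic (R.subgroupOf H) := h1.isCyclic_of_isZGroup
    exact isCyclic_of_surjective _ (subgroupOfEquivOfLe hR).surjective
  · have hn : Nat.card H ≠ 1 := fun h0 => f.Hne (card_eq_one.1 h0)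
    have hp : (orderOf h).Prime := e ▸ Nat.minFac_prime hn
    set φ := (zpowers h).normalizerMonoidHom ⟨x, hN h hh hp hx⟩ with hφ
    have d1 : orderOf φ ∣ Nat.card H := by
      refine (orderOf_map_dvd _ _).trans ?_
      rw [← orderOf_coe]
      exact orderOf_dvd_natCard H hx
    have d2 : orderOf φ ∣ (Nat.card H).minFac - 1 := by
      have := _root_.orderOf_dvd_natCard φ
      rwa [IsCyclic.card_mulAut, Nat.card_zpowers, Nat.totient_prime hp, e] at this
    have h1 : φ = 1 := orderOf_eq_one_iff.1 (Nat.eq_one_of_dvd_coprimes (coprime_minFac hn) d1 d2)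
    have h2 : (⟨x, hN h hh hp hx⟩ : normalizer (zpowers h : Set G)) ∈
        (zpowers h).normalizerMonoidHom.ker := h1
    rw [normalizerMonoidHom_ker, mem_subgroupOf] at h2
    exact (mem_centralizer_iff.1 h2 h (mem_zpowers h)).symm

end H99.FBFH
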