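import Cfsg.Agent.H93.FS10
import Cfsg.Agent.H93.O2C

/-! Orthogonal groups in characteristic two: factorisations of an element into two involutions,
their invariants and orthogonal sums. -/

set_option autoImplicit false

namespace H99.Or

open H56 H60 H93.FS QuadraticMap Module

variable {F V : Type*} [Field F] [AddCommGroup V] [Module F V] {Q : QuadraticForm F V}

/-- alternating type -/
def Alt (s : O Q) : Prop := ∀ w, polar Q w (s w) = 0

theorem alt_iff [CharP F 2] (s : O Q) : Alt s ↔ ∀ w ∈ s.mov, Q w = 0 := by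
  have h2 : (2 : F) = 0 := CharTwo.two_eq_zero
  refine ⟨fun h w hw => ?_, fun h v => ?_⟩
  · obtain ⟨y, rfl⟩ := O.mem_mov.1 hw
    rw [H93.O2.Q_sub_eq h2]
    exact h y
  · rw [← H93.O2.Q_sub_eq h2]
    exact h _ (s.sub_mem_mov v)

theorem alt_conj (k t : O Q) : Alt (k * t * k⁻¹) ↔ Alt t := by
  refine ⟨fun h w => ?_, fun h w => ?_⟩
  · have := h (k w)
    rwa [O.mul_apply, O.mul_apply, O.inv_apply_apply, O.map_polar] at this
  · rw [O.mul_apply, O.mul_apply, O.polar_apply_right]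
    exact h _

theorem rk_conj (k t : O Q) : (k * t * k⁻¹).rk = t.rk := by
  rw [O.rk, H93.O2.mov_conj, O.rk]
  exact (LinearEquiv.finrank_eq (Submodule.equivMapOfInjective k.lin k.injective t.mov)).symm

theorem inv_apply_of_sq {s : O Q} (hs : s * s = 1) (v : V) : s (s v) = v := by
  rw [← O.mul_apply, hs, O.one_apply]

theorem padj {s : O Q} (hs : s * s = 1) (u v : V) : polar Q (s u) v = polar Q u (s v) := by
  rw [← s.map_polar (s u), inv_apply_of_sq hs]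

/-- factorisation into two involutions with given invariants -/
def P (g : O Q) (i j : ℕ) (x y : Prop) : Prop :=
  ∃ s t : O Q, s * s = 1 ∧ t * t = 1 ∧ s * t = g ∧ s.rk = i ∧ t.rk = j ∧ (Alt s ↔ x) ∧ (Alt t ↔ y)

theorem P.swap {g : O Q} {i j : ℕ} {x y : Prop} (h : P g i j x y) : P g j i y x := by
  obtain ⟨s, t, h1, h2, h3, h4, h5, h6, h7⟩ := h
  refine ⟨s * t * s⁻¹, s, ?_, h1, ?_, by rw [rk_conj, h5], h4, by rw [alt_conj, h7], h6⟩
  · calc s * t * s⁻¹ * (s * t * s⁻¹) = s * (t * t) * s⁻¹ := by group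
      _ = 1 := by rw [h2]; group
  · rw [← h3]; group

theorem P.mk' {g s : O Q} (h1 : s * s = 1) (h2 : s * g * s⁻¹ = g⁻¹) :
    P g s.rk (s * g).rk (Alt s) (Alt (s * g)) := by
  refine ⟨s, s * g, h1, ?_, by rw [← mul_assoc, h1, one_mul], rfl, rfl, Iff.rfl, Iff.rfl⟩
  have : s⁻¹ = s := inv_eq_of_mul_eq_one_right h1
  rw [this] at h2
  rw [← mul_assoc, h2, inv_mul_cancel]

def OK (g : O Q) : Prop := ∃ i j x y, P g i j x y ∧ finrank F V ≤ 2 * (i + j) ∧ i ≤ j + 1 ∧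
  j ≤ i + 1 ∧ (x → y → finrank F V = 0)

def Nice (g : O Q) : Prop := ∃ i j x y, P g i j x y ∧ finrank F V ≤ 2 * (i + j) ∧ i ≤ j + 1 ∧
  j ≤ i + 1 ∧ ¬ x ∧ ¬ y

def Ev (g : O Q) : Prop := ∃ i x y, P g i i x y ∧ finrank F V ≤ 4 * i ∧ (x → y → False)

theorem Nice.ok {g : O Q} (h : Nice g) : OK g := by
  obtain ⟨i, j, x, y, h1, h2, h3, h4, h5, -⟩ := h
  exact ⟨i, j, x, y, h1, h2, h3, h4, fun h => (h5 h).elim⟩

theorem Ev.ok {g : O Q} (h : Ev g) : OK g := by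
  obtain ⟨i, x, y, h1, h2, h3⟩ := h
  exact ⟨i, i, x, y, h1, by omega, by omega, by omega, fun a b => (h3 a b).elim⟩

variable [FiniteDimensional F V] (hQ : Q.polarBilin.Nondegenerate) {U : Submodule F V}
  (hU : Nondeg Q U)

theorem rk_sO (a : O (Q.restrict U)) (b : O (Q.restrict (perp Q U))) :
    (sO hQ hU (a, b)).rk = a.rk + b.rk := by
  rw [← O.rk_prodHom (a, b), O.rk, O.rk,
    ← LinearEquiv.finrank_map_eq (Submodule.prodEquivOfIsCompl _ _ (hU.isCompl hQ))]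
  refine congrArg (fun W : Submodule F V => finrank F W) ?_
  ext v
  simp only [O.mem_mov, Submodule.mem_map]
  constructor
  · rintro ⟨w, rfl⟩
    obtain ⟨x, hx, y, hy, rfl⟩ := hU.exists_decomp hQ w
    refine ⟨_, ⟨(⟨x, hx⟩, ⟨y, hy⟩), rfl⟩, ?_⟩
    have := sO_apply hQ hU (a, b) ⟨x, hx⟩ ⟨y, hy⟩
    simp only at this
    rw [this]
    simp only [O.prodHom_apply, Prod.mk_sub_mk, LinearEquiv.coe_coe,
      Submodule.coe_prodEquivOfIsCompl', Submodule.coe_sub]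
    abel
  · rintro ⟨_, ⟨⟨x, y⟩, rfl⟩, rfl⟩
    refine ⟨x + y, ?_⟩
    rw [sO_apply]
    simp only [O.prodHom_apply, Prod.mk_sub_mk, LinearEquiv.coe_coe,
      Submodule.coe_prodEquivOfIsCompl', Submodule.coe_sub]
    abel

theorem alt_sO (a : O (Q.restrict U)) (b : O (Q.restrict (perp Q U))) :
    Alt (sO hQ hU (a, b)) ↔ Alt a ∧ Alt b := by
  refine ⟨fun h => ⟨fun w => ?_, fun w => ?_⟩, fun h w => ?_⟩
  · have := h w
    rwa [sO_left, ← H58.polar_restrict] at this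
  · have := h w
    rwa [sO_right, ← H58.polar_restrict] at this
  · obtain ⟨x, hx, y, hy, rfl⟩ := hU.exists_decomp hQ w
    have := sO_apply hQ hU (a, b) ⟨x, hx⟩ ⟨y, hy⟩
    simp only at this
    have e1 := h.1 ⟨x, hx⟩
    have e2 := h.2 ⟨y, hy⟩
    rw [H58.polar_restrict] at e1 e2
    rw [this, polar_add_left, polar_add_right, polar_add_right, e1, e2,
      mem_perp.1 (b ⟨y, hy⟩).2 x hx, mem_perp'.1 hy _ (a ⟨x, hx⟩).2]
    simp

theorem P.sum {a : O (Q.restrict U)} {b : O (Q.restrict (perp Q U))} {i j i' j' : ℕ}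
    {x y x' y' : Prop} (h : P a i j x y) (h' : P b i' j' x' y') :
    P (sO hQ hU (a, b)) (i + i') (j + j') (x ∧ x') (y ∧ y') := by
  obtain ⟨s, t, h1, h2, h3, h4, h5, h6, h7⟩ := h
  obtain ⟨s', t', k1, k2, k3, k4, k5, k6, k7⟩ := h'
  refine ⟨sO hQ hU (s, s'), sO hQ hU (t, t'), ?_, ?_, ?_, by rw [rk_sO, h4, k4],
    by rw [rk_sO, h5, k5], by rw [alt_sO, h6, k6], by rw [alt_sO, h7, k7]⟩
  · rw [← map_mul, Prod.mk_mul_mk, h1, k1]; exact map_one _
  · rw [← map_mul, Prod.mk_mul_mk, h2, k2]; exact map_one _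
  · rw [← map_mul, Prod.mk_mul_mk, h3, k3]

variable {a : O (Q.restrict U)} {b : O (Q.restrict (perp Q U))}

theorem nice_sum (h : (Nice a ∧ OK b) ∨ (OK a ∧ Nice b) ∨ (Ev a ∧ OK b ∧ finrank F (perp Q U) ≠ 0) ∨
    (OK a ∧ Ev b ∧ finrank F U ≠ 0)) : Nice (sO hQ hU (a, b)) := by
  have hd := finrank_perp hQ U
  rcases h with ⟨⟨i, j, x, y, h1, h2, h3, h4, h5, h6⟩, i', j', x', y', k1, k2, k3, k4, -⟩ |
    ⟨⟨i, j, x, y, h1, h2, h3, h4, -⟩, i', j', x', y', k1, k2, k3, k4, k5, k6⟩ |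
    ⟨⟨i, x, y, h1, h2, h3⟩, ⟨i', j', x', y', k1, k2, k3, k4, k5⟩, h0⟩ |
    ⟨⟨i, j, x, y, h1, h2, h3, h4, h5⟩, ⟨i', x', y', k1, k2, k3⟩, h0⟩
  · by_cases c : (i ≤ j ↔ j' ≤ i')
    · exact ⟨_, _, _, _, h1.sum hQ hU k1, by omega, by omega, by omega, by tauto, by tauto⟩
    · exact ⟨_, _, _, _, h1.sum hQ hU k1.swap, by omega, by omega, by omega, by tauto, by tauto⟩
  · by_cases c : (i ≤ j ↔ j' ≤ i')
    · exact ⟨_, _, _, _, h1.sum hQ hU k1, by omega, by omega, by omega, by tauto, by tauto⟩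
    · exact ⟨_, _, _, _, h1.sum hQ hU k1.swap, by omega, by omega, by omega, by tauto, by tauto⟩
  · by_cases c : (x ↔ x')
    · exact ⟨_, _, _, _, h1.swap.sum hQ hU k1, by omega, by omega, by omega, by tauto, by tauto⟩
    · by_cases c' : y ∧ y'
      · exact ⟨_, _, _, _, h1.swap.sum hQ hU k1, by omega, by omega, by omega, by tauto, by tauto⟩
      · exact ⟨_, _, _, _, h1.sum hQ hU k1, by omega, by omega, by omega, by tauto, by tauto⟩
  · by_cases c : (x ↔ x')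
    · exact ⟨_, _, _, _, h1.sum hQ hU k1.swap, by omega, by omega, by omega, by tauto, by tauto⟩
    · by_cases c' : y ∧ y'
      · exact ⟨_, _, _, _, h1.sum hQ hU k1.swap, by omega, by omega, by omega, by tauto, by tauto⟩
      · exact ⟨_, _, _, _, h1.sum hQ hU k1, by omega, by omega, by omega, by tauto, by tauto⟩

end H99.Or
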