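import Cfsg.Agent.H99.Or1

/-! Orthogonal groups in characteristic two: a product of two conjugate involutions that are not
of alternating type is a commutator in the commutator subgroup. -/

set_option autoImplicit false

namespace H99.Or

open H56 H60 H93.FS QuadraticMap Module

variable {F V : Type*} [Field F] [AddCommGroup V] [Module F V] {Q : QuadraticForm F V}
  [CharP F 2] [Finite F] [FiniteDimensional F V] (hQ : Q.polarBilin.Nondegenerate)
include hQ

theorem exists_a {s : O Q} (hs : s * s = 1) :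
    ∃ a, s a = a ∧ ∀ w, polar Q w (s w) = polar Q a w * polar Q a w := by
  have h2 : (2 : F) = 0 := CharTwo.two_eq_zero
  obtain ⟨a, ha⟩ := H93.O2.exists_sh h2 hQ
    (Q' := Q + LinearMap.BilinMap.toQuadraticMap (Q.polarBilin.compl₂ s.lin)) fun u v => by
      have e : ∀ w, (Q + LinearMap.BilinMap.toQuadraticMap (Q.polarBilin.compl₂ s.lin)) w =
        Q w + polar Q w (s w) := fun _ => rfl
      have e1 := padj hs u v
      rw [polar_comm] at e1
      rw [polar, e, e, e, Q_add, map_add, polar_add_left, polar_add_right, polar_add_right, e1]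
      linear_combination (polar Q u (s v)) * h2
  have h : ∀ w, polar Q w (s w) = polar Q a w * polar Q a w := fun w => by
    have : Q w + polar Q w (s w) = _ := (ha w).trans (H93.O2.sh_apply Q a w)
    linear_combination this
  refine ⟨a, sub_eq_zero.1 (eq_zero_of_polar hQ fun w => ?_), h⟩
  rw [polar_sub_left, padj hs, sub_eq_zero]
  refine H93.O2.eq_of_mul_self h2 ?_
  rw [← h, ← h, inv_apply_of_sq hs, polar_comm]

omit hQ [Finite F] [FiniteDimensional F V] in
theorem mul_refl_sq {s : O Q} (hs : s * s = 1) {i : V} (hi : s i = i) :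
    s * refl Q i * (s * refl Q i) = 1 := by
  have := H93.O2.refl_comm (t := s) (a := i) (O.mem_fix.2 hi)
  rw [mul_assoc, ← mul_assoc (refl Q i), ← this, mul_assoc, refl_mul_self, mul_one, hs]

omit hQ [Finite F] [FiniteDimensional F V] in
theorem polar_mul_refl {s : O Q} (hs : s * s = 1) {i : V} (hi : s i = i) (h1 : Q i = 1) (w : V) :
    polar Q w ((s * refl Q i) w) = polar Q w (s w) + polar Q i w * polar Q i w := by
  have h2 : (2 : F) = 0 := CharTwo.two_eq_zero
  rw [O.mul_apply, refl_apply, map_sub, map_smul, hi, polar_sub_right, polar_smul_right, h1,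
    polar_comm Q w i]
  simp only [inv_one, one_mul, smul_eq_mul]
  linear_combination -(polar Q i w * polar Q i w) * h2

theorem Q_a_ne {s : O Q} (hs : s * s = 1) (ho : ¬ Even s.rk) {a : V} (ha : s a = a)
    (h : ∀ w, polar Q w (s w) = polar Q a w * polar Q a w) : Q a ≠ 0 := by
  have h2 : (2 : F) = 0 := CharTwo.two_eq_zero
  intro h0
  by_cases ha0 : a = 0
  · exact ho (H93.O2.even_rk_of_alt hQ ((alt_iff s).1 fun w => by simp [h, ha0]))
  obtain ⟨u, hu⟩ := exists_polar_eq_one hQ ha0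
  have i1 : s (u + s u) = u + s u := by rw [map_add, inv_apply_of_sq hs, add_comm]
  have i2 : Q (u + s u) = 1 := by
    rw [Q_add, s.map_Q, h, hu]; linear_combination Q u * h2
  have i3 : polar Q (u + s u) a = 0 := by
    rw [polar_add_left, padj hs, ha]; linear_combination polar Q u a * h2
  have j2 : Q (u + s u + a) = 1 := by rw [Q_add, i2, h0, i3]; ring
  have j1 : (s * refl Q (u + s u)) (u + s u + a) = u + s u + a := by
    rw [O.mul_apply, refl_apply_of_orth (by rw [polar_add_right, i3, pself2, add_zero]), map_add, i1, ha]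
  have k : Alt (s * refl Q (u + s u) * refl Q (u + s u + a)) := fun w => by
    rw [polar_mul_refl (mul_refl_sq hs i1) j1 j2, polar_mul_refl hs i1 i2, h, polar_add_left Q _ a]
    linear_combination (polar Q a w * polar Q a w + polar Q (u + s u) w * polar Q (u + s u) w +
      polar Q (u + s u) w * polar Q a w) * h2
  have := (dickson_eq_one_iff hQ _).2 (H93.O2.even_rk_of_alt hQ ((alt_iff _).1 k))
  rw [map_mul, map_mul, dickson_refl hQ (i2 ▸ one_ne_zero), dickson_refl hQ (j2 ▸ one_ne_zero)] at this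
  exact ho ((dickson_eq_one_iff hQ _).1 (by simpa using this))

omit [Finite F] [FiniteDimensional F V] in
theorem exists_frame {s : O Q} (hs : s * s = 1) {a v : V} (h0 : Q a ≠ 0)
    (h : ∀ w, polar Q w (s w) = polar Q a w * polar Q a w) (hv : polar Q a v = 0) (hv' : s v ≠ v) :
    ∃ w, polar Q a w = 0 ∧ polar Q v w = 0 ∧ Q w = 0 ∧ polar Q v (s w) = 1 ∧
      polar Q a (s w) = 0 := by
  have h2 : (2 : F) = 0 := CharTwo.two_eq_zero
  have hvv : polar Q v (s v) = 0 := by rw [h, hv, mul_zero]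
  have i2 : Q (v + s v) = 0 := by
    rw [Q_add, s.map_Q, hvv]; linear_combination Q v * h2
  have hs' : ∀ w, polar Q a (s w) = polar Q a w := fun w => by
    refine H93.O2.eq_of_mul_self h2 ?_
    rw [← h, ← h, inv_apply_of_sq hs, polar_comm]
  obtain ⟨w, w1, w2⟩ : ∃ w, polar Q a w = 0 ∧ polar Q (v + s v) w ≠ 0 := by
    by_contra! hc
    obtain ⟨c, hc⟩ := exists_smul_of_orth hQ hc
    rw [hc, Q_smul, mul_eq_zero, mul_self_eq_zero] at i2
    rw [i2.resolve_right h0, zero_smul] at hc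
    exact hv' (by linear_combination (norm := module) hc - H93.FS.vadd_self (F := F) v)
  obtain ⟨w, w1, w2⟩ : ∃ w, polar Q a w = 0 ∧ polar Q (v + s v) w = 1 :=
    ⟨(polar Q (v + s v) w)⁻¹ • w, by simp [w1], by rw [polar_smul_right]; exact inv_mul_cancel₀ w2⟩
  have e1 : polar Q v w + polar Q v (s w) = 1 := by rw [← w2, polar_add_left, padj hs]
  obtain ⟨w, w1, w2, w3⟩ : ∃ w, polar Q a w = 0 ∧ polar Q v (s w) = 1 ∧ polar Q v w = 0 := by
    refine ⟨w + polar Q v w • (w + s w), by simp [w1, hs'], ?_, ?_⟩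
    · simp only [map_add, map_smul, inv_apply_of_sq hs, polar_add_right, polar_smul_right, smul_eq_mul]
      linear_combination (1 + polar Q v w) * e1
    · simp only [polar_add_right, polar_smul_right, smul_eq_mul]
      linear_combination polar Q v w * e1 + polar Q v w * h2
  refine ⟨w + Q w • (v + s v), by simp [w1, hs', hv], ?_, ?_, ?_, by simp [w1, hs', hv]⟩
  · simp [w3, hvv, h2]
  · rw [Q_add, Q_smul, i2, polar_smul_right, polar_add_right, pc w3, polar_comm Q w, padj hs, w2]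
    simp only [smul_eq_mul]
    linear_combination Q w * h2
  · simp [w2, hvv, h2, inv_apply_of_sq hs]

theorem ext_conj {s t : O Q} (hs : s * s = 1) (ht : t * t = 1) (hr : s.rk = t.rk) (ns : ¬ Alt s)
    (nt : ¬ Alt t) {X : Submodule F V} (hX : Nondeg Q X) (hi : ∀ x ∈ X, t x ∈ X)
    (he : ∀ x ∈ X, s x = t x) (ha : ∀ x ∈ X, polar Q x (t x) = 0) :
    ∃ h : O Q, h * s * h⁻¹ = t ∧ ∀ x ∈ X, h x = x := by
  have hi' : ∀ x ∈ X, s x ∈ X := fun x hx => he x hx ▸ hi x hx
  have e : rO s hi' = rO t hi := O.ext fun x => Subtype.ext (he x x.2)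
  have e1 := sO_rO hQ hX hi'
  have e2 := sO_rO hQ hX hi
  rw [e] at e1
  have a1 : Alt (rO t hi) := fun x => by rw [H58.polar_restrict]; exact ha x x.2
  have q : ∀ (r : O Q) (hr : ∀ x ∈ perp Q X, r x ∈ perp Q X), r * r = 1 → rO r hr ^ 2 = 1 :=
    fun r hr h => O.ext fun x => Subtype.ext (by
      rw [pow_two, O.mul_apply, coe_rO, coe_rO, inv_apply_of_sq h]; rfl)
  obtain ⟨c, hc⟩ := isConj_iff.1 ((H93.O2.isConj_iff_inv (hX.perp hQ).restrict
    (q s (perp_inv hi') hs) (q t (perp_inv hi) ht)).2 ⟨by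
      have f1 := rk_sO hQ hX (rO t hi) (rO s (perp_inv hi'))
      have f2 := rk_sO hQ hX (rO t hi) (rO t (perp_inv hi))
      rw [e1] at f1
      rw [e2] at f2
      omega, by
      have f1 := alt_sO hQ hX (rO t hi) (rO s (perp_inv hi'))
      have f2 := alt_sO hQ hX (rO t hi) (rO t (perp_inv hi))
      rw [e1] at f1
      rw [e2] at f2
      rw [← alt_iff, ← alt_iff]
      tauto⟩)
  refine ⟨sO hQ hX (1, c), ?_, fun x hx => sO_left hQ hX _ ⟨x, hx⟩⟩
  rw [← e1, ← map_inv, ← map_mul, ← map_mul]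
  simp only [Prod.inv_mk, Prod.mk_mul_mk, inv_one, one_mul, mul_one]
  rw [hc, e2]

omit hQ [CharP F 2] [Finite F] [FiniteDimensional F V] in
/-- a frame of four vectors -/
def fr (s : O Q) (v w : V) : F × F × F × F →ₗ[F] V :=
  (LinearMap.toSpanSingleton F V v).coprod ((LinearMap.toSpanSingleton F V (s v)).coprod
    ((LinearMap.toSpanSingleton F V w).coprod (LinearMap.toSpanSingleton F V (s w))))

omit hQ [CharP F 2] [Finite F] [FiniteDimensional F V] in
theorem fr_apply (s : O Q) (v w : V) (a b c d : F) :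
    fr s v w (a, b, c, d) = a • v + (b • s v + (c • w + d • s w)) := rfl

omit hQ [Finite F] [FiniteDimensional F V] in
theorem fr_spec {s : O Q} (hs : s * s = 1) {v w : V} (h1 : polar Q v (s v) = 0)
    (h2 : polar Q v w = 0) (h3 : Q w = 0) (h4 : polar Q v (s w) = 1) (h5 : polar Q w (s w) = 0) :
    (∀ a b c d, Q (fr s v w (a, b, c, d)) = (a * a + b * b) * Q v + a * d + b * c) ∧
      Function.Injective (fr s v w) ∧ Nondeg Q (LinearMap.range (fr s v w)) ∧
      ∀ a b c d, s (fr s v w (a, b, c, d)) = fr s v w (b, a, d, c) := by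
  have h0 : (2 : F) = 0 := CharTwo.two_eq_zero
  have k : ∀ a b c d, Q (fr s v w (a, b, c, d)) = (a * a + b * b) * Q v + a * d + b * c :=
    fun a b c d => by
      simp only [fr_apply, Q_add, Q_smul, polar_add_right, polar_smul_left, polar_smul_right, h1, h2,
        h3, h4, h5, s.map_Q, s.map_polar, padj hs v w, smul_eq_mul]
      ring
  have k2 : ∀ a b c d a' b' c' d', polar Q (fr s v w (a', b', c', d')) (fr s v w (a, b, c, d)) =
      a * d' + d * a' + b * c' + c * b' := fun a b c d a' b' c' d' => by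
    rw [polar, ← map_add, Prod.mk_add_mk, Prod.mk_add_mk, Prod.mk_add_mk, k, k, k]
    linear_combination (a * a' * Q v + b * b' * Q v) * h0
  have k3 : ∀ m, (∀ m', polar Q (fr s v w m') (fr s v w m) = 0) → m = 0 := by
    rintro ⟨a, b, c, d⟩ h
    have e1 := h (1, 0, 0, 0)
    have e2 := h (0, 1, 0, 0)
    have e3 := h (0, 0, 1, 0)
    have e4 := h (0, 0, 0, 1)
    rw [k2] at e1 e2 e3 e4
    simp only [mul_zero, mul_one, add_zero, zero_add] at e1 e2 e3 e4
    rw [e1, e2, e3, e4]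
    rfl
  refine ⟨k, (injective_iff_map_eq_zero _).2 fun m hm => k3 m fun m' => by rw [hm, polar_zero_right],
    ?_, fun a b c d => ?_⟩
  · rintro _ ⟨m, rfl⟩ h
    rw [k3 m fun m' => h _ ⟨m', rfl⟩, map_zero]
  · simp only [fr_apply, map_add, map_smul, inv_apply_of_sq hs]
    abel

theorem exists_conj_fix {s t : O Q} (hs : s * s = 1) (ht : t * t = 1) (hr : s.rk = t.rk)
    (ns : ¬ Alt s) (nt : ¬ Alt t) {a b v : V} (a0 : Q a ≠ 0) (b0 : Q b ≠ 0)
    (ha : ∀ w, polar Q w (s w) = polar Q a w * polar Q a w)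
    (hb : ∀ w, polar Q w (t w) = polar Q b w * polar Q b w) (av : polar Q a v = 0)
    (bv : polar Q b v = 0) (sv : s v ≠ v) (tv : t v ≠ v) (b1 : t b = b) :
    ∃ h : O Q, h * s * h⁻¹ = t ∧ h v = v := by
  obtain ⟨w, w1, w2, w3, w4, -⟩ := exists_frame hQ hs a0 ha av sv
  obtain ⟨u, u1, u2, u3, u4, u5⟩ := exists_frame hQ ht b0 hb bv tv
  obtain ⟨p1, p2, -, p4⟩ := fr_spec hs (by rw [ha, av, mul_zero]) w2 w3 w4 (by rw [ha, w1, mul_zero])
  obtain ⟨q1, q2, q3, q4⟩ := fr_spec ht (by rw [hb, bv, mul_zero]) u2 u3 u4 (by rw [hb, u1, mul_zero])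
  obtain ⟨k, hk⟩ := witt_maps hQ _ _ p2 q2 fun ⟨a, b, c, d⟩ => by rw [p1, q1]
  obtain ⟨h, h1, h2⟩ := ext_conj hQ (s := k * s * k⁻¹) (t := t) (by
      calc k * s * k⁻¹ * (k * s * k⁻¹) = k * (s * s) * k⁻¹ := by group
        _ = 1 := by rw [hs]; group) ht (by rw [rk_conj, hr]) (by rwa [alt_conj]) nt q3
    (by rintro _ ⟨⟨a, b, c, d⟩, rfl⟩; exact ⟨_, (q4 a b c d).symm⟩)
    (by rintro _ ⟨⟨a, b, c, d⟩, rfl⟩
        rw [q4, O.mul_apply, O.mul_apply, ← hk, O.inv_apply_apply, p4, hk])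
    (by rintro _ ⟨⟨x, y, c, d⟩, rfl⟩
        have : polar Q b (t v) = 0 := by rw [← padj ht, b1, bv]
        rw [hb]
        simp [fr_apply, bv, u1, u5, this])
  have e1 : fr s v w (1, 0, 0, 0) = v := by simp [fr_apply]
  have e2 : fr t v u (1, 0, 0, 0) = v := by simp [fr_apply]
  refine ⟨h * k, by rw [← h1]; group, ?_⟩
  have := hk (1, 0, 0, 0)
  rw [e1, e2] at this
  rw [O.mul_apply, this, h2 v ⟨_, e2⟩]

omit [Finite F] in
theorem exists_v {s t : O Q} (hs : s * s = 1) (ht : t * t = 1) (h8 : 8 ≤ finrank F V)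
    (s3 : 3 ≤ s.rk) (t3 : 3 ≤ t.rk) {a : V} (b : V) (a0 : Q a ≠ 0) :
    ∃ v, Q v ≠ 0 ∧ polar Q a v = 0 ∧ polar Q b v = 0 ∧ s v ≠ v ∧ t v ≠ v := by
  have h2 : (2 : F) = 0 := CharTwo.two_eq_zero
  have d1 := finrank_le_inf_ort (Q := Q) ⊤ a
  have d2 := finrank_le_inf_ort (Q := Q) (⊤ ⊓ ort Q a) b
  rw [finrank_top] at d1
  have k : ∀ r : O Q, 3 ≤ r.rk → ¬ ⊤ ⊓ ort Q a ⊓ ort Q b ≤ r.fix := fun r h3 h => by
    have := Submodule.finrank_mono h
    have := r.rk_add_finrank_fix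
    omega
  obtain ⟨v, ⟨⟨-, va⟩, vb⟩, vs, vt⟩ := exists_not_mem_two (k s s3) (k t t3)
  have k2 : ∀ r : O Q, r * r = 1 → v ∉ r.fix → ∃ p, ∀ x, polar Q p x = 0 → r (v + x) ≠ v + x :=
    fun r hr h => by
      obtain ⟨y, hy⟩ := exists_polar_ne_zero hQ (sub_ne_zero.2 (O.mem_fix.not.1 h))
      refine ⟨r y - y, fun x hx e => hy ?_⟩
      have := r.polar_sub_fix y e
      rw [polar_add_right, hx, add_zero] at this
      rw [polar_sub_left, padj hr, ← polar_sub_right, polar_comm, this]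
  obtain ⟨p, hp⟩ := k2 s hs vs
  obtain ⟨q, hq⟩ := k2 t ht vt
  have d3 := finrank_le_inf_ort (Q := Q) (⊤ ⊓ ort Q a ⊓ ort Q b) p
  have d4 := finrank_le_inf_ort (Q := Q) (⊤ ⊓ ort Q a ⊓ ort Q b ⊓ ort Q p) q
  set M := ⊤ ⊓ ort Q a ⊓ ort Q b ⊓ ort Q p ⊓ ort Q q with hM
  by_contra! hc
  have hz : ∀ x ∈ M, Q (v + x) = 0 := by
    rintro x ⟨⟨⟨⟨-, xa⟩, xb⟩, xp⟩, xq⟩
    by_contra h
    exact hq x xq (hc _ h (by rw [polar_add_right, mem_ort.1 va, mem_ort.1 xa, add_zero])
      (by rw [polar_add_right, mem_ort.1 vb, mem_ort.1 xb, add_zero]) (hp x xp))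
  have h0 : Q v = 0 := by simpa using hz 0 M.zero_mem
  have h1 : ∀ x ∈ M, Q x = - polar Q v x := fun x hx => by
    have := hz x hx
    rw [Q_add, h0] at this
    linear_combination this
  have h3 : M ≤ perp Q M := fun x hx => mem_perp.2 fun y hy => by
    rw [polar, h1 _ (M.add_mem hy hx), h1 x hx, h1 y hy, polar_add_right]
    ring
  have h4 := finrank_perp hQ M
  have h5 : M = perp Q M := Submodule.eq_of_le_of_finrank_le h3 (by omega)
  have h6 : a ∈ M := h5 ▸ mem_perp'.2 fun y hy => hy.1.1.1.2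
  exact a0 (by rw [h1 a h6, pc (mem_ort.1 va), neg_zero])

theorem comm_of_nice (h8 : 8 ≤ finrank F V) {g : O Q} (hg : g ∈ commutator (O Q)) (h : Nice g) :
    ∃ a ∈ commutator (O Q), ∃ b ∈ commutator (O Q), g = a * b * a⁻¹ * b⁻¹ := by
  have h2 : (2 : F) = 0 := CharTwo.two_eq_zero
  have hE : ¬ IsExc Q := not_isExc_of_finrank (by omega)
  obtain ⟨i, j, x, y, ⟨s, t, hs, ht, rfl, rfl, rfl, h6, h7⟩, d1, d2, d3, nx, ny⟩ := h
  rw [← h6] at nx
  rw [← h7] at ny
  rw [H93.O2.mem_comm_iff h2 hQ hE, map_mul, dickson_apply, dickson_apply, ← pow_add,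
    neg_one_pow_eq_one_iff_even (by decide)] at hg
  have hr : s.rk = t.rk := by obtain ⟨m, hm⟩ := hg; omega
  have si : s⁻¹ = s := inv_eq_of_mul_eq_one_right hs
  by_cases he : Even s.rk
  · obtain ⟨h, h1, h3⟩ := H93.O2.exists_omega_conj h2 hQ hE (t := s) (s := t) (by rw [pow_two, hs])
      (fun h => nx ((alt_iff s).2 h.2)) ((H93.O2.isConj_iff_inv hQ (by rw [pow_two, hs])
        (by rw [pow_two, ht])).2 ⟨hr, by rw [← alt_iff, ← alt_iff]; tauto⟩)
    refine ⟨s, (H93.O2.mem_comm_iff h2 hQ hE _).2 ((dickson_eq_one_iff hQ _).2 he), h, h1, ?_⟩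
    rw [si, ← h3]
    group
  obtain ⟨a, a1, ha⟩ := exists_a hQ hs
  obtain ⟨b, b1, hb⟩ := exists_a hQ ht
  have a0 := Q_a_ne hQ hs he a1 ha
  have b0 := Q_a_ne hQ ht (hr ▸ he) b1 hb
  have s3 : 3 ≤ s.rk := by
    rw [Nat.not_even_iff_odd] at he
    obtain ⟨m, hm⟩ := he
    omega
  obtain ⟨v, v0, va, vb, vs, vt⟩ := exists_v hQ hs ht h8 s3 (hr ▸ s3) b a0
  obtain ⟨h, h1, h3⟩ := exists_conj_fix hQ hs ht hr nx ny a0 b0 ha hb va vb vs vt b1
  obtain ⟨h, h0, h1, h3⟩ : ∃ h ∈ commutator (O Q), h * s * h⁻¹ = t ∧ h v = v := by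
    rcases Int.units_eq_one_or (dickson hQ h) with e | e
    · exact ⟨h, (H93.O2.mem_comm_iff h2 hQ hE h).2 e, h1, h3⟩
    · refine ⟨h * refl Q a, (H93.O2.mem_comm_iff h2 hQ hE _).2 ?_, ?_, ?_⟩
      · rw [map_mul, e, dickson_refl hQ a0]
        decide
      · rw [mul_assoc h, ← H93.O2.refl_comm (O.mem_fix.2 a1), ← h1]
        group
      · rw [O.mul_apply, refl_apply_of_orth va, h3]
  refine ⟨s * refl Q v, (H93.O2.mem_comm_iff h2 hQ hE _).2 ?_, h, h0, ?_⟩
  · rw [map_mul, dickson_refl hQ v0, dickson_apply, (Nat.not_even_iff_odd.1 he).neg_one_pow]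
    decide
  · have e : refl Q v * h * (refl Q v)⁻¹ = h := by
      rw [mul_inv_eq_iff_eq_mul, mul_refl, h3]
    calc s * t = s * (refl Q v * h * (refl Q v)⁻¹) * s⁻¹ * h⁻¹ := by rw [e, si, ← h1]; group
      _ = _ := by group

end H99.Or
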