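import Cfsg.Agent.H99.Or1

/-! Orthogonal groups in characteristic two: pairs of involutions on cyclic blocks. -/

set_option autoImplicit false

namespace H99.Or

open H56 H60 H93.FS QuadraticMap Module Polynomial

variable {F V : Type*} [Field F] [AddCommGroup V] [Module F V] {Q : QuadraticForm F V}

/-- the self-adjoint operator `g + g⁻¹` -/
noncomputable def Z (g : O Q) : Module.End F V := g.lin + g⁻¹.lin

theorem Z_apply (g : O Q) (v : V) : Z g v = g v + g⁻¹ v := rfl

/-- a unipotent element with a vector generating a cyclic non-degenerate block -/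
def UB (g : O Q) (k : ℕ) (x : V) : Prop :=
  (∀ v, (Z g ^ (k + 1)) v = 0) ∧ polar Q ((Z g ^ k) (g x)) x ≠ 0

def UT (g : O Q) : Prop := ∃ k x, UB g k x ∧ ∃ h a b, P g (h + 1) h a b ∧
  finrank F V = 2 * (h + 1) ∧ (Even k → ¬ a) ∧ (¬ Even k → ¬ b)

def Ind (g : O Q) : Prop := (Ev g ∧ (8 ≤ finrank F V → Nice g)) ∨ UT g

theorem UT.ok {g : O Q} (h : UT g) : OK g := by
  obtain ⟨k, x, -, h, a, b, h1, h2, h3, h4⟩ := h
  exact ⟨_, _, _, _, h1, by omega, by omega, by omega, by tauto⟩

theorem rk_mul_le [FiniteDimensional F V] (s t : O Q) : (s * t).rk ≤ s.rk + t.rk :=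
  (Submodule.finrank_mono (t := s.mov ⊔ t.mov) fun v hv => by
    obtain ⟨y, rfl⟩ := O.mem_mov.1 hv
    have := Submodule.add_mem_sup (s.sub_mem_mov (t y)) (t.sub_mem_mov y)
    rwa [sub_add_sub_cancel] at this).trans (finrank_sup_le _ _)

theorem P.facts [CharP F 2] [FiniteDimensional F V] (hQ : Q.polarBilin.Nondegenerate) {g : O Q}
    {i j : ℕ} {x y : Prop} (h : P g i j x y) : 2 * i ≤ finrank F V ∧ 2 * j ≤ finrank F V ∧
      g.rk ≤ i + j ∧ (Even g.rk ↔ Even (i + j)) := by
  obtain ⟨s, t, h1, h2, rfl, rfl, rfl, -⟩ := h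
  refine ⟨H93.O2.two_mul_rk_le CharTwo.two_eq_zero (by rw [pow_two, h1]),
    H93.O2.two_mul_rk_le CharTwo.two_eq_zero (by rw [pow_two, h2]), rk_mul_le s t, ?_⟩
  rw [← dickson_eq_one_iff hQ, map_mul, dickson_apply, dickson_apply, ← pow_add,
    neg_one_pow_eq_one_iff_even (by decide)]

theorem rk_max [CharP F 2] [FiniteDimensional F V] {h : O Q} (h1 : h * h = 1)
    (h3 : ∀ v, h v = v → ∃ w, h w - w = v) : 2 * h.rk = finrank F V := by
  have : h.fix = h.mov := le_antisymm (fun v hv => O.mem_mov.2 (h3 v (O.mem_fix.1 hv)))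
    (H93.O2.mov_le_fix CharTwo.two_eq_zero (by rw [pow_two, h1]))
  rw [← h.rk_add_finrank_fix, this, two_mul]; rfl

variable [CharP F 2] [Module F[X] V] [IsScalarTower F F[X] V] {g : O Q}

omit [CharP F 2] in
theorem sq_span {c : F[X]} {u v : V} (h1 : ∀ r : F[X], polar Q ((c * (r * r)) • u) v = 0)
    (h2 : ∀ r : F[X], polar Q ((c * (X * (r * r))) • u) v = 0) (p : F[X]) :
    polar Q ((c * p) • u) v = 0 := by
  induction p using Polynomial.induction_on' with
  | add p q hp hq => rw [mul_add, add_smul, polar_add_left, hp, hq, add_zero]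
  | monomial n a =>
    rw [← C_mul_X_pow_eq_monomial, mul_left_comm, mul_smul, C_sm, polar_smul_left]
    obtain ⟨m, rfl | rfl⟩ := Nat.even_or_odd' n
    · rw [two_mul, pow_add, h1, smul_zero]
    · rw [pow_succ', two_mul, pow_add, h2, smul_zero]

variable (hX : ∀ v, (X : F[X]) • v = g v + g⁻¹ v)
include hX

omit [CharP F 2] [IsScalarTower F F[X] V] in
theorem Z_pow (j : ℕ) (v : V) : (Z g ^ j) v = (X ^ j : F[X]) • v := by
  induction j generalizing v with
  | zero => simp
  | succ j ih => rw [pow_succ, Module.End.mul_apply, ih, Z_apply, ← hX, ← mul_smul, pow_succ]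

theorem cyc_dvd {π : F[X]} (hπ : Prime π) {k : ℕ} (h0 : ∀ v : V, π ^ (k + 1) • v = 0) {s : F[X]}
    {x : V} (hx : polar Q ((s * π ^ k) • g x) x ≠ 0) {b : F[X]}
    (hb : ∀ s : F[X], polar Q ((s * b) • g x) x = 0) : π ^ (k + 1) ∣ b := by
  let I : Ideal F[X] :=
    { carrier := {b | ∀ s : F[X], polar Q ((s * b) • g x) x = 0}
      add_mem' := fun ha hb s => by rw [mul_add, add_smul, polar_add_left, ha, hb, add_zero]
      zero_mem' := fun s => by simp
      smul_mem' := fun c b hb s => by rw [smul_eq_mul, ← mul_assoc, hb] }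
  exact pow_dvd_of_mem hπ (I := I) (fun s => by simp [mul_smul, h0]) (fun h => hx (h s)) hb

theorem cyc_nondeg {π : F[X]} (hπ : Prime π) {k : ℕ} (h0 : ∀ v : V, π ^ (k + 1) • v = 0) {s : F[X]}
    {x : V} (hx : polar Q ((s * π ^ k) • g x) x ≠ 0) : Nondeg Q (LinearMap.range (cy g x)) := by
  have hI : ∀ b : F[X], (∀ s : F[X], polar Q ((s * b) • g x) x = 0) → ∀ v : V, b • v = 0 :=
    fun b hb v => by
      obtain ⟨c, rfl⟩ := cyc_dvd hX hπ h0 hx hb
      rw [mul_comm, mul_smul, h0, smul_zero]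
  have e3 : ∀ p : F[X], polar Q (p • x) (g x) = polar Q (p • g x) x := fun p => by
    rw [s_adj hX, polar_comm]
  rintro _ ⟨⟨a, b⟩, rfl⟩ h
  have h1 : ∀ s : F[X], polar Q ((s * b) • g x) x = 0 := fun s => by
    simpa [cy_apply, s_nf hX, s_alt hX, e3, mul_comm] using h _ (mem_cy x s 0)
  have h2 : ∀ s : F[X], polar Q ((s * a) • g x) x = 0 := fun s => by
    simpa [cy_apply, s_nf hX, hI b h1, mul_comm] using h _ (mem_cy x 0 s)
  rw [cy_apply, hI a h2, hI b h1, add_zero]

theorem mu_change (x : V) (b r : F[X]) : polar Q (r • g (x + b • g x)) (x + b • g x) =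
    polar Q ((r * (1 + b * X + b * b)) • g x) x := by
  have e3 : ∀ p : F[X], polar Q (p • x) (g x) = polar Q (p • g x) x := fun p => by
    rw [s_adj hX, polar_comm]
  have : r • g (x + b • g x) = (r * b) • x + (r + r * b * X) • g x := by
    rw [map_add, s_comm hX, g_g hX]; module
  rw [this]
  simp only [polar_add_left, polar_add_right, s_nf hX, s_alt hX, e3, zero_add, add_zero]
  rw [← polar_add_left, ← add_smul]
  congr 2
  ring

variable [FiniteDimensional F V] (hQ : Q.polarBilin.Nondegenerate)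
include hQ

theorem cyc_P {x : V} (hT : LinearMap.range (cy g x) = ⊤) : ∃ i j a b, P g i j a b ∧
    2 * i = finrank F V ∧ finrank F V ≤ g.rk + 1 ∧
      (a → ∀ r : F[X], polar Q ((r * r) • g x) x = 0) ∧
      (b → ∀ r : F[X], polar Q ((X * (r * r)) • g x) x = 0) := by
  have e3 : ∀ p : F[X], polar Q (p • x) (g x) = polar Q (p • g x) x := fun p => by
    rw [s_adj hX, polar_comm]
  obtain ⟨h, h1, h2, h3⟩ := core hX hQ (y := x) rfl (fun _ => rfl) (by simp [hT])
  have a1 : ∀ a b : F[X], h (a • x + b • g x) = b • x + a • g x := fun a b => by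
    simpa using h3 a b 0 0
  have a0 : ∀ a : F[X], h (a • x) = a • g x := fun a => by simpa using a1 a 0
  refine ⟨_, _, _, _, P.mk' h1 h2, rk_max h1 fun v hv => ?_, ?_, fun ha r => ?_, fun hb r => ?_⟩
  · obtain ⟨⟨a, b⟩, rfl⟩ := LinearMap.range_eq_top.1 hT v
    rw [cy_apply, a1] at hv
    have a2 : (a - b) • g x = (a - b) • x := by linear_combination (norm := module) hv
    have a3 : (a - b) • x = 0 := eq_zero_of_polar hQ fun y => by
      obtain ⟨⟨c, d⟩, rfl⟩ := LinearMap.range_eq_top.1 hT y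
      rw [polar_comm, cy_apply, polar_add_left, s_nf hX, s_alt hX, ← a2, ← s_comm hX, ← s_comm hX,
        O.map_polar, s_nf hX, s_alt hX, add_zero]
    refine ⟨b • x + (0 : F[X]) • g x, ?_⟩
    rw [a1, cy_apply]
    linear_combination (norm := module) -a3 - b • two_sm (F := F) x
  · have : (⊤ : Submodule F V) ≤ g.mov ⊔ Submodule.span F {x} := fun v _ => by
      obtain ⟨c, w, -, rfl⟩ := cy_dec hX (hT.ge (Submodule.mem_top (x := v)))
      rw [add_comm]
      refine Submodule.add_mem_sup (O.mem_mov.2 ⟨w, ?_⟩)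
        (Submodule.smul_mem _ _ (Submodule.mem_span_singleton_self x))
      rw [sub_eq_add_neg, H93.O2.neg_eq2 (F := F) CharTwo.two_eq_zero]; rfl
    have h4 := (Submodule.finrank_mono this).trans (finrank_sup_le _ _)
    have := finrank_span_singleton_le (F := F) x
    rw [finrank_top] at h4
    exact h4.trans (Nat.add_le_add_left this _)
  · have := ha (r • x)
    rwa [a0, s_nf hX, e3] at this
  · have := hb (r • ((X : F[X]) • x + g x))
    have e : g (r • ((X : F[X]) • x + g x)) = r • x := by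
      rw [s_comm hX, map_add, s_comm hX, g_g hX, ← add_assoc, vadd_self (F := F), zero_add]
    rwa [O.mul_apply, e, a0, s_nf hX, smul_add, polar_add_left, s_alt hX, add_zero, ← mul_smul, e3,
      mul_comm _ X] at this

theorem cyc_nice {x : V} (hT : LinearMap.range (cy g x) = ⊤) {r r' : F[X]}
    (h1 : polar Q ((r * r) • g x) x ≠ 0) (h2 : polar Q ((X * (r' * r')) • g x) x ≠ 0) : Nice g := by
  obtain ⟨i, j, a, b, k1, k2, k3, k4, k5⟩ := cyc_P hX hQ hT
  obtain ⟨-, f1, f2, -⟩ := k1.facts hQ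
  exact ⟨i, j, a, b, k1, by omega, by omega, by omega, fun h => h1 (k4 h r), fun h => h2 (k5 h r')⟩

theorem cyc_UT {x : V} (hT : LinearMap.range (cy g x) = ⊤) {k : ℕ}
    (h0 : ∀ v : V, (X ^ (k + 1) : F[X]) • v = 0) (hx : polar Q ((X ^ k : F[X]) • g x) x ≠ 0) : UT g := by
  obtain ⟨i, j, a, b, k1, k2, k3, k4, k5⟩ := cyc_P hX hQ hT
  obtain ⟨-, f1, f2, f3⟩ := k1.facts hQ
  obtain ⟨u, u0, u1⟩ : ∃ u, u ≠ 0 ∧ g u = u := by
    have e0 : (X ^ k : F[X]) • g x ≠ 0 := fun h => hx (by rw [h, polar_zero_left])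
    set u := (X ^ k : F[X]) • g x with hu
    have e1 : (X : F[X]) • u = 0 := by rw [hu, ← mul_smul, ← pow_succ', h0]
    by_cases h : g u + u = 0
    · exact ⟨u, e0, by linear_combination (norm := module) h - vadd_self (F := F) u⟩
    · exact ⟨_, h, by rw [map_add, g_g hX, ← s_comm hX, e1, map_zero, zero_add, add_comm]⟩
  have f4 := g.rk_add_finrank_fix
  have f5 : 1 ≤ finrank F g.fix := Submodule.one_le_finrank_iff.2 fun h =>
    u0 (h.le (O.mem_fix.2 u1))
  obtain rfl : i = j + 1 := by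
    rw [Nat.even_iff, Nat.even_iff] at f3
    omega
  refine ⟨k, x, ⟨fun v => by rw [Z_pow hX, h0], by rwa [Z_pow hX]⟩, j, a, b, k1, k2.symm,
    fun ⟨m, hm⟩ h => hx ?_, fun he h => hx ?_⟩
  · rw [hm, pow_add, k4 h]
  · obtain ⟨m, hm⟩ := Nat.not_even_iff_odd.1 he
    rw [hm, pow_succ', two_mul, pow_add, k5 h]

omit hQ in
theorem cyc_dim {x : V} (hT : LinearMap.range (cy g x) = ⊤)
    (h0 : ∀ v : V, ((X + 1) ^ 2 : F[X]) • v = 0) : finrank F V ≤ 4 := by
  have k : ∀ (v : V) (a : F[X]), a • v ∈ Submodule.span F {v, (X : F[X]) • v} := fun v a => by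
    have : ∃ c d : F, a • v = c • v + d • (X : F[X]) • v := by
      induction a using pind with
      | h1 a => exact ⟨a, 0, by rw [C_sm, zero_smul, add_zero]⟩
      | h2 p q hp hq =>
        obtain ⟨c, d, h⟩ := hp
        obtain ⟨c', d', h'⟩ := hq
        exact ⟨c + c', d + d', by rw [add_smul, h, h']; module⟩
      | h3 p hp =>
        obtain ⟨c, d, h⟩ := hp
        refine ⟨d, c, ?_⟩
        rw [mul_comm, mul_smul, h]
        simp only [← C_sm]
        linear_combination (norm := module) (C d : F[X]) • h0 v - (C d * X + C d : F[X]) • two_sm (F := F) v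
    obtain ⟨c, d, h⟩ := this
    exact Submodule.mem_span_pair.2 ⟨c, d, h.symm⟩
  have : (⊤ : Submodule F V) ≤ Submodule.span F {x, (X : F[X]) • x} ⊔
      Submodule.span F {g x, (X : F[X]) • g x} := fun v _ => by
    obtain ⟨⟨a, b⟩, rfl⟩ := LinearMap.range_eq_top.1 hT v
    exact Submodule.add_mem_sup (k x a) (k _ b)
  have h4 := (Submodule.finrank_mono this).trans (finrank_sup_le _ _)
  have := finrank_span_pair_le (F := F) x ((X : F[X]) • x)
  have := finrank_span_pair_le (F := F) (g x) ((X : F[X]) • g x)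
  rw [finrank_top] at h4
  omega

theorem ind_cyc (hi : ∀ U : Submodule F V, (∀ x ∈ U, g x ∈ U) → Nondeg Q U → U = ⊥ ∨ U = ⊤)
    {π : F[X]} (hπ : Prime π) {k : ℕ} (h0 : ∀ v : V, π ^ (k + 1) • v = 0) {s : F[X]}
    {x : V} (hx : polar Q ((s * π ^ k) • g x) x ≠ 0) : Ind g := by
  have top : ∀ {s : F[X]} {x : V}, polar Q ((s * π ^ k) • g x) x ≠ 0 →
      LinearMap.range (cy g x) = ⊤ := fun {s x} hx =>
    (hi _ (cy_inv hX x) (cyc_nondeg hX hπ h0 hx)).resolve_left fun h => hx (by
      rw [show x = 0 from h.le (self_mem_cy x)]; simp)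
  have hT := top hx
  by_cases hd : π ∣ X
  · obtain ⟨d, hd'⟩ := (hπ.irreducible.associated_of_dvd irreducible_X hd).symm.dvd
    obtain ⟨c, hc⟩ := hd
    have h1 : ∀ v : V, (X ^ (k + 1) : F[X]) • v = 0 := fun v => by
      rw [hc, mul_pow, mul_comm, mul_smul, h0, smul_zero]
    refine Or.inr (cyc_UT hX hQ hT h1 fun h => hx ?_)
    obtain ⟨p, c, e⟩ : ∃ p c, X * p + C c = s * d ^ k := ⟨_, _, X_mul_divX_add _⟩
    have : s * π ^ k = p * X ^ (k + 1) + C c * X ^ k := by
      rw [hd', mul_pow]; linear_combination -X ^ k * e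
    rw [this, add_smul, mul_smul, mul_smul, h1, smul_zero, zero_add, C_sm, polar_smul_left, h, smul_zero]
  obtain ⟨i, j, a, b, k1, k2, k3, k4, k5⟩ := cyc_P hX hQ hT
  obtain ⟨-, f1, f2, f3⟩ := k1.facts hQ
  have f4 := g.rk_add_finrank_fix
  have f5 : g.fix = ⊥ := eq_bot_iff.2 fun u hu => by
    have e1 : (X : F[X]) • u = 0 := by
      rw [hX, O.mem_fix.1 hu, O.mem_fix.1 (g.fix_inv ▸ hu), vadd_self (F := F)]
    obtain ⟨p, q, e⟩ := (hπ.irreducible.coprime_iff_not_dvd.2 hd).pow_left (m := k + 1)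
    rw [Submodule.mem_bot, ← one_smul F[X] u, ← e, add_smul, mul_smul, mul_smul, h0, e1, smul_zero,
      smul_zero, add_zero]
  rw [f5, finrank_bot] at f4
  obtain rfl : i = j := by omega
  have sp : ∀ c : F[X], (∀ r : F[X], polar Q ((c * (r * r)) • g x) x = 0) →
      (∀ r : F[X], polar Q ((c * (X * (r * r))) • g x) x = 0) → π ^ (k + 1) ∣ c := fun c c1 c2 =>
    cyc_dvd hX hπ h0 hx fun s => by rw [mul_comm, sq_span c1 c2]
  have n1 : ∀ c : F[X], ¬ π ∣ c → ¬ π ^ (k + 1) ∣ c := fun c h h' =>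
    h ((dvd_pow_self π k.succ_ne_zero).trans h')
  refine Or.inl ⟨⟨i, a, b, k1, by omega, fun ha hb => n1 1 hπ.not_dvd_one (sp 1
    (by simpa using k4 ha) (by simpa using k5 hb))⟩, fun h8 => ?_⟩
  by_cases hab : ¬ a ∧ ¬ b
  · exact ⟨i, i, a, b, k1, by omega, by omega, by omega, hab.1, hab.2⟩
  obtain ⟨p, p1, p2, p3⟩ : ∃ p : F[X], ¬ π ^ (k + 1) ∣ X * (p * p) ∧ ¬ π ∣ 1 + p * p ∧
      ¬ π ∣ 1 + p * p * X + p * p * (p * p) := by
    have two : (2 : F[X]) = 0 := CharTwo.two_eq_zero
    by_cases hk : 2 ≤ k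
    · refine ⟨π, fun h => hd ?_, fun h => hπ.not_dvd_one ?_, fun h => hπ.not_dvd_one ?_⟩
      · have : π * π * π ∣ π * π * X := by
          rw [mul_comm _ X, ← pow_three']
          exact (pow_dvd_pow π (by omega)).trans h
        exact (mul_dvd_mul_iff_left (mul_ne_zero hπ.ne_zero hπ.ne_zero)).1 this
      · exact (dvd_add_left (dvd_mul_right π π)).1 h
      · rw [add_assoc, ← mul_add, mul_assoc] at h
        exact (dvd_add_left (dvd_mul_right π _)).1 h
    have h1 : ¬ π ∣ X + 1 := fun h => by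
      obtain ⟨c, hc⟩ := h
      have := cyc_dim hX hT fun v => by
        obtain ⟨m, hm⟩ : ∃ m, 2 = m + (k + 1) := ⟨1 - k, by omega⟩
        rw [hc, mul_pow, mul_comm, mul_smul, hm, pow_add π, mul_smul, h0, smul_zero, smul_zero]
      omega
    by_cases h2 : π ∣ 1 + X * X * X + X * X * (X * X)
    · refine ⟨X + 1, n1 _ fun h => ?_, fun h => ?_, fun h => h1 ?_⟩
      · simp only [hπ.dvd_mul] at h
        tauto
      · have e : (1 + (X + 1) * (X + 1) : F[X]) = X * X := by linear_combination (X + 1) * two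
        rw [e, hπ.dvd_mul] at h
        tauto
      · have e : (X + 1 : F[X]) = (1 + X * X * X + X * X * (X * X)) +
          (1 + (X + 1) * (X + 1) * X + (X + 1) * (X + 1) * ((X + 1) * (X + 1))) := by
          linear_combination -(1 + 2 * X + 4 * X ^ 2 + 3 * X ^ 3 + X ^ 4) * two
        rw [e]
        exact dvd_add h2 h
    · refine ⟨X, n1 _ fun h => ?_, fun h => ?_, h2⟩
      · simp only [hπ.dvd_mul] at h
        tauto
      · have e : (1 + X * X : F[X]) = (X + 1) * (X + 1) := by linear_combination -X * two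
        rw [e, hπ.dvd_mul] at h
        tauto
  have p4 : ¬ π ^ (k + 1) ∣ (1 + p * p) * (1 + p * p) := n1 _ fun h => p2 (by simpa [hπ.dvd_mul] using h)
  have two : (2 : F[X]) = 0 := CharTwo.two_eq_zero
  have m1 : ∀ r : F[X], polar Q ((r * r) • g (x + (p * p) • g x)) (x + (p * p) • g x) =
      polar Q (((1 + p * p) * r * ((1 + p * p) * r)) • g x) x +
        polar Q ((X * (p * r * (p * r))) • g x) x := fun r => by
    rw [mu_change hX, ← polar_add_left, ← add_smul]
    congr 2
    linear_combination -(p * p * r * r) * two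
  have m2 : ∀ r : F[X], polar Q ((X * (r * r)) • g (x + (p * p) • g x)) (x + (p * p) • g x) =
      polar Q ((X * ((1 + p * p) * r * ((1 + p * p) * r))) • g x) x +
        polar Q ((X * p * r * (X * p * r)) • g x) x := fun r => by
    rw [mu_change hX, ← polar_add_left, ← add_smul]
    congr 2
    linear_combination -(X * p * p * r * r) * two
  have hT' : LinearMap.range (cy g (x + (p * p) • g x)) = ⊤ := by
    obtain ⟨u, w, e⟩ := hπ.irreducible.coprime_iff_not_dvd.2 p3
    refine top (s := s * w) ?_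
    have : s * w * π ^ k * (1 + p * p * X + p * p * (p * p)) = s * π ^ k - s * u * π ^ (k + 1) := by
      linear_combination s * π ^ k * e
    rwa [mu_change hX, this, sub_smul, mul_smul _ (π ^ (k + 1)), h0, smul_zero, sub_zero]
  rw [not_and_or, not_not, not_not] at hab
  obtain ⟨⟨r, hr⟩, r', hr'⟩ : (∃ r : F[X], polar Q ((r * r) • g (x + (p * p) • g x))
      (x + (p * p) • g x) ≠ 0) ∧ ∃ r : F[X], polar Q ((X * (r * r)) • g (x + (p * p) • g x))
        (x + (p * p) • g x) ≠ 0 := by
    rcases hab with ha | hb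
    · refine ⟨by_contra fun h => ?_, by_contra fun h => ?_⟩
      · push Not at h
        refine p1 ((sp (p * p) (fun r => ?_) fun r => ?_).mul_left _)
        · rw [← k4 ha (p * r)]; congr 2; ring
        · have := h r
          rw [m1, k4 ha, zero_add] at this
          rw [← this]; congr 2; ring
      · push Not at h
        refine p4 (sp _ (fun r => ?_) fun r => ?_)
        · rw [← k4 ha ((1 + p * p) * r)]; congr 2; ring
        · have := h r
          rw [m2, k4 ha, add_zero] at this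
          rw [← this]; congr 2; ring
    · refine ⟨by_contra fun h => ?_, by_contra fun h => ?_⟩
      · push Not at h
        refine p4 (sp _ (fun r => ?_) fun r => ?_)
        · have := h r
          rw [m1, k5 hb, add_zero] at this
          rw [← this]; congr 2; ring
        · rw [← k5 hb ((1 + p * p) * r)]; congr 2; ring
      · push Not at h
        refine p1 (sp _ (fun r => ?_) fun r => ?_)
        · rw [← k5 hb (p * r)]; congr 2; ring
        · have := h r
          rw [m2, k5 hb, zero_add] at this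
          rw [← this]; congr 2; ring
  exact cyc_nice hX hQ hT' hr hr'

end H99.Or
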