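import Cfsg.Agent.H99.Or3

/-! Orthogonal groups in characteristic two: pairs of involutions on indecomposable blocks. -/

set_option autoImplicit false

namespace H99.Or

open H56 H60 H93.FS QuadraticMap Module Polynomial

variable {F V : Type*} [Field F] [AddCommGroup V] [Module F V] {Q : QuadraticForm F V}

theorem N_apply (g : O Q) (v : V) : (g.lin + 1) v = g v + v := rfl

theorem N_comm (g : O Q) (j : ℕ) (v : V) : g (((g.lin + 1) ^ j) v) = ((g.lin + 1) ^ j) (g v) := by
  induction j with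
  | zero => rfl
  | succ j ih => rw [pow_succ', Module.End.mul_apply, Module.End.mul_apply, N_apply, N_apply, map_add, ih]

theorem N_adj (g : O Q) (u v : V) : polar Q (g u) ((g.lin + 1) v) = polar Q ((g.lin + 1) u) v := by
  rw [N_apply, N_apply, polar_add_right, polar_add_left, O.map_polar, add_comm]

theorem adjN {g : O Q} {n : ℕ} (hn : ∀ v, ((g.lin + 1) ^ (n + 1)) v = 0) (k : ℕ) :
    ∀ (j : ℕ) (a b : V), n + 1 ≤ j + k → polar Q (((g.lin + 1) ^ j) a) (((g.lin + 1) ^ k) b) = 0 := by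
  induction k with
  | zero =>
    intro j a b h
    obtain ⟨m, rfl⟩ : ∃ m, j = m + (n + 1) := ⟨j - (n + 1), by omega⟩
    rw [pow_add, Module.End.mul_apply, hn, map_zero, polar_zero_left]
  | succ k ih =>
    intro j a b h
    obtain ⟨a, rfl⟩ := g.surjective a
    rw [← N_comm, pow_succ' _ k, Module.End.mul_apply, N_adj, ← Module.End.mul_apply, ← pow_succ']
    exact ih _ _ _ (by omega)

theorem na_pow {g s : O Q} (h2 : s * g * s⁻¹ = g⁻¹) (i : ℕ) (w : V) :
    s ((g ^ i) w) = (g ^ i)⁻¹ (s w) := by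
  have : s * g ^ i = (g ^ i)⁻¹ * s := by rw [← inv_pow, ← h2, conj_pow, inv_mul_cancel_right]
  rw [← O.mul_apply, this, O.mul_apply]

theorem na_even {g s : O Q} (h2 : s * g * s⁻¹ = g⁻¹) (h : Alt s) (i : ℕ) (w : V) :
    polar Q ((g ^ (2 * i)) w) (s w) = 0 := by
  have := h ((g ^ i) w)
  rwa [na_pow h2, O.polar_apply_right, inv_inv, ← O.mul_apply, ← pow_add, ← two_mul] at this

theorem na_odd {g s : O Q} (h2 : s * g * s⁻¹ = g⁻¹) (h : Alt (s * g)) (i : ℕ) (w : V) :
    polar Q ((g ^ (2 * i + 1)) w) (s w) = 0 := by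
  have := h ((g ^ i) w)
  rwa [O.mul_apply, ← O.mul_apply g, ← pow_succ', na_pow h2, O.polar_apply_right, inv_inv,
    ← O.mul_apply, ← pow_add, show i + 1 + i = 2 * i + 1 by ring] at this

theorem na_N {g : O Q} {w u : V} (h : ∀ i : ℕ, polar Q ((g ^ i) w) u = 0) (m : ℕ) :
    ∀ i : ℕ, polar Q ((g ^ i) (((g.lin + 1) ^ m) w)) u = 0 := by
  induction m with
  | zero => exact h
  | succ m ih =>
    intro i
    rw [pow_succ' _ m, Module.End.mul_apply, N_apply, map_add, polar_add_left, ← O.mul_apply,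
      ← pow_succ, ih, ih, add_zero]

theorem rk_swap [CharP F 2] [FiniteDimensional F V] {h : O Q} (h1 : h * h = 1) {A B : Submodule F V}
    (hs : A ⊔ B = ⊤) (hd : ∀ u ∈ A, ∀ v ∈ B, u + v = 0 → v = 0) (hA : ∀ u ∈ A, h u ∈ B)
    (hB : ∀ v ∈ B, h v ∈ A) : 2 * h.rk = finrank F V := rk_max h1 fun w hw => by
  obtain ⟨u, hu, v, hv, rfl⟩ := Submodule.mem_sup.1 (hs.ge (Submodule.mem_top (x := w)))
  have := hd _ (A.sub_mem (hB v hv) hu) _ (B.sub_mem (hA u hu) hv) (by
    rw [map_add] at hw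
    linear_combination (norm := abel) hw)
  exact ⟨u, by linear_combination (norm := module) this - vadd_self (F := F) u⟩

variable [CharP F 2] [Module F[X] V] [IsScalarTower F F[X] V] {g : O Q}
  (hX : ∀ v, (X : F[X]) • v = g v + g⁻¹ v) [FiniteDimensional F V]
  (hQ : Q.polarBilin.Nondegenerate)
  (hi : ∀ U : Submodule F V, (∀ x ∈ U, g x ∈ U) → Nondeg Q U → U = ⊥ ∨ U = ⊤)
include hX hQ hi

theorem dbl_pair {n : ℕ} (hn : ∀ v, ((g.lin + 1) ^ (n + 1)) v = 0)
    (hB : ∀ v, polar Q (((g.lin + 1) ^ n) v) v = 0) {x y : V} (h1 : Q x = Q y)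
    (h2 : ∀ p : F[X], polar Q (p • g x) x = polar Q (p • g y) y)
    (hxy : polar Q (((g.lin + 1) ^ n) x) y ≠ 0) :
    LinearMap.range (cy g x) ⊔ LinearMap.range (cy g y) = ⊤ ∧
    ∃ s : O Q, s * s = 1 ∧ s * g * s⁻¹ = g⁻¹ ∧ s x = g y ∧ s (g x) = y ∧
      2 * s.rk = finrank F V ∧ 2 * (s * g).rk = finrank F V := by
  have hf := @free _ _ _ _ _ _ _ _ _ _ hX _ _ hn x y hB hxy
  have hT := (hi (LinearMap.range (cy g x) ⊔ LinearMap.range (cy g y)) (fun w hw => by
    obtain ⟨a, ha, b, hb, rfl⟩ := Submodule.mem_sup.1 hw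
    rw [map_add]
    exact Submodule.add_mem_sup (cy_inv hX x a ha) (cy_inv hX _ b hb)) fun w hw h => by
      obtain ⟨a, ha, b, hb, rfl⟩ := Submodule.mem_sup.1 hw
      obtain ⟨rfl, rfl⟩ := hf ha hb h
      exact add_zero _).resolve_left fun h => hxy (by
        rw [show x = 0 from h.le (Submodule.mem_sup_left (self_mem_cy x))]; simp)
  obtain ⟨h, a1, a2, a3⟩ := core hX hQ h1 h2 hT
  have hd : ∀ u ∈ LinearMap.range (cy g x), ∀ v ∈ LinearMap.range (cy g y), u + v = 0 → v = 0 :=
    fun u hu v hv e => (hf hu hv (e ▸ Submodule.zero_mem _)).2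
  have b1 : ∀ u ∈ LinearMap.range (cy g x), h u ∈ LinearMap.range (cy g y) := by
    rintro _ ⟨⟨a, b⟩, rfl⟩
    exact ⟨(b, a), by simpa [cy_apply] using (a3 a b 0 0).symm⟩
  have b2 : ∀ u ∈ LinearMap.range (cy g y), h u ∈ LinearMap.range (cy g x) := by
    rintro _ ⟨⟨a, b⟩, rfl⟩
    exact ⟨(b, a), by simpa [cy_apply] using (a3 0 0 a b).symm⟩
  obtain ⟨_, t, -, t2, -⟩ := P.mk' a1 a2
  refine ⟨hT, h, a1, a2, by simpa using a3 1 0 0 0, by simpa using a3 0 1 0 0,
    rk_swap a1 hT hd b1 b2, rk_swap ?_ hT hd (fun u hu => b1 _ (cy_inv hX x u hu))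
      fun u hu => b2 _ (cy_inv hX y u hu)⟩
  rw [inv_eq_of_mul_eq_one_right a1] at a2
  rw [← mul_assoc, a2, inv_mul_cancel]

theorem ind_dbl {n : ℕ} (hn : ∀ v, ((g.lin + 1) ^ (n + 1)) v = 0)
    (hB : ∀ v, polar Q (((g.lin + 1) ^ n) v) v = 0) {x y : V} (h1 : Q x = Q y)
    (h2 : ∀ p : F[X], polar Q (p • g x) x = polar Q (p • g y) y)
    (hxy : polar Q (((g.lin + 1) ^ n) x) y ≠ 0) : Ind g := by
  have two : (2 : F) = 0 := CharTwo.two_eq_zero
  obtain ⟨hT, s, s1, s2, s3, s4, s5, s6⟩ := dbl_pair hX hQ hi hn hB h1 h2 hxy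
  have hfix : ∀ v, g (((g.lin + 1) ^ n) v) = ((g.lin + 1) ^ n) v := fun v => by
    have := hn v
    rw [pow_succ', Module.End.mul_apply, N_apply] at this
    linear_combination (norm := module) this - vadd_self (F := F) (((g.lin + 1) ^ n) v)
  have k := P.mk' s1 s2
  have hr : (s * g).rk = s.rk := by omega
  refine Or.inl ⟨⟨s.rk, _, _, hr ▸ k, by omega, fun ha hb => hxy ?_⟩, fun h8 => ?_⟩
  · have := na_N (g := g) (w := x) (u := s x) (fun i => by
      obtain ⟨m, rfl | rfl⟩ := Nat.even_or_odd' i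
      exacts [na_even s2 ha m x, na_odd s2 hb m x]) n 0
    rwa [pow_zero, O.one_apply, s3, ← hfix, O.map_polar] at this
  have dec : ∀ v, ∃ c d : F, ∃ w, v = c • x + d • y + (g.lin + 1) w := fun v => by
    obtain ⟨a, ha, b, hb, rfl⟩ := Submodule.mem_sup.1 (hT.ge (Submodule.mem_top (x := v)))
    obtain ⟨c, a, -, rfl⟩ := cy_dec hX ha
    obtain ⟨d, b, -, rfl⟩ := cy_dec hX hb
    exact ⟨c, d, a + b, by rw [map_add]; abel⟩
  have dim : ∀ j, finrank F V ≤ finrank F (LinearMap.range ((g.lin + 1) ^ j)) + 2 * j := fun j => by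
    induction j with
    | zero => rw [pow_zero, Module.End.one_eq_id, LinearMap.range_id, finrank_top]; rfl
    | succ j ih =>
      have : LinearMap.range ((g.lin + 1) ^ j) ≤ LinearMap.range ((g.lin + 1) ^ (j + 1)) ⊔
          Submodule.span F {((g.lin + 1) ^ j) x, ((g.lin + 1) ^ j) y} := by
        rintro _ ⟨v, rfl⟩
        obtain ⟨c, d, w, rfl⟩ := dec v
        rw [map_add, add_comm (((g.lin + 1) ^ j) _)]
        exact Submodule.add_mem_sup ⟨w, by rw [pow_succ]; rfl⟩
          (Submodule.mem_span_pair.2 ⟨c, d, by simp⟩)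
      have h4 := (Submodule.finrank_mono this).trans (finrank_sup_le _ _)
      have := finrank_span_pair_le (F := F) (((g.lin + 1) ^ j) x) (((g.lin + 1) ^ j) y)
      omega
  obtain ⟨m, rfl⟩ : ∃ m, n = m + 3 := ⟨n - 3, by
    have := dim (n + 1)
    rw [show (g.lin + 1) ^ (n + 1) = 0 from LinearMap.ext hn, LinearMap.range_zero, finrank_bot] at this
    omega⟩
  set e := ((g.lin + 1) ^ (m + 3)) y with he
  have ge : g e = e := hfix y
  have e1 : ∀ u ∈ LinearMap.range (cy g y), polar Q u e = 0 := fun u hu => by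
    obtain ⟨c, w, -, rfl⟩ := cy_dec hX hu
    have := adjN hn (m + 3) 1 w y (by omega)
    rw [pow_one] at this
    rw [polar_add_left, this, polar_smul_left, polar_comm, hB, smul_zero, add_zero]
  have e2 : Q e = 0 := by
    rw [he, pow_succ', Module.End.mul_apply, N_apply, Q_add, O.map_Q, N_comm, adjN hn _ _ _ _ (by omega)]
    linear_combination Q (((g.lin + 1) ^ (m + 2)) y) * two
  have e3 : polar Q x e ≠ 0 := fun h => hxy (by
    have := hB (x + y)
    simp only [map_add, polar_add_left, polar_add_right, hB, zero_add, add_zero] at this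
    rwa [← he, pc h, zero_add] at this)
  obtain ⟨-, r, r1, r2, r3, r4, r5, r6⟩ := dbl_pair hX hQ hi hn hB (x := x) (y := y + e)
    (by rw [Q_add, e2, e1 y (self_mem_cy y), h1]; ring) (fun p => by
      have f1 := e1 _ (mem_cy (g := g) y 0 p)
      have f2 := e1 _ (mem_cy (g := g) y p 0)
      simp only [zero_smul, zero_add, add_zero] at f1 f2
      rw [map_add, ge, smul_add, polar_add_left, polar_add_right, polar_add_right, f1, s_alt hX,
        s_adj hX p e, pc f2, h2]
      ring) (by rwa [polar_add_right, he, adjN hn _ _ _ _ (by omega), add_zero])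
  have k' := P.mk' r1 r2
  rw [map_add, ge] at r3
  have c1 : s ((g.lin + 1) x) = (g.lin + 1) y := by rw [N_apply, N_apply, map_add, s3, s4, add_comm]
  have c2 : r ((g.lin + 1) x) = (g.lin + 1) y := by
    rw [N_apply, N_apply, map_add, r3, r4]
    linear_combination (norm := module) vadd_self (F := F) e
  obtain ⟨i, hi'⟩ : ∃ i : ℕ, polar Q ((g ^ i) ((g.lin + 1) x)) ((g.lin + 1) y) ≠ 0 := by
    by_contra! hc
    have := na_N hc (m + 1) 1
    rw [pow_one, N_adj, ← Module.End.mul_apply, ← Module.End.mul_apply, ← pow_succ', ← pow_succ] at this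
    exact hxy this
  obtain ⟨j, rfl | rfl⟩ := Nat.even_or_odd' i
  · have d1 : ¬ Alt s := fun h => hi' (c1 ▸ na_even s2 h j _)
    have d2 : ¬ Alt r := fun h => hi' (c2 ▸ na_even r2 h j _)
    by_cases d3 : Alt (s * g)
    · refine ⟨_, _, _, _, k', by omega, by omega, by omega, d2, fun h => e3 ?_⟩
      have f1 := d3 x
      have f2 := h x
      rw [O.mul_apply, s4] at f1
      rwa [O.mul_apply, r4, polar_add_right, f1, zero_add] at f2
    · exact ⟨_, _, _, _, k, by omega, by omega, by omega, d1, d3⟩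
  · have d1 : ¬ Alt (s * g) := fun h => hi' (c1 ▸ na_odd s2 h j _)
    have d2 : ¬ Alt (r * g) := fun h => hi' (c2 ▸ na_odd r2 h j _)
    by_cases d3 : Alt s
    · refine ⟨_, _, _, _, k', by omega, by omega, by omega, fun h => e3 ?_, d2⟩
      have f1 := d3 x
      have f2 := h x
      rw [s3] at f1
      rwa [r3, polar_add_right, f1, zero_add] at f2
    · exact ⟨_, _, _, _, k, by omega, by omega, by omega, d3, d1⟩

theorem ind_two {n : ℕ} (hn : ∀ v, ((g.lin + 1) ^ (n + 1)) v = 0)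
    (hB : ∀ v, polar Q (((g.lin + 1) ^ n) v) v = 0) {x z : V} (h1 : polar Q x z = Q z)
    (h2 : ∀ p : F[X], polar Q x ((X * p) • z) = polar Q (p • g z) z)
    (h3 : polar Q x (((g.lin + 1) ^ n) z) ≠ 0) : Ind g := by
  have hxy : polar Q (((g.lin + 1) ^ n) x) (x + z) ≠ 0 := by
    have := hB (x + z)
    rw [map_add, polar_add_left, polar_add_right _ (((g.lin + 1) ^ n) z), hB z, add_zero,
      polar_comm _ (((g.lin + 1) ^ n) z)] at this
    rwa [CharTwo.add_eq_zero.1 this]
  exact ind_dbl hX hQ hi hn hB (by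
    rw [Q_add, h1, add_assoc, CharTwo.add_self_eq_zero, add_zero]) (fun p => by
      have := h2 p
      rw [mul_smul, hX, polar_add_right, O.polar_apply_right g⁻¹, inv_inv, ← s_adj hX, s_comm hX,
        polar_comm] at this
      simp only [map_add, smul_add, polar_add_left, polar_add_right]
      linear_combination -this - polar Q (p • g z) z * CharTwo.two_eq_zero (R := F)) hxy

theorem ind_nil {k : ℕ} (h0 : ∀ v : V, (X ^ (k + 1) : F[X]) • v = 0)
    (h1 : ∃ v : V, (X ^ k : F[X]) • v ≠ 0) (h2 : ∀ (s : F[X]) v, polar Q ((s * X ^ k) • g v) v = 0) :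
    Ind g := by
  have hN : ∀ v, (g.lin + 1) v = g v + v := fun _ => rfl
  have hz : ∀ z : V, (X ^ k : F[X]) • z ≠ 0 → ∀ p : F[X], p • z = 0 → X ^ (k + 1) ∣ p := fun z hz p hp =>
    pow_dvd_of_mem prime_X (I := LinearMap.ker (LinearMap.toSpanSingleton F[X] V z)) (h0 z) hz hp
  have hs : ∀ (p : F[X]) v, (g.lin + 1) (p • v) = p • (g.lin + 1) v := fun p v => by
    rw [hN, hN, s_comm hX, smul_add]
  have hNN : ∀ v, (g.lin + 1) ((g.lin + 1) v) = (X : F[X]) • g v := fun v => by
    rw [hN, hN, map_add, g_g hX]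
    linear_combination (norm := module) two_sm (F := F) v + two_sm (F := F) (g v)
  have hj : ∀ j v, ((g.lin + 1) ^ (2 * j)) v = (g ^ j) ((X ^ j : F[X]) • v) := fun j => by
    induction j with
    | zero => simp
    | succ j ih => intro v; rw [mul_add, pow_add, Module.End.mul_apply, mul_one, pow_two,
        Module.End.mul_apply, hNN, ih, pow_succ g, O.mul_apply, s_comm hX, ← mul_smul, pow_succ]
  have hf : ∀ w, (g.lin + 1) w = 0 → (g ^ k) w = w := fun w hw =>
    pow_mem (show g ∈ MulAction.stabilizer (O Q) w from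
      (eq_neg_of_add_eq_zero_left hw).trans (neg_eq_of_add_eq_zero_left (vadd_self (F := F) w))) k
  by_cases he : ∀ v, (g.lin + 1) ((X ^ k : F[X]) • v) = 0
  · have hT : ∀ v, ((g.lin + 1) ^ (2 * k)) v = (X ^ k : F[X]) • v := fun v => by rw [hj, hf _ (he v)]
    obtain ⟨q, hq, hq'⟩ : ∃ q : V → F, (∀ u v, q (u + v) = q u + q v + polar Q ((X ^ k : F[X]) • u) v) ∧
        ∀ x z, polar Q x z = Q z → (∀ p : F[X], polar Q x ((X * p) • z) = polar Q (p • g z) z) →
          polar Q x ((X ^ k : F[X]) • z) = q z := by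
      rcases k with _ | k
      · exact ⟨Q, fun u v => by simp [Q_add], fun x z h _ => by simpa using h⟩
      · refine ⟨fun v => polar Q ((X ^ k : F[X]) • g v) v, fun u v => ?_, fun x z _ h => by
          rw [pow_succ', h]⟩
        simp only [map_add, smul_add, polar_add_left, polar_add_right, pow_succ, mul_smul, hX]
        rw [s_adj hX _ (g⁻¹ u), O.polar_apply_left g⁻¹, inv_inv, s_comm hX, polar_comm Q u]
        ring
    obtain ⟨u, hu⟩ := h1
    obtain ⟨v, hv⟩ := exists_polar_ne_zero hQ hu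
    obtain ⟨z, a1, a2⟩ : ∃ z, (X ^ k : F[X]) • z ≠ 0 ∧ q z ≠ 0 := by
      by_contra! h
      have := hq u v
      rw [h u hu, h v fun e => hv (by rw [s_adj hX, e, polar_zero_right]), h (u + v) fun e => hv (by
        simpa [s_alt hX] using congrArg (polar Q · v) e)] at this
      exact hv (by simpa using this.symm)
    obtain ⟨x, b1, b2, -⟩ := exists_x hQ h2 z 0 0 fun p c h => ⟨hz z a1 p (by simpa using h), mul_zero c⟩
    exact ind_two hX hQ hi (n := 2 * k) (fun v => by rw [pow_succ', Module.End.mul_apply, hT, he])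
      (fun v => by rw [hT, s_alt hX]) b1 b2 (by rwa [hT, hq' x z b1 b2])
  · obtain ⟨z, a1⟩ := not_forall.1 he
    have a2 : ∀ v, (g.lin + 1) ((g.lin + 1) ((X ^ k : F[X]) • v)) = 0 := fun v => by
      rw [hNN, s_comm hX, ← mul_smul, ← pow_succ', h0]
    have hT : ∀ v, ((g.lin + 1) ^ (2 * k + 1)) v = (g.lin + 1) ((X ^ k : F[X]) • v) := fun v => by
      rw [pow_succ, Module.End.mul_apply, hj, ← hs, hf _ (a2 v)]
    obtain ⟨x, b1, b2, b3⟩ := exists_x hQ h2 z ((g.lin + 1) ((X ^ k : F[X]) • z)) 1 fun p c h => by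
      obtain ⟨q, rfl⟩ := hz ((g.lin + 1) z) (by rwa [← hs]) p (by
        simpa only [map_add, map_smul, a2, smul_zero, add_zero, map_zero, hs p] using
          congrArg (fun w => (g.lin + 1) w) h)
      rw [mul_comm, mul_smul, h0, smul_zero, zero_add, smul_eq_zero] at h
      exact ⟨dvd_mul_right _ _, by simp [h.resolve_right a1]⟩
    refine ind_two hX hQ hi (n := 2 * k + 1) (fun v => by rw [pow_succ', Module.End.mul_apply, hT, a2])
      (fun v => ?_) b1 b2 (by rw [hT, b3]; exact one_ne_zero)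
    rw [hT, hN, polar_add_left, s_alt hX, s_comm hX, ← one_mul (X ^ k), h2, add_zero]

theorem ind_ind [Nontrivial V] (hp : ∃ p : F[X], p ≠ 0 ∧ ∀ v : V, p • v = 0) : Ind g := by
  obtain ⟨π, hπ, w, hw, h⟩ : ∃ π : F[X], Prime π ∧ ∃ w : V, w ≠ 0 ∧ π • w = 0 := by
    obtain ⟨p, h0, h⟩ := hp
    induction p using UniqueFactorizationMonoid.induction_on_prime with
    | h₁ => exact absurd rfl h0
    | h₂ p hu =>
      obtain ⟨v, hv⟩ := exists_ne (0 : V)
      exact absurd ((hu.smul_eq_zero).1 (h v)) hv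
    | h₃ a p ha hp ih =>
      by_contra! hc
      exact absurd (ih ha fun v => by_contra fun e => hc p hp _ e (by rw [← mul_smul, h])) (by
        push Not; exact hc)
  obtain ⟨n, hn1, hn⟩ := ((Filter.eventually_ge_atTop 1).and
    (LinearMap.eventually_isCompl_ker_pow_range_pow (Algebra.lsmul F F V π))).exists
  rw [← map_pow] at hn
  have h1 : ∃ n, ∀ v : V, π ^ n • v = 0 := ⟨n, fun v => ((hi (LinearMap.ker (Algebra.lsmul F F V (π ^ n)))
    (fun x (hx : π ^ n • x = 0) => show π ^ n • g x = 0 by rw [← s_comm hX, hx, map_zero])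
    fun x (hx : π ^ n • x = 0) hh => eq_zero_of_polar hQ fun y => by
      obtain ⟨a, ha, _, ⟨b, rfl⟩, rfl⟩ := Submodule.mem_sup.1 (hn.sup_eq_top.ge (Submodule.mem_top (x := y)))
      rw [polar_add_right, pc (hh a ha), zero_add]
      exact (s_adj hX _ _ _).symm.trans (by rw [hx, polar_zero_left])).resolve_left fun e => hw
        (e.le (show π ^ n • w = 0 by
          rw [← Nat.sub_add_cancel hn1, pow_succ, mul_smul, h, smul_zero]))).ge Submodule.mem_top⟩
  classical
  obtain ⟨k, hk⟩ : ∃ k, Nat.find h1 = k + 1 := Nat.exists_eq_succ_of_ne_zero fun e => hw (by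
    simpa [e] using Nat.find_spec h1 w)
  have h2 := hk ▸ Nat.find_spec h1
  have h3 := Nat.find_min h1 (m := k) (by omega)
  by_cases h4 : ∀ (s : F[X]) v, polar Q ((s * π ^ k) • g v) v = 0
  swap
  · push Not at h4
    obtain ⟨s, x, hx⟩ := h4
    exact ind_cyc hX hQ hi hπ h2 hx
  have h5 := pow_dvd_of_mem hπ (I := Module.annihilator F[X] V) (Module.mem_annihilator.2 h2)
    (Module.mem_annihilator.not.2 h3) (b := π ^ k * X) (Module.mem_annihilator.2 fun u =>
      eq_zero_of_polar hQ fun v => by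
        have := h4 1 (u + v)
        simp only [map_add, smul_add, polar_add_left, polar_add_right, h4] at this
        rw [mul_smul, hX, smul_add, polar_add_left, s_adj hX _ (g⁻¹ u), O.polar_apply_left g⁻¹, inv_inv,
          s_comm hX, polar_comm Q u]
        simpa [add_comm] using this)
  rw [pow_succ, mul_dvd_mul_iff_left (pow_ne_zero _ hπ.ne_zero)] at h5
  obtain ⟨c, hc⟩ := h5
  obtain ⟨d, hd⟩ := (hπ.irreducible.associated_of_dvd irreducible_X ⟨c, hc⟩).symm.dvd
  refine ind_nil hX hQ hi (k := k) (fun v => by rw [hc, mul_pow, mul_comm, mul_smul, h2, smul_zero])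
    (not_forall.1 fun e => h3 fun v => by rw [hd, mul_pow, mul_comm, mul_smul, e, smul_zero]) fun s v => ?_
  rw [hc, mul_pow, mul_comm (π ^ k), ← mul_assoc, h4]

end H99.Or
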