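import Cfsg.Agent.H99.Or2
import Cfsg.Agent.H99.Or4

/-! Every element of the commutator subgroup of an orthogonal group of dimension at least eight
over a finite field of characteristic two is a commutator in that subgroup. -/

set_option autoImplicit false

namespace H99.Or

open H56 H60 H93.FS QuadraticMap Module Polynomial

universe u

variable {F V : Type*} [Field F] [AddCommGroup V] [Module F V] {Q : QuadraticForm F V}

theorem Z_restr {U : Submodule F V} {g : O Q} {a : O (Q.restrict U)} (h : ∀ u : U, g u = a u)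
    (p : F[X]) (u : U) : aeval (Z g) p (u : V) = (aeval (Z a) p u : U) := by
  have h1 : ∀ u : U, Z g u = Z a u := fun u => by
    rw [Z_apply, Z_apply, h, Submodule.coe_add, (O.inv_apply_eq g).2 (by rw [h, O.apply_inv_apply])]
  induction p using pind generalizing u with
  | h1 c => simp
  | h2 p q hp hq => simp [hp, hq]
  | h3 p hp => rw [map_mul, map_mul, aeval_X, aeval_X, Module.End.mul_apply, Module.End.mul_apply,
      h1, hp]

theorem Z_restr_pow {U : Submodule F V} {g : O Q} {a : O (Q.restrict U)} (h : ∀ u : U, g u = a u)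
    (j : ℕ) (u : U) : (Z g ^ j) (u : V) = ((Z a ^ j) u : U) := by
  simpa using Z_restr h (X ^ j) u

variable [CharP F 2] [FiniteDimensional F V] (hQ : Q.polarBilin.Nondegenerate)

include hQ in
theorem cyc_nice' {g : O Q} {x : V}
    (hT : ∀ v, ∃ p q : F[X], v = aeval (Z g) p x + aeval (Z g) q (g x)) {i j : ℕ}
    (h1 : polar Q ((Z g ^ (2 * i)) (g x)) x ≠ 0) (h2 : polar Q ((Z g ^ (2 * j + 1)) (g x)) x ≠ 0) :
    Nice g := by
  let _ : Module F[X] V := Module.compHom V (aeval (R := F) (Z g)).toRingHom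
  have h : ∀ (p : F[X]) (v : V), p • v = aeval (Z g) p v := fun _ _ => rfl
  have : IsScalarTower F F[X] V := IsScalarTower.of_algebraMap_smul fun a v => by simp [h]
  have hX : ∀ v, (X : F[X]) • v = g v + g⁻¹ v := fun v => by simp [h, Z_apply]
  rw [Z_pow hX] at h1 h2
  refine cyc_nice hX hQ (x := x) (LinearMap.range_eq_top.2 fun v => ?_) (r := X ^ i) (r' := X ^ j)
    (by rwa [← pow_add, ← two_mul]) (by rwa [← pow_add, ← two_mul, ← pow_succ'])
  obtain ⟨p, q, rfl⟩ := hT v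
  exact ⟨(p, q), rfl⟩

omit [FiniteDimensional F V] in
theorem cyc_sub {g : O Q} {k : ℕ} {w : V} (hw : UB g k w) : ∃ W : Submodule F V, Nondeg Q W ∧
    (∀ x ∈ W, g x ∈ W) ∧ w ∈ W ∧
      ∀ v ∈ W, ∃ p q : F[X], v = aeval (Z g) p w + aeval (Z g) q (g w) := by
  let _ : Module F[X] V := Module.compHom V (aeval (R := F) (Z g)).toRingHom
  have h : ∀ (p : F[X]) (v : V), p • v = aeval (Z g) p v := fun _ _ => rfl
  have : IsScalarTower F F[X] V := IsScalarTower.of_algebraMap_smul fun a v => by simp [h]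
  have hX : ∀ v, (X : F[X]) • v = g v + g⁻¹ v := fun v => by simp [h, Z_apply]
  refine ⟨_, cyc_nondeg hX prime_X (k := k) (s := 1) (x := w) (fun v => by rw [← Z_pow hX, hw.1])
    (by rw [one_mul, ← Z_pow hX]; exact hw.2), cy_inv hX w, self_mem_cy w, ?_⟩
  rintro _ ⟨⟨p, q⟩, rfl⟩
  exact ⟨p, q, rfl⟩

include hQ in
theorem mix0 {g : O Q} (ih : ∀ W : Submodule F V, Nondeg Q W → W ≠ ⊥ →
      ∀ b : O (Q.restrict (perp Q W)), OK b) {k l : ℕ} {w : V} (hw : UB g k w)
    (hl : polar Q ((Z g ^ l) (g w)) w ≠ 0) (hp : ¬ (Even k ↔ Even l)) : Nice g := by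
  obtain ⟨W, h1, h2, h3, h4⟩ := cyc_sub hw
  rw [← sO_rO hQ h1 h2]
  refine nice_sum hQ h1 (Or.inl ⟨?_, ih W h1 (fun h => hw.2 ?_) _⟩)
  swap
  · rw [show w = 0 from h.le h3, polar_zero_right]
  have e : ∀ u : W, g u = rO g h2 u := fun _ => rfl
  have t : ∀ m, polar (Q.restrict W) ((Z (rO g h2) ^ m) (rO g h2 ⟨w, h3⟩)) ⟨w, h3⟩ =
      polar Q ((Z g ^ m) (g w)) w := fun m => by
    rw [H58.polar_restrict, ← Z_restr_pow e]; rfl
  have hT : ∀ v : W, ∃ p q : F[X], v = aeval (Z (rO g h2)) p ⟨w, h3⟩ +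
      aeval (Z (rO g h2)) q (rO g h2 ⟨w, h3⟩) := fun v => by
    obtain ⟨p, q, h⟩ := h4 v v.2
    exact ⟨p, q, Subtype.ext (by rw [Submodule.coe_add, ← Z_restr e, ← Z_restr e, h]; rfl)⟩
  obtain ⟨i, rfl | rfl⟩ := Nat.even_or_odd' k <;> obtain ⟨j, rfl | rfl⟩ := Nat.even_or_odd' l
  · simp at hp
  · exact cyc_nice' h1.restrict hT (i := i) (j := j) (t _ ▸ hw.2) (t _ ▸ hl)
  · exact cyc_nice' h1.restrict hT (i := j) (j := i) (t _ ▸ hl) (t _ ▸ hw.2)
  · simp [Nat.even_add_one] at hp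

include hQ in
theorem mix1 {g : O Q} (ih : ∀ W : Submodule F V, Nondeg Q W → W ≠ ⊥ →
      ∀ b : O (Q.restrict (perp Q W)), OK b) {k l : ℕ} {x y : V} (hx : UB g k x)
    (hy : polar Q ((Z g ^ l) (g y)) y ≠ 0) (hy' : (Z g ^ k) (g y) = 0)
    (hxy : ∀ m, polar Q ((Z g ^ m) (g (x + y))) (x + y) =
      polar Q ((Z g ^ m) (g x)) x + polar Q ((Z g ^ m) (g y)) y)
    (hp : ¬ (Even k ↔ Even l)) : Nice g := by
  by_cases h : polar Q ((Z g ^ l) (g x)) x = 0
  · exact mix0 hQ ih (w := x + y) ⟨hx.1, by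
      rw [hxy, hy', polar_zero_left, add_zero]; exact hx.2⟩ (by rwa [hxy, h, zero_add]) hp
  · exact mix0 hQ ih hx h hp

theorem mix {U : Submodule F V} (hU : Nondeg Q U) (ih : ∀ W : Submodule F V, Nondeg Q W → W ≠ ⊥ →
      ∀ b : O (Q.restrict (perp Q W)), OK b) {a : O (Q.restrict U)} {b : O (Q.restrict (perp Q U))}
    (ha : UT a) (hb : UT b) : Nice (sO hQ hU (a, b)) := by
  obtain ⟨k, x, hx, i, p, q, a1, a2, a3, a4⟩ := ha
  obtain ⟨l, y, hy, j, p', q', b1, b2, b3, b4⟩ := hb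
  have hd := finrank_perp hQ U
  by_cases hp : (Even k ↔ Even l)
  · exact ⟨_, _, _, _, a1.sum hQ hU b1.swap, by omega, by omega, by omega, by tauto, by tauto⟩
  set g := sO hQ hU (a, b) with hg
  have ea : ∀ u : U, g u = a u := sO_left hQ hU _
  have eb : ∀ u : perp Q U, g u = b u := sO_right hQ hU _
  have ta : ∀ m, polar Q ((Z g ^ m) (g x)) x = polar (Q.restrict U) ((Z a ^ m) (a x)) x := fun m => by
    rw [H58.polar_restrict, ea, Z_restr_pow ea]
  have tb : ∀ m, polar Q ((Z g ^ m) (g y)) y = polar (Q.restrict _) ((Z b ^ m) (b y)) y := fun m => by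
    rw [H58.polar_restrict, eb, Z_restr_pow eb]
  have za : ∀ m, k < m → ∀ u : U, (Z g ^ m) u = 0 := fun m h u => by
    obtain ⟨c, rfl⟩ := Nat.exists_eq_add_of_lt h
    rw [Z_restr_pow ea, add_right_comm, add_comm, pow_add, Module.End.mul_apply, hx.1, map_zero]; rfl
  have zb : ∀ m, l < m → ∀ u : perp Q U, (Z g ^ m) u = 0 := fun m h u => by
    obtain ⟨c, rfl⟩ := Nat.exists_eq_add_of_lt h
    rw [Z_restr_pow eb, add_right_comm, add_comm, pow_add, Module.End.mul_apply, hy.1, map_zero]; rfl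
  have z : ∀ m, k < m → l < m → ∀ v, (Z g ^ m) v = 0 := fun m h h' v => by
    obtain ⟨u, hu, w, hw, rfl⟩ := hU.exists_decomp hQ v
    rw [map_add, za m h ⟨u, hu⟩, zb m h' ⟨w, hw⟩, add_zero]
  have hxy : ∀ m, polar Q ((Z g ^ m) (g (x + y))) (x + y) =
      polar Q ((Z g ^ m) (g x)) x + polar Q ((Z g ^ m) (g y)) y := fun m => by
    rw [map_add, map_add, polar_add_left, polar_add_right, polar_add_right, ea, eb, Z_restr_pow ea,
      Z_restr_pow eb, mem_perp.1 y.2 _ ((Z a ^ m) (a x)).2, mem_perp'.1 ((Z b ^ m) (b y)).2 _ x.2]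
    ring
  rcases lt_trichotomy k l with h | rfl | h
  · exact mix1 hQ ih (x := y) (y := x) (k := l) (l := k) ⟨z _ (by omega) (by omega), tb l ▸ hy.2⟩
      (ta k ▸ hx.2) (by rw [ea, za l h]) (fun m => by rw [add_comm (y : V), hxy, add_comm])
      (by tauto)
  · exact (hp Iff.rfl).elim
  · exact mix1 hQ ih (x := x) (y := y) (k := k) (l := l) ⟨z _ (by omega) (by omega), ta k ▸ hx.2⟩
      (tb l ▸ hy.2) (by rw [eb, zb k h]) hxy hp

omit [FiniteDimensional F V] [CharP F 2] in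
theorem Ind.ok {g : O Q} (h : Ind g) : OK g := h.elim (fun h => h.1.ok) UT.ok

omit [CharP F 2] in
theorem ok_zero (h : finrank F V = 0) (g : O Q) : OK g := by
  have := finrank_zero_iff.1 h
  have e : ∀ s : O Q, s = 1 := fun s => O.ext fun _ => Subsingleton.elim _ _
  exact ⟨0, 0, _, _, ⟨1, 1, e _, e _, (e _).trans (e _).symm, O.rk_one, O.rk_one, Iff.rfl, Iff.rfl⟩,
    by omega, by omega, by omega, fun _ _ => h⟩

omit [AddCommGroup V] [Module F V] [FiniteDimensional F V] in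
theorem all_T (n : ℕ) : ∀ (V : Type u) [AddCommGroup V] [Module F V] [FiniteDimensional F V]
    (Q : QuadraticForm F V), Q.polarBilin.Nondegenerate → finrank F V = n → n ≠ 0 →
      ∀ g : O Q, Nice g ∨ Ind g := by
  induction n using Nat.strong_induction_on with
  | _ n ih =>
  intro V _ _ _ Q hQ hn h0 g
  by_cases hi : ∀ U : Submodule F V, (∀ x ∈ U, g x ∈ U) → Nondeg Q U → U = ⊥ ∨ U = ⊤
  · let _ : Module F[X] V := Module.compHom V (aeval (R := F) (g.lin + g⁻¹.lin)).toRingHom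
    have h : ∀ (p : F[X]) (v : V), p • v = aeval (g.lin + g⁻¹.lin) p v := fun _ _ => rfl
    have : IsScalarTower F F[X] V := IsScalarTower.of_algebraMap_smul fun a v => by simp [h]
    have : Nontrivial V := Module.nontrivial_of_finrank_pos (R := F) (by omega)
    exact Or.inr (ind_ind (fun v => by simp [h]) hQ hi ⟨_, (LinearMap.charpoly_monic _).ne_zero,
      fun v => by rw [h, LinearMap.aeval_self_charpoly]; rfl⟩)
  push Not at hi
  obtain ⟨U, h1, hU, h2, h3⟩ := hi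
  obtain ⟨⟨a, b⟩, rfl⟩ : ∃ p, sO hQ hU p = g := ⟨_, sO_rO hQ hU h1⟩
  have d1 := finrank_perp hQ U
  have d2 := Submodule.one_le_finrank_iff.2 h2
  have d3 := Submodule.finrank_lt h3
  have ha := ih _ (hn ▸ d3) U _ hU.restrict rfl (by omega) a
  have hb := ih _ (by omega) _ _ (hU.perp hQ).restrict rfl (by omega) b
  have oa : OK a := ha.elim Nice.ok Ind.ok
  have ob : OK b := hb.elim Nice.ok Ind.ok
  left
  rcases ha with ha | ha | ha
  · exact nice_sum hQ hU (Or.inl ⟨ha, ob⟩)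
  · exact nice_sum hQ hU (Or.inr (Or.inr (Or.inl ⟨ha.1, ob, by omega⟩)))
  rcases hb with hb | hb | hb
  · exact nice_sum hQ hU (Or.inr (Or.inl ⟨oa, hb⟩))
  · exact nice_sum hQ hU (Or.inr (Or.inr (Or.inr ⟨oa, hb.1, by omega⟩)))
  refine mix hQ hU (fun W hW w0 c => ?_) ha hb
  by_cases e : finrank F (perp Q W) = 0
  · exact ok_zero e c
  have := finrank_perp hQ W
  have := Submodule.one_le_finrank_iff.2 w0
  exact (ih _ (by omega) _ _ (hW.perp hQ).restrict rfl e c).elim Nice.ok Ind.ok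

include hQ in
theorem nice_of_even (h8 : 8 ≤ finrank F V) {g : O Q} (hg : Even g.rk) : Nice g := by
  rcases all_T _ V Q hQ rfl (by omega) g with h | h | ⟨-, -, -, j, a, b, h, -⟩
  · exact h
  · exact h.2 h8
  · have := (h.facts hQ).2.2.2.1 hg
    rw [Nat.even_iff] at this
    omega

include hQ in
/-- Ore's statement for `Ω` in characteristic two. -/
theorem omega_comm [Finite F] (h8 : 8 ≤ finrank F V) {g : O Q} (hg : g ∈ commutator (O Q)) :
    ∃ a ∈ commutator (O Q), ∃ b ∈ commutator (O Q), g = a * b * a⁻¹ * b⁻¹ :=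
  comm_of_nice hQ h8 hg (nice_of_even hQ h8 ((mem_commutator_iff_of_char_two hQ CharTwo.two_eq_zero
    (not_isExc_of_finrank (by omega)) g).1 hg))

end H99.Or
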