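import Cfsg.Agent.H42.PnSpec

/-! PN tower (S3399), slot `SQ1`: the involutions of the quadruple system. -/

set_option autoImplicit false
set_option linter.unusedSectionVars false

namespace H99.PnSq1

open Equiv MulAction Pointwise H2.Ln H42.PN

variable {α : Type} [Fintype α] [DecidableEq α] {G K : Subgroup (Perm α)}

/-- Every block through `x, y, z` contains the fourth point `c`. -/
def Q (G K : Subgroup (Perm α)) (x y z c : α) : Prop :=
  [x, y, z, c].Nodup ∧ ∀ B ∈ bl G K, x ∈ B → y ∈ B → z ∈ B → c ∈ B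

theorem bl_sm {g : Perm α} (hg : g ∈ G) {B : Finset α} (h : B ∈ bl G K) : g • B ∈ bl G K := by
  obtain ⟨k, hk, rfl⟩ := mem_bl.1 h
  exact mem_bl.2 ⟨g * k, G.mul_mem hg hk, mul_smul ..⟩

theorem Q.sm {x y z c : α} (h : Q G K x y z c) {g : Perm α} (hg : g ∈ G) :
    Q G K (g x) (g y) (g z) (g c) := by
  refine ⟨by simpa using h.1, fun B hB h1 h2 h3 => ?_⟩
  have k : ∀ a, a ∈ g⁻¹ • B ↔ g a ∈ B := fun a => by rw [mem_sm, inv_inv]
  exact (k c).1 (h.2 _ (bl_sm (G.inv_mem hg) hB) ((k x).2 h1) ((k y).2 h2) ((k z).2 h3))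

theorem Q.s12 {x y z c : α} (h : Q G K x y z c) : Q G K y x z c :=
  ⟨by have := h.1; simp at this ⊢; grind, fun B hB h1 h2 h3 => h.2 B hB h2 h1 h3⟩

theorem Q.s23 {x y z c : α} (h : Q G K x y z c) : Q G K x z y c :=
  ⟨by have := h.1; simp at this ⊢; grind, fun B hB h1 h2 h3 => h.2 B hB h1 h3 h2⟩

theorem Q.trans {u v x y z : α} (h : Q G K u v x y) (h' : Q G K u v y z) (e : x ≠ z) :
    Q G K u v x z :=
  ⟨by have := h.1; have := h'.1; simp at *; grind,
    fun B hB h1 h2 h3 => h'.2 B hB h1 h2 (h.2 B hB h1 h2 h3)⟩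

/-- the blocks through three points -/
noncomputable def th (G K : Subgroup (Perm α)) (x y z : α) : Finset (Finset α) :=
  (bl G K).filter fun B => x ∈ B ∧ y ∈ B ∧ z ∈ B

theorem th_le {x y z : α} {g : Perm α} (hg : g ∈ G) :
    (th G K x y z).card ≤ (th G K (g x) (g y) (g z)).card :=
  Finset.card_le_card_of_injOn (fun B => g • B) (fun B hB => by
    simp only [th, Finset.coe_filter, Set.mem_setOf_eq, app_mem_sm] at hB ⊢
    exact ⟨bl_sm hg hB.1, hB.2⟩) fun _ _ _ _ e => smul_left_cancel g e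

theorem Q.s34 (t : T3 G Finset.univ) {x y z c : α} (h : Q G K x y z c) : Q G K x y c z := by
  have n := h.1
  refine ⟨by simp at n ⊢; grind, fun B hB h1 h2 h3 => ?_⟩
  obtain ⟨g, hg, e1, e2, e3⟩ := t x (by simp) y (by simp) c (by simp) x (by simp) y (by simp) z
    (by simp) (by simp at n ⊢; grind) (by simp at n ⊢; grind)
  have k := th_le (K := K) (x := x) (y := y) (z := c) hg
  rw [e1, e2, e3] at k
  have e : th G K x y z = th G K x y c := Finset.eq_of_subset_of_card_le (fun D hD => by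
    simp only [th, Finset.mem_filter] at hD ⊢
    exact ⟨hD.1, hD.2.1, hD.2.2.1, h.2 D hD.1 hD.2.1 hD.2.2.1 hD.2.2.2⟩) k
  have : B ∈ th G K x y z := e ▸ Finset.mem_filter.2 ⟨hB, h1, h2, h3⟩
  exact (Finset.mem_filter.1 this).2.2.2

theorem sides (c : Cx G K) (ex : ∀ x y z : α, [x, y, z].Nodup → ∃ w, Q G K x y z w) {u v x y : α}
    (h : Q G K u v x y) {B : Finset α} (hB : B ∈ bl G K) (hu : u ∈ B) (hv : v ∉ B) :
    ¬ (x ∈ B ↔ y ∈ B) := by
  have k1 : ∀ {x y}, Q G K u v x y → x ∈ B → y ∉ B := fun h hx hy =>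
    hv ((h.s23.s34 c.t3).2 B hB hu hx hy)
  intro e
  have hx : x ∉ B := fun hx => k1 h hx (e.1 hx)
  have hy : y ∉ B := fun hy => hx (e.2 hy)
  have uv : u ≠ v := fun e => hv (e ▸ hu)
  have k2 : ∀ a, ∃ w, a ∈ B.erase u → Q G K u v a w := fun a => by
    by_cases ha : a ∈ B.erase u
    · obtain ⟨w, hw⟩ := ex u v a (by
        have := Finset.mem_erase.1 ha
        simp; grind)
      exact ⟨w, fun _ => hw⟩
    · exact ⟨a, fun h => absurd h ha⟩
  choose τ hτ using k2
  have inj : ∀ {a b z}, a ∈ B → b ∈ B → Q G K u v a z → Q G K u v b z → a = b :=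
    fun ha hb h1 h2 => by_contra fun ne => k1 (h1.trans (h2.s34 c.t3) ne) ha hb
  have hc : B.card = (fp K).card := by
    obtain ⟨g, -, rfl⟩ := mem_bl.1 hB
    exact Finset.card_smul_finset ..
  have s := Finset.surjOn_of_injOn_of_card_le (s := B.erase u) (t := Bᶜ.erase v) τ
    (fun a ha => by
      have q := hτ a ha
      have n := q.1
      exact Finset.mem_coe.2 (Finset.mem_erase.2 ⟨by simp at n; grind,
        Finset.mem_compl.2 (k1 q (Finset.mem_of_mem_erase ha))⟩))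
    (fun a ha b hb e => inj (Finset.mem_of_mem_erase ha) (Finset.mem_of_mem_erase hb) (hτ a ha)
      (e ▸ hτ b hb))
    (by rw [Finset.card_erase_of_mem hu, Finset.card_erase_of_mem (Finset.mem_compl.2 hv),
          Finset.card_compl, c.half]; omega)
  have n := h.1
  obtain ⟨a, ha, e1⟩ := s (Finset.mem_coe.2 (Finset.mem_erase.2
    ⟨show x ≠ v by simp at n; grind, Finset.mem_compl.2 hx⟩))
  obtain ⟨b, hb, e2⟩ := s (Finset.mem_coe.2 (Finset.mem_erase.2
    ⟨show y ≠ v by simp at n; grind, Finset.mem_compl.2 hy⟩))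
  have a1 := Finset.mem_of_mem_erase ha
  have q1 : Q G K u v a x := e1 ▸ hτ a ha
  have := inj a1 (Finset.mem_of_mem_erase hb) (q1.trans h fun e => hy (e ▸ a1)) (e2 ▸ hτ b hb)
  rw [← e1, ← e2, this] at n
  simp at n

theorem jobSq1 : Sq1 := by
  intro α _ _ G K c a ha a' ha' b hb d nd ho u v uv
  have q0 : Q G K a a' b d := ⟨nd, fun B hB h1 h2 h3 => by
    obtain ⟨g, hg, rfl⟩ := mem_bl.1 hB
    obtain ⟨w, hw, k, e⟩ := c.pro.ex_fix c.le hg
    rw [← e, mem_sm]
    refine ho (mem_orb.2 ⟨w⁻¹, Subgroup.inv_mem _ (mem_fx.2 ⟨hw, fun x hx => ?_⟩), rfl⟩)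
    simp only [Finset.mem_insert, Finset.mem_singleton] at hx
    rcases hx with rfl | rfl | rfl
    exacts [k _ ha h1, k _ ha' h2, k _ hb h3]⟩
  have ex : ∀ x y z : α, [x, y, z].Nodup → ∃ w, Q G K x y z w := fun x y z n => by
    obtain ⟨g, hg, rfl, rfl, rfl⟩ := c.t3 a (by simp) a' (by simp) b (by simp) x (by simp) y
      (by simp) z (by simp) (by simp at nd ⊢; grind) n
    exact ⟨_, q0.sm hg⟩
  have h4 := c.four
  obtain ⟨s, hs⟩ : ((fp K)ᶜ).Nonempty := by
    rw [← Finset.card_pos, Finset.card_compl, c.half]; omega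
  rw [Finset.mem_compl] at hs
  obtain ⟨g, hg, e1, e2⟩ := c.t3.t2 (by rw [Finset.card_univ, c.half]; omega) a (by simp) s (by simp)
    u (by simp) v (by simp) (fun e => hs (e ▸ ha)) uv
  have hB : g • fp K ∈ bl G K := mem_bl.2 ⟨g, hg, rfl⟩
  have b1 : u ∈ g • fp K := e1 ▸ app_mem_sm.2 ha
  have b2 : v ∉ g • fp K := e2 ▸ fun h => hs (app_mem_sm.1 h)
  have k2 : ∀ x, ∃ w, x ∉ [u, v] → Q G K u v x w := fun x => by
    by_cases hx : x ∈ [u, v]
    · exact ⟨x, fun h => absurd hx h⟩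
    · obtain ⟨w, hw⟩ := ex u v x (by simp at hx ⊢; grind)
      exact ⟨w, fun _ => hw⟩
  choose σ hσ using k2
  refine ⟨σ, fun x hx => ?_⟩
  have q := hσ x hx
  have m : σ x ∉ [u, v] := by have := q.1; simp at this ⊢; grind
  refine ⟨m, by_contra fun ne => ?_, fun B hB' => ?_⟩
  · have t1 := sides c ex q hB b1 b2
    have t2 := sides c ex (hσ _ m) hB b1 b2
    have t3 := sides c ex (q.trans (hσ _ m) (Ne.symm ne)) hB b1 b2
    tauto
  · by_cases hu : u ∈ B <;> by_cases hv : v ∈ B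
    · exact iff_of_true (iff_of_true hu hv) ⟨q.2 B hB' hu hv, (q.s34 c.t3).2 B hB' hu hv⟩
    · exact iff_of_false (fun h => hv (h.1 hu)) (sides c ex q hB' hu hv)
    · exact iff_of_false (fun h => hu (h.2 hv)) (sides c ex q.s12 hB' hv hu)
    · refine iff_of_true (iff_of_false hu hv) ⟨fun h => by_contra fun h' => ?_,
        fun h => by_contra fun h' => ?_⟩
      · exact sides c ex q.s23.s12 hB' h hu (iff_of_false hv h')
      · exact sides c ex (q.s34 c.t3).s23.s12 hB' h hu (iff_of_false hv h')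

end H99.PnSq1
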