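/- SPIN tower (row S4578): the slots GOdd and GTwo. -/
import Cfsg.Agent.H2.SpSpec
import Cfsg.Agent.S0927

set_option autoImplicit false
set_option linter.unusedSectionVars false

namespace H99.SpG

open Cfsg Equiv H2.Sp

universe u

theorem eq_one_of {H K : Type*} [Group H] [Finite H] [Group K] {p : ℕ} [hp : Fact p.Prime] {π : H →* K}
    (h : ¬ p ∣ Nat.card π.ker) {D : Subgroup H} (hD : IsPGroup p D) {d : H} (hd : d ∈ D) (e : π d = 1) :
    d = 1 := by
  obtain ⟨k, hk⟩ := hD ⟨d, hd⟩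
  have h1 : orderOf d ∣ p ^ k := orderOf_dvd_of_pow_eq_one (congrArg Subtype.val hk)
  have h2 : orderOf d ∣ Nat.card π.ker := π.ker.orderOf_dvd_natCard e
  exact orderOf_eq_one_iff.1 (Nat.eq_one_of_dvd_coprimes
    (Nat.Coprime.pow_left k ((Nat.Prime.coprime_iff_not_dvd hp.out).2 h)) h1 h2)

theorem eq_of {H K : Type*} [Group H] [Finite H] [Group K] {p : ℕ} [hp : Fact p.Prime] {π : H →* K}
    (h : ¬ p ∣ Nat.card π.ker) {D : Subgroup H} (hD : IsPGroup p D) {d d' : H} (hd : d ∈ D) (hd' : d' ∈ D)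
    (e : π d = π d') : d = d' :=
  mul_inv_eq_one.1 (eq_one_of h hD (mul_mem hd (inv_mem hd')) (by rw [map_mul, map_inv, e, mul_inv_cancel]))

theorem equiv_map {H K : Type*} [Group H] [Finite H] [Group K] {p : ℕ} [hp : Fact p.Prime] {π : H →* K}
    (h : ¬ p ∣ Nat.card π.ker) {D : Subgroup H} (hD : IsPGroup p D) : Nonempty (D ≃* D.map π) :=
  ⟨MulEquiv.ofBijective (π.subgroupMap D) ⟨fun a b e => Subtype.ext (eq_of h hD a.2 b.2
    (congrArg Subtype.val e)), π.subgroupMap_surjective D⟩⟩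

theorem comm_iff {A B : Type*} [Group A] [Group B] (e : A ≃* B) : IsMulCommutative A ↔ IsMulCommutative B :=
  ⟨fun h => ⟨⟨fun a b => e.symm.injective (by rw [map_mul, map_mul, h.is_comm.comm])⟩⟩,
    fun h => ⟨⟨fun a b => e.injective (by rw [map_mul, map_mul, h.is_comm.comm])⟩⟩⟩

theorem nu_le {Ω : Type} [Fintype Ω] [DecidableEq Ω] {H : Type u} [Group H] [Finite H] (π : H →* Perm Ω)
    (h : π.range = alternatingGroup Ω) {p : ℕ} (hp : p.Prime) (ho : Odd p) :
    (Fintype.card Ω).factorial.factorization p ≤ (Nat.card H).factorization p := by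
  have h1 : (alternatingGroup Ω).index ∣ 2 := by
    rw [alternatingGroup, Subgroup.index_ker]
    exact (Subgroup.card_subgroup_dvd_card _).trans (by simp)
  have h2 := (alternatingGroup Ω).index_mul_card
  rw [Nat.card_perm, Nat.card_eq_fintype_card (α := Ω)] at h2
  have h3 : Nat.card (alternatingGroup Ω) ∣ Nat.card H := by
    rw [← h]
    exact Subgroup.card_range_dvd π
  rw [← h2, Nat.factorization_mul Subgroup.index_ne_zero_of_finite Nat.card_pos.ne', Finsupp.add_apply,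
    Nat.factorization_eq_zero_of_not_dvd (n := (alternatingGroup Ω).index) fun h4 => by
      have := (Nat.prime_dvd_prime_iff_eq hp Nat.prime_two).1 (h4.trans h1)
      subst this
      exact absurd ho (by decide), zero_add]
  exact Nat.factorization_le_factorization_of_dvd_right h3 Nat.card_pos.ne' Nat.card_pos.ne'

theorem nu_pow {p m w : ℕ} (hp : p.Prime) (h : m ∣ p ^ w) : m.factorization p ≤ w := by
  have h0 : p ^ w ≠ 0 := pow_ne_zero _ hp.ne_zero
  have := Nat.factorization_le_factorization_of_dvd_right (a := p) h (ne_zero_of_dvd_ne_zero h0 h) h0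
  rwa [Nat.Prime.factorization_pow hp, Finsupp.single_eq_same] at this

theorem jobGOdd (hL : Lift.{u}) (hS : Struct) (hO : OddP) : GOdd.{u} := by
  intro Ω _ _ H _ _ π hr hk p hp ho hn W M hM B hB D hD χ hχ
  obtain ⟨x, hx, P, eD⟩ := id hD
  obtain ⟨l1, l2, l3, -⟩ := hL Ω H π hr hk p M hM B hB x hx P D eD
  obtain ⟨s1, s2⟩ := hS Ω p hp.out _ _ l1 l2 l3
  obtain ⟨_, ⟨c, hc, rfl⟩, w, o1, o2, o3, o4, o5⟩ := hO Ω p hp.out ho _ s2
  have pD : IsPGroup p D := eD ▸ P.isPGroup'.map _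
  obtain ⟨e⟩ := equiv_map hn pD
  have cD : Nat.card D = Nat.card (D.map π) := Nat.card_congr e.toEquiv
  by_cases hw : w ≤ 1
  · exact fin2 hM hB hD hχ (cD ▸ (o5 hw).trans (dvd_pow_self p two_ne_zero))
  have cp : c ^ p = 1 := eq_one_of hn pD (pow_mem hc p) (by
    rw [map_pow, Perm.pow_prime_eq_one_iff, o1]
    exact fun _ h => Multiset.eq_of_mem_replicate h)
  have cm : ∀ d ∈ D, c * d = d * c := fun d hd => eq_of hn pD (mul_mem hc hd) (mul_mem hd hc)
    (by rw [map_mul, map_mul]; exact o2 _ ⟨d, hd, rfl⟩)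
  have ne : χ.1 (c * x) ≠ 0 := by
    subst eD
    obtain ⟨c', hc', rfl⟩ := hc
    intro h0
    refine (Cfsg.Agent.S0927.result p M hM B hB x hx P c' hc').2
      (fun v hv => Subtype.ext (cm v ⟨v, hv, rfl⟩)) χ hχ ?_
    have h1 : χ.1 ((c' : H) * x) = 0 := h0
    rw [centralChar, h1, mul_zero, zero_div]
    exact ⟨0, 1, M.zero_mem, (Ideal.ne_top_iff_one M).1 hM.2.1.ne_top, by simp⟩
  have key := (W χ c x w (by omega) cp o1 (fun a => by
    by_cases h : π c a = a
    · exact Or.inl h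
    · exact Or.inr (s1 a ⟨_, ⟨c, hc, rfl⟩, h⟩)) ne).trans (nu_le π hr hp.out ho)
  refine fin1 hM hB hD hχ (fun h => ?_) fun h => ?_
  · have h1 := nu_pow hp.out (o4 fun h' => h ((comm_iff e).2 h'))
    rw [Nat.factorization_mul hp.out.ne_zero Nat.card_pos.ne', Finsupp.add_apply,
      hp.out.factorization_self, ← Nat.card_congr (Subgroup.centerCongr e).toEquiv] at h1
    omega
  · have h1 := nu_pow hp.out (o3 ((comm_iff e).1 h))
    rw [← cD] at h1
    omega

theorem jobGTwo (hL : Lift.{u}) (hS : Struct) (hT : H2.Sp.TwoP.{u}) : GTwo.{u} := by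
  intro Ω _ _ H K _ _ _ z π τ dc hτ ho hk M hM B hB D hD χ hχ
  obtain ⟨x, hx, P, eD⟩ := id hD
  have hr : (π.comp τ).range = alternatingGroup Ω := by
    rw [MonoidHom.range_comp, MonoidHom.range_eq_top.2 hτ, ← MonoidHom.range_eq_map, dc.range]
  obtain ⟨l1, l2, l3, l4⟩ := hL Ω H (π.comp τ) hr hk 2 M hM B hB x hx P D eD
  obtain ⟨-, s2⟩ := hS Ω 2 Nat.prime_two _ _ l1 l2 l3
  rw [← Subgroup.map_map] at s2
  have pD : IsPGroup 2 D := eD ▸ P.isPGroup'.map _
  have hn : ¬ 2 ∣ Nat.card τ.ker := Odd.not_two_dvd_nat ho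
  have pz : π z = 1 := (dc.ker z).2 (Or.inr rfl)
  have z2 : z ^ 2 = 1 := ((dc.ker (z ^ 2)).1 (by rw [map_pow, pz, one_pow])).resolve_right fun h =>
    dc.ne (by rwa [pow_two, mul_eq_left] at h)
  have hz : z ∈ D.map τ := by
    obtain ⟨h, rfl⟩ := hτ z
    refine ⟨h ^ Nat.card τ.ker, l4 _ (pow_mem (hk pz) _) 1 ?_, ?_⟩
    · rw [pow_one, ← pow_mul, mul_comm, pow_mul]
      exact congrArg Subtype.val (pow_card_eq_one' (x := (⟨h ^ 2, by
        rw [MonoidHom.mem_ker, map_pow, z2]⟩ : τ.ker)))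
    · obtain ⟨m, hm⟩ := ho
      rw [map_pow, hm, pow_succ, pow_mul, z2, one_pow, one_mul]
  refine fin3 hM hB hD hχ ?_
  let φ : Subgroup.center D →* K := τ.comp (D.subtype.comp (Subgroup.center D).subtype)
  have hφ : ∀ v, φ v ∈ Subgroup.zpowers z := fun v => by
    rcases hT Ω K z π dc _ hz s2 (φ v) ⟨v.1.1, v.1.2, rfl⟩ (by
      rintro _ ⟨d, hd, rfl⟩
      exact (show Commute v.1 ⟨d, hd⟩ from (Subgroup.mem_center_iff.1 v.2 _).symm).map (τ.comp D.subtype))
      with h | h <;> rw [h]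
    exacts [one_mem _, Subgroup.mem_zpowers z]
  refine (Subgroup.card_dvd_of_injective (φ.codRestrict _ hφ) fun a b e => ?_).trans ?_
  · exact Subtype.ext (Subtype.ext (eq_of hn pD a.1.2 b.1.2 (congrArg Subtype.val e)))
  · rw [Nat.card_zpowers]
    exact orderOf_dvd_of_pow_eq_one z2

end H99.SpG
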