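import Cfsg.Agent.H30.SQSpec

/-! Tower SQ (S4132), slot `LF`. -/

set_option autoImplicit false

namespace H99.SqLF

open Subgroup H30.SQ

universe u

variable {G : Type u} [Group G] [Finite G] {T A U : Subgroup G} {ν z : G}

theorem nrm {S : Set G} {x : G} (h : ∀ n ∈ S, x * n * x⁻¹ ∈ S) : x ∈ normalizer S :=
  mem_normalizer_fintype h

omit [Finite G] in
theorem cji {a b : G} (y : G) (h : Commute (y * a * y⁻¹) (y * b * y⁻¹)) : Commute a b := by
  simpa [mul_assoc] using h.conj y⁻¹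

/-- central in `U` and conjugate to an element of `A` -/
def Jp (A U : Subgroup G) (t : G) : Prop :=
  t ∈ U ∧ (∀ u ∈ U, Commute u t) ∧ ∃ a ∈ A, IsConj a t

omit [Finite G] in
theorem Jp.cj {t y : G} (h : Jp A U t) (hy : y ∈ normalizer (U : Set G)) :
    Jp A U (y * t * y⁻¹) := by
  obtain ⟨h1, h2, a, ha, h3⟩ := h
  refine ⟨(hy t).1 h1, fun u hu => ?_, a, ha, h3.trans (isConj_iff.2 ⟨y, rfl⟩)⟩
  simpa [mul_assoc] using (h2 _ ((inv_mem hy u).1 hu)).conj y

omit [Finite G] in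
theorem jA (S : SE T A U) {a : G} (ha : a ∈ A) : Jp A U a :=
  ⟨S.ZU a (S.Ac a ha).1, fun u hu => (S.Ac a ha).1.2 u (S.UT hu), a, ha, IsConj.refl a⟩

theorem tN (S : SE T A U) {R : Set G} (hR : R ⊆ A) : T ≤ normalizer R := fun s hs =>
  nrm fun r hr => by rwa [((S.Ac r (hR hr)).1.2 s hs).eq, mul_inv_cancel_right]

theorem V1 (hT : IsPGroup 2 T) (S : SE T A U) {R : Set G} (hR : R ⊆ A) {y s : G} (hs : s ∈ T)
    (h1 : y * s * y⁻¹ ∈ normalizer (U : Set G)) (h2 : y * s * y⁻¹ ∈ normalizer R) {r : G}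
    (hr : r ∈ R) : Commute (y * s * y⁻¹) r := by
  have le : T ⊓ normalizer (U : Set G) ≤ normalizer (U : Set G) ⊓ normalizer R :=
    le_inf inf_le_right (inf_le_left.trans (tN S hR))
  obtain ⟨h, hh, k⟩ := syl_conj le hT.to_inf_left
    (fun d => S.syl (d.trans (Dvd.intro _ (relIndex_mul_relIndex _ _ _ le inf_le_left))))
    (Q := T.map (MulAut.conj y).toMonoidHom ⊓ (normalizer (U : Set G) ⊓ normalizer R))
    (hT.map _).to_inf_left inf_le_right
  exact cji h ((S.Ac _ (hR ((hh.2 r).1 hr))).1.2 _ (k _ ⟨⟨s, hs, rfl⟩, h1, h2⟩).1)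

theorem νN (S : SE T A U) (N : NU T U ν z) : ν ∈ normalizer (U : Set G) := nrm fun u hu => by
  rcases N.mv u hu with h | h
  · rwa [← h.eq, mul_inv_cancel_right]
  · rw [h]; exact mul_mem hu (S.ZU z N.zc)

omit [Finite G] in
theorem K1 (S : SE T A U) (N : NU T U ν z) {t : G} (h : Jp A U t) (hc : Commute t ν) : t ∈ A :=
  by_contra fun k => N.νU (S.K t h.1 h.2.1 h.2.2 k ν N.νT hc.symm)

omit [Finite G] in
theorem K2 (S : SE T A U) (N : NU T U ν z) {t : G} (h : Jp A U t) (hc : t ∉ A) :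
    ν * t * ν⁻¹ = t * z := (N.mv t h.1).resolve_left fun k => hc (K1 S N h k)

theorem lemF (hT : IsPGroup 2 T) (S : SE T A U) (N : NU T U ν z) {y : G}
    (hy : y ∈ normalizer (U : Set G)) (hA : y ∉ normalizer (A : Set G)) :
    ¬ Commute (y * z * y⁻¹) ν := by
  intro hc
  obtain ⟨p, hp, h1⟩ : ∃ p ∈ A, y⁻¹ * p * y⁻¹⁻¹ ∉ A := by
    by_contra! k
    exact hA (inv_mem_iff.1 (nrm k))
  have m : y * ν * y⁻¹ ∈ normalizer (U : Set G) := mul_mem (mul_mem hy (νN S N)) (inv_mem hy)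
  have e : y * ν * y⁻¹ * p * (y * ν * y⁻¹)⁻¹ = p * (y * z * y⁻¹) := by
    have := congrArg (fun g => y * g * y⁻¹) (K2 S N ((jA S hp).cj (inv_mem hy)) h1)
    simpa [mul_assoc] using this
  have h2 : p * (y * z * y⁻¹) ∈ A := K1 S N (e ▸ (jA S hp).cj m)
    (((S.Ac p hp).1.2 ν N.νT).symm.mul_left hc)
  have e2 : y * ν * y⁻¹ * (p * (y * z * y⁻¹)) * (y * ν * y⁻¹)⁻¹ = p := by
    rw [← conj_mul, e, ((N.zc.2 ν N.νT).conj y).eq, mul_inv_cancel_right, mul_assoc p, conj_mul,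
      N.z2]
    simp
  have := V1 hT S (R := {p, p * (y * z * y⁻¹)}) (by rintro _ (rfl | rfl) <;> assumption) N.νT m
    (nrm (by
      rintro _ (rfl | rfl)
      exacts [Or.inr e, Or.inl e2])) (Or.inl rfl)
  rw [this.eq, mul_inv_cancel_right] at e
  exact N.z1 (by simpa using e)

theorem tri (hT : IsPGroup 2 T) (S : SE T A U) (N : NU T U ν z) {x y : G}
    (hx : x ∈ normalizer (U : Set G)) (hA : x ∉ normalizer (A : Set G))
    (hy : y ∈ normalizer (U : Set G)) : y ∈ normalizer (A : Set G) ∨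
      x⁻¹ * y ∈ normalizer (A : Set G) ∨ (ν * x)⁻¹ * y ∈ normalizer (A : Set G) := by
  by_contra! k
  obtain ⟨k1, k2, k3⟩ := k
  have zU := S.ZU z N.zc
  have e := (N.mv _ ((hx z).1 zU)).resolve_left (lemF hT S N hx hA)
  have y' := inv_mem hy
  rcases N.ix _ ((mul_mem y' hx z).1 zU) _ ((y' z).1 zU) with h | h | h
  · exact lemF hT S N (mul_mem y' hx) (fun m => k2 (by simpa using inv_mem m)) h
  · exact lemF hT S N y' (fun m => k1 (inv_mem_iff.1 m)) h
  · refine lemF hT S N (mul_mem y' (mul_mem (νN S N) hx))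
      (fun m => k3 (by simpa using inv_mem m)) ?_
    convert h using 1
    calc _ = y⁻¹ * (ν * (x * z * x⁻¹) * ν⁻¹) * y := by group
      _ = _ := by rw [e]; group

theorem jobLF : JobLF.{u} := by
  intro G _ _ T A U ν z hT S N x hx a ha h1
  have hA : x ∉ normalizer (A : Set G) := fun h => h1 ((h a).1 ha)
  have c2 := lemF hT S N (inv_mem hx) fun m => hA (inv_mem_iff.1 m)
  have j1 := (jA S ha).cj hx
  have L4 : ∀ σ ∈ T, σ ∈ normalizer (U : Set G) → x⁻¹ * σ * x⁻¹⁻¹ ∈ normalizer (A : Set G) →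
      σ ∈ U := fun σ h2 h3 h4 => S.K _ j1.1 j1.2.1 j1.2.2 h1 σ h2 (by
    simpa [mul_assoc] using (V1 hT S subset_rfl h2
      (mul_mem (mul_mem (inv_mem hx) h3) (inv_mem (inv_mem hx))) h4 ha).conj x)
  refine ⟨lemF hT S N hx hA, fun h => c2 (by simpa [mul_assoc] using h.conj x⁻¹), fun h => ?_,
    fun σ h2 h3 => ?_⟩
  · have a0 : x⁻¹ * a * x⁻¹⁻¹ ∈ A :=
      K1 S N ((jA S ha).cj (inv_mem hx)) (by simpa [mul_assoc] using h.conj x⁻¹)
    rcases tri hT S N hx hA (mul_mem hx hx) with k | k | k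
    · exact h1 (by simpa [mul_assoc] using (k _).1 a0)
    · exact hA (by simpa using k)
    · have e : ν⁻¹ * (x * a * x⁻¹) * ν = x * a * x⁻¹ * z := by
        have := K2 S N j1 h1
        calc _ = ν⁻¹ * (x * a * x⁻¹ * z * z) * ν := by rw [mul_assoc _ z, N.z2, mul_one]
          _ = x * a * x⁻¹ * (ν⁻¹ * (z * ν)) := by rw [← this]; group
          _ = _ := by rw [← (N.zc.2 ν N.νT).eq, inv_mul_cancel_left]
      have k1 := ((S.Ac _ ((k _).1 a0)).1.2 ν N.νT).symm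
      have e2 : (ν * x)⁻¹ * (x * x) * (x⁻¹ * a * x⁻¹⁻¹) * ((ν * x)⁻¹ * (x * x))⁻¹ =
          a * (x⁻¹ * z * x⁻¹⁻¹) := by
        calc _ = x⁻¹ * (ν⁻¹ * (x * a * x⁻¹) * ν) * x := by group
          _ = _ := by rw [e]; group
      rw [e2] at k1
      exact c2 (by simpa using ((S.Ac a ha).1.2 ν N.νT).symm.inv_left.mul_left k1)
  · rcases tri hT S N hx hA (mul_mem h3 hx) with k | k | k
    · exact absurd ((mul_mem_cancel_left (tN S subset_rfl h2)).1 k) hA
    · exact Or.inl (L4 σ h2 h3 (by simpa [mul_assoc] using k))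
    · exact Or.inr (L4 _ (mul_mem (inv_mem N.νT) h2) (mul_mem (inv_mem (νN S N)) h3)
        (by simpa [mul_assoc] using k))

end H99.SqLF
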