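/- T3 tower (row S5228): the slot K0. -/
import Cfsg.Agent.H11.T3Spec

set_option autoImplicit false
set_option linter.unusedSimpArgs false

open Subgroup Cfsg H11.T3 H11.T3.Co
open H90.RF (Au Pr Cg aY)

namespace H99.T3K

theorem lay_comp {θ φ : Co → Co} {x y x' y' : ZMod 3} (h : Lay θ x y) (h' : Lay φ x' y')
    (p : ∀ k, Pr φ (z0 k)) : Lay (fun u => θ (φ u)) (x * x') (y * y') where
  b u := by rw [h.b, h'.b]; ring
  a u := by rw [h.a, h'.a]; ring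
  d u hu := by rw [h.d _ (p 8 u hu), h'.d u hu]; ring
  c u hu := by rw [h.c _ (p 8 u hu), h'.c u hu]; ring
  e u hu := by rw [h.e _ (p 7 u hu), h'.e u hu]; ring
  f u hu := by rw [h.f _ (p 5 u hu), h'.f u hu]; ring
  g u hu := by rw [h.g _ (p 4 u hu), h'.g u hu]
  h u hu := by rw [h.h _ (p 3 u hu), h'.h u hu]; ring
  i u hu := by rw [h.i _ (p 2 u hu), h'.i u hu]; ring
  j u hu := by rw [h.j _ (p 1 u hu), h'.j u hu]; ring

theorem lay_id : Lay (fun u => u) 1 1 := by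
  constructor <;> intros <;> simp

theorem cg_of_lay {θ : Co → Co} (h : Lay θ 1 1) (p : ∀ k, Pr θ (z0 k)) : Cg z0 10 θ id := by
  intro k hk u hu
  have q := p (k + 1) u hu
  interval_cases k
  · have e := h.j u hu
    obtain ⟨p0, p1, p2, p3, p4, p5, p6, p7, p8⟩ := hu
    obtain ⟨q0, q1, q2, q3, q4, q5, q6, q7, q8⟩ := q
    show _ ∈ (⊥ : Subgroup Co)
    rw [mem_bot]
    ext <;> simp [*]
  · have e := h.i u hu
    obtain ⟨p0, p1, p2, p3, p4, p5, p6, p7⟩ := hu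
    obtain ⟨q0, q1, q2, q3, q4, q5, q6, q7⟩ := q
    show _ ∈ sZ1
    simp [mem_sZ1, *]
  · have e := h.h u hu
    obtain ⟨p0, p1, p2, p3, p4, p5, p6⟩ := hu
    obtain ⟨q0, q1, q2, q3, q4, q5, q6⟩ := q
    show _ ∈ sZ2
    simp [mem_sZ2, *]
  · have e := h.g u hu
    obtain ⟨p0, p1, p2, p3, p4, p5⟩ := hu
    obtain ⟨q0, q1, q2, q3, q4, q5⟩ := q
    show _ ∈ sZ3
    simp [mem_sZ3, *]
  · have e := h.f u hu
    obtain ⟨p0, p1, p2, p3, p4⟩ := hu
    obtain ⟨q0, q1, q2, q3, q4⟩ := q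
    show _ ∈ sZ4
    simp [mem_sZ4, *]
  · have e := h.c u (C3_le_Z6 (C4_le_C3 hu))
    obtain ⟨p0, p1, p2, p3⟩ := hu
    obtain ⟨q0, q1, q2, q3⟩ := q
    show _ ∈ sD2
    simp [mem_sD2, *]
  · have e := h.e u hu
    obtain ⟨p0, p1, p2⟩ := hu
    obtain ⟨q0, q1, q2⟩ := q
    show _ ∈ sC4
    simp [mem_sC4, *]
  · have e := h.d u hu
    obtain ⟨p0, p1⟩ := hu
    obtain ⟨q0, q1⟩ := q
    show _ ∈ sC3
    simp [mem_sC3, *]
  · have e := h.a u
    have p0 : u.b = 0 := hu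
    have q0 : (θ u).b = 0 := q
    show _ ∈ sZ6
    simp [mem_sZ6, *]
  · have e := h.b u
    show _ ∈ sE2
    simp [mem_sE2, *]

theorem au_top {F : FusionSystem (⊤ : Subgroup Co)} {y : Equiv.Perm Co} (hy : y ∈ aY F ⊤) : Au ⊤ y := by
  obtain ⟨α, _, rfl⟩ := hy
  exact H90.RF.au_af α

theorem jobK0 : JobK0 := by
  intro as E F hF le ⟨p, hp, lp⟩ ⟨q, hq, lq⟩ y hy
  haveI : Fact (Nat.Prime 3) := ⟨by norm_num⟩
  obtain ⟨-, py, x, x', hx, hx', ly⟩ := as.top y (au_top hy)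
  have ex : ∃ e ∈ aY E ⊤, Lay e x x' := by
    rcases z3 x with rfl | rfl | rfl
    · exact absurd rfl hx
    · rcases z3 x' with rfl | rfl | rfl
      · exact absurd rfl hx'
      · exact ⟨1, one_mem _, lay_id⟩
      · exact ⟨p, hp, lp⟩
    · rcases z3 x' with rfl | rfl | rfl
      · exact absurd rfl hx'
      · exact ⟨q, hq, lq⟩
      · refine ⟨p * q, mul_mem hp hq, ?_⟩
        have := lay_comp lp lq (as.top q (au_top hq)).2.1
        rwa [one_mul, mul_one] at this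
  obtain ⟨e, he, l⟩ := ex
  have m : e * y ∈ aY F ⊤ := mul_mem (le he) hy
  have l1 : Lay (e * y : Equiv.Perm Co) 1 1 := by
    have := lay_comp l ly py
    rwa [← pow_two, ← pow_two, sq1 hx, sq1 hx'] at this
  obtain ⟨s, hs⟩ := H90.U5.inn_of_cg (X := ⊤) pgroup_Co hF z0 10 rfl le_rfl (fun _ _ => le_top) z0_normal
    (fun i _ => z0_mono i) m (cg_of_lay l1 (as.top _ (au_top m)).2.1)
  obtain ⟨w, hw, hs'⟩ := H90.U5.conj_aY (X := ⊤) E s
  have : e * y = w := Equiv.ext fun c => (hs c (mem_top c)).trans (hs' c (mem_top c)).symm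
  have h2 : y = e⁻¹ * w := by rw [← this]; group
  rw [h2]
  exact mul_mem (inv_mem he) hw

end H99.T3K
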