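/- T3 tower (row S5228), slot L0. -/
import Cfsg.Agent.H11.T3Spec

set_option autoImplicit false
set_option linter.unusedSectionVars false
set_option linter.unusedSimpArgs false

open Subgroup H11.T3 H11.T3.Co
open H90.RF (cm conj_eq_cm Pr Au)
open H90.U5 (Bq cm_mem_commutator commutator_le_of_cm)

namespace H99.T3

variable {E M : Subgroup Co}

theorem nor_of {s : Co} (h : ∀ x ∈ E, cm s x ∈ E) : s ∈ normalizer (E : Set Co) :=
  mem_normalizer_fintype fun x hx => by rw [conj_eq_cm]; exact mul_mem hx (h x hx)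

theorem cen0 (h : Bq 3 zA 0 E M) (s : Co) : s ∈ E ↔ ∀ m ∈ M, cm s m = 1 := h.cen s

theorem pw0 (h : Bq 3 zA 0 E M) {m : Co} (hm : m ∈ M) : m ^ 3 = 1 := h.pw m hm

theorem M_le_E2 (h : Bq 3 zA 0 E M) : M ≤ sE2 := fun m hm => by
  by_contra hb
  change ¬ m.b = 0 at hb
  have ma : m.a = 0 := by simpa [cb_e, hb] using congrArg Co.e (pw0 h hm)
  have ha : ∀ s ∈ E, s.a = 0 := fun s hs => by
    simpa [cm_d, ma, hb] using congrArg Co.d ((cen0 h s).1 hs m hm)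
  refine h.no2 (B := sZ4) (fun x hx => nor_of fun s hs => (cen0 h _).2 fun n hn => ?_)
    (fun x hx y hy n hn => ?_) (s := xi 1) ⟨rfl, rfl, rfl, rfl, rfl, rfl⟩ (fun e => ?_)
    (fun k l => xg k * xi l) xj (fun k l => by simp [mem_sZ4, xg, xi]) (fun k l k' l' e => ?_)
    fun n hn => ⟨-n.b, ?_⟩
  · obtain ⟨p0, p1, p2, p3, p4, p5⟩ := hx
    have q1 := ha s hs
    have q2 := ha n (h.ME hn)
    have q3 := congrArg Co.e ((cen0 h s).1 hs n hn)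
    simp only [cm_e, q1, q2, one_e] at q3
    ext <;> simp [cm_b, cm_a, cm_d, cm_c, cm_e, cm_f, cm_g, cm_h, cm_i, cm_j, *]
    linear_combination -x.g * q3
  · obtain ⟨p0, p1, p2, p3, p4, p5⟩ := hx
    obtain ⟨q0, q1, q2, q3, q4, q5⟩ := hy
    show _ = 1
    ext <;> simp [cm_b, cm_a, cm_d, cm_c, cm_e, cm_f, cm_g, cm_h, cm_i, cm_j, *]
  · simpa [cm_j, xi, hb] using congrArg Co.j ((cen0 h _).1 e m hm)
  · have e1 := congrArg Co.h ((cen0 h _).1 e m hm)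
    have e2 := congrArg Co.j ((cen0 h _).1 e m hm)
    simp [cm_h, xg, xi, hb, neg_add_eq_zero] at e1
    subst e1
    simp [cm_j, xg, xi, hb, neg_add_eq_zero] at e2
    exact ⟨rfl, e2⟩
  · show _ = 1
    ext <;> simp [cm_b, cm_a, cm_d, cm_c, cm_e, cm_f, cm_g, cm_h, cm_i, cm_j, xi, xj]

theorem jobL0 : JobL0 := fun E M h s0 h0 => by
  by_contra hb
  change ¬ s0.b = 0 at hb
  have nZ : ¬ M ≤ sZ1 := h.not_le fun c hc s => cm_Z1 s hc
  have C4 : M ≤ sC4 := fun m hm => by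
    have p0 : m.b = 0 := M_le_E2 h hm
    have k := (cen0 h s0).1 h0 m hm
    have p1 : m.a = 0 := by simpa [cm_d, p0, hb] using congrArg Co.d k
    have p2 : m.d = 0 := by simpa [cm_e, p0, p1, hb] using congrArg Co.e k
    exact ⟨p0, p1, p2, by simpa [cb_j, p0, p1, p2] using congrArg Co.j (pw0 h hm)⟩
  have iE : ∀ k, xi k ∈ E := fun k => (cen0 h _).2 fun m hm => by
    have p0 : m.b = 0 := M_le_E2 h hm
    ext <;> simp [cm_b, cm_a, cm_d, cm_c, cm_e, cm_f, cm_g, cm_h, cm_i, cm_j, xi, p0]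
  have prD : ∀ β, Au E β → Pr β ⁅E, E⁆ := fun β a => H90.RF.Pr.commutator a le_rfl le_rfl a.mem a.mem
  have MD : M ≤ ⁅E, E⁆ := h.min (fun z hz => by
    obtain ⟨p0, p1, p2, p3, p4, p5, p6, p7, p8⟩ : z ∈ sZ1 := hz
    have e : z = cm s0 (xi (s0.b * z.j)) := by
      ext <;> simp [cm_b, cm_a, cm_d, cm_c, cm_e, cm_f, cm_g, cm_h, cm_i, cm_j, xi, *]
      linear_combination -z.j * sq1 hb
    rw [e]
    exact cm_mem_commutator h0 (iE _)) fun β hβ => prD β hβ.1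
  have D2 : M ≤ sD2 := fun m hm => by
    obtain ⟨p0, p1, p2, p3⟩ := C4 hm
    refine ⟨p0, p1, p2, by_contra fun hc => hc ?_, p3⟩
    have k : ∀ s ∈ E, s.a = 0 ∧ s.d * m.c = -s.b * m.f := fun s hs => by
      have k := (cen0 h s).1 hs m hm
      have q1 : s.a = 0 := by simpa [cm_f, p0, p1, hc] using congrArg Co.f k
      have q2 := congrArg Co.g k
      simp only [cm_g, p0, p1, p2, p3, q1, one_g] at q2
      exact ⟨q1, by linear_combination -q2⟩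
    refine (commutator_le_of_cm (U := sD2) (fun s hs t ht => ?_) (MD hm)).2.2.2.1
    obtain ⟨q1, q2⟩ := k s hs
    obtain ⟨q3, q4⟩ := k t ht
    refine ⟨cm_b _ _, cm_a _ _, by simp [cm_d, q1, q3], by simp [cm_c, q1, q3], mul_right_cancel₀ hc ?_⟩
    simp only [cm_e, q1, q3]
    linear_combination s.b * q4 - t.b * q2
  have Z3 : M ≤ sZ3 := fun m hm => by
    obtain ⟨p0, p1, p2, p3, p4⟩ := D2 hm
    have k := (cen0 h s0).1 h0 m hm
    have p5 : m.f = 0 := by simpa [cm_g, p0, p1, p2, p3, p4, hb] using congrArg Co.g k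
    exact ⟨p0, p1, p2, p3, p4, p5, by simpa [cm_h, p0, p1, p2, p3, p4, p5, hb] using congrArg Co.h k⟩
  obtain ⟨m, hm, hh⟩ : ∃ m ∈ M, m.h ≠ 0 := by
    by_contra k
    push Not at k
    refine nZ fun m hm => ?_
    obtain ⟨p0, p1, p2, p3, p4, p5, p6⟩ := Z3 hm
    have p7 := k m hm
    exact ⟨p0, p1, p2, p3, p4, p5, p6, p7, by
      simpa [cm_j, p0, p1, p2, p3, p4, p5, p6, p7, hb] using congrArg Co.j ((cen0 h s0).1 h0 m hm)⟩
  have C3 : sC3 ≤ E := fun s hs => (cen0 h _).2 fun n hn => by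
    obtain ⟨p0, p1, p2, p3, p4, p5, p6⟩ := Z3 hn
    obtain ⟨q0, q1, q2⟩ := hs
    ext <;> simp [cm_b, cm_a, cm_d, cm_c, cm_e, cm_f, cm_g, cm_h, cm_i, cm_j, *]
  have k : ∀ s ∈ E, s.a = 0 ∧ s.d * m.h = s.b * m.i := fun s hs => by
    obtain ⟨p0, p1, p2, p3, p4, p5, p6⟩ := Z3 hm
    have k := (cen0 h s).1 hs m hm
    have q1 : s.a = 0 := by simpa [cm_i, p0, p1, p2, p3, p4, p5, p6, hh] using congrArg Co.i k
    have q2 := congrArg Co.j k
    simp only [cm_j, p0, p1, p2, p3, p4, p5, p6, q1, one_j] at q2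
    exact ⟨q1, by linear_combination -q2⟩
  have DZ : ⁅E, E⁆ ≤ sZ4 := commutator_le_of_cm fun s hs t ht => by
    obtain ⟨q1, q2⟩ := k s hs
    obtain ⟨q3, q4⟩ := k t ht
    refine ⟨cm_b _ _, cm_a _ _, by simp [cm_d, q1, q3], by simp [cm_c, q1, q3], mul_right_cancel₀ hh ?_,
      by simp [cm_f, q1, q3]⟩
    simp only [cm_e, q1, q3]
    linear_combination s.b * q4 - t.b * q2
  have cE : xc 1 ∈ E := C3 ⟨rfl, rfl, rfl⟩
  have eE : xe 1 ∈ E := C3 ⟨rfl, rfl, rfl⟩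
  have fE : xf 1 ∈ E := C3 ⟨rfl, rfl, rfl⟩
  have pr : ∀ β, Au E β → Pr β sC4 := fun β a c hc => by
    have hE := C3 (C4_le_C3 hc)
    have k1 := a.cm_mem (U := ⊥) (commutator_le_self E) (prD β a)
      (fun x hx => by rw [mem_bot.1 hx, a.one]; exact one_mem _) hE fun y hy => by
        obtain ⟨p0, p1, p2, p3⟩ := hc
        obtain ⟨q0, q1, q2, q3, q4, q5⟩ := DZ hy
        show _ = 1
        ext <;> simp [cm_b, cm_a, cm_d, cm_c, cm_e, cm_f, cm_g, cm_h, cm_i, cm_j, *]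
    have q1 := (k _ (a.mem c hE)).1
    have q0 : (β c).b = 0 := by
      simpa [cm_b, cm_a, cm_d, cm_c, cm_e, cm_f, cm_g, cm_h, cm_i, cm_j, xe, xf] using
        congrArg Co.j (mem_bot.1 (k1 _ (cm_mem_commutator fE eE)))
    have q2 : (β c).d = 0 := by
      simpa [cm_b, cm_a, cm_d, cm_c, cm_e, cm_f, cm_g, cm_h, cm_i, cm_j, xe, xc, q0, q1] using
        congrArg Co.j (mem_bot.1 (k1 _ (cm_mem_commutator cE eE)))
    refine ⟨q0, q1, q2, ?_⟩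
    simpa [cm_b, cm_a, cm_d, cm_c, cm_e, cm_f, cm_g, cm_h, cm_i, cm_j, xf, q0, q1, q2, hb, (k s0 h0).1] using
      congrArg Co.j (mem_bot.1 (k1 _ (cm_mem_commutator h0 fE)))
  refine nZ (h.gen_le fun β hβ z hz _ => ?_)
  obtain ⟨p0, p1, p2, p3, p4, p5, p6, p7, p8⟩ : z ∈ sZ1 := hz
  have e : z = cm (xc z.j) (xf 1) := by
    ext <;> simp [cm_b, cm_a, cm_d, cm_c, cm_e, cm_f, cm_g, cm_h, cm_i, cm_j, xc, xf, *]
  obtain ⟨q0, q1, q2, q3⟩ := pr β hβ.1 (xc z.j) ⟨rfl, rfl, rfl, rfl⟩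
  obtain ⟨r0, r1, r2, r3⟩ := pr β hβ.1 (xf 1) ⟨rfl, rfl, rfl, rfl⟩
  rw [e, hβ.1.cm (C3 ⟨rfl, rfl, rfl⟩) fE]
  simp [mem_sZ1, cm_b, cm_a, cm_d, cm_c, cm_e, cm_f, cm_g, cm_h, cm_i, q0, q1, q2, q3, r0, r1, r2, r3]

end H99.T3
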