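/- T3 tower (row S5228), slot W2. -/
import Cfsg.Agent.H11.T3Spec

set_option autoImplicit false
set_option linter.unusedSectionVars false
set_option linter.unusedSimpArgs false

open Subgroup H11.T3 H11.T3.Co
open H90.RF (cm conj_eq_cm Pr Au Lg)

namespace H99.T3W

theorem Z2_le_W : sZ2 ≤ sW := Z2_le_V.trans V_le_W

theorem cm_ZW {r w : Co} (hr : r ∈ sZ4) (hw : w ∈ sW) :
    cm r w = ⟨0, 0, 0, 0, 0, 0, 0, 0, r.h * w.a - r.g * w.d, r.g * w.a + r.h * w.d⟩ := by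
  obtain ⟨p0, p1, p2, p3, p4, p5⟩ := hr
  obtain ⟨q0, q1, q2, q3, q4⟩ := hw
  ext <;> simp [cm_b, cm_a, cm_d, cm_c, cm_e, cm_f, cm_g, cm_h, cm_i, cm_j, *]
  ring

theorem cm_Z {r w : Co} (hr : r ∈ sZ4) (hw : w ∈ sW) : cm r w ∈ sZ2 := by
  rw [cm_ZW hr hw]; exact ⟨rfl, rfl, rfl, rfl, rfl, rfl, rfl, rfl⟩

theorem comm_Z {z w : Co} (hz : z ∈ sZ2) (hw : w ∈ sW) : w * z = z * w :=
  H90.RF.cm_eq_one.1 (cm_EZ hw.1 hz)

theorem memV {w : Co} (hw : w ∈ sW) (ha : w.a = 0) (hd : w.d = 0) : w ∈ sV :=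
  ⟨hw.1, ha, hd, hw.2.1, hw.2.2.1, hw.2.2.2.1, hw.2.2.2.2⟩

theorem ai_self (f : Equiv.Perm Co) (x : Co) : f (f⁻¹ x) = x := f.apply_symm_apply x

variable {Y N : Subgroup (Equiv.Perm Co)} {g : Equiv.Perm Co}

theorem inj0 (l : Lg sW Y) (ti : TI Y) (hg : g ∈ Y) (mv : ¬ Pr g sZ2) {u : Co} (hu : u ∈ sZ2)
    (ha : (g u).a = 0) (hd : (g u).d = 0) : u = 1 := by
  have a := l.au g hg
  have mv' : ¬ Pr (⇑g⁻¹) sZ2 := fun p => mv fun c hc =>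
    (l.au _ (inv_mem hg)).mem_of Z2_le_W p (a.mem c (Z2_le_W hc)) (by simpa using hc)
  exact a.inj u (Z2_le_W hu)
    (ti _ (inv_mem hg) mv' _ (memV (a.mem u (Z2_le_W hu)) ha hd) (by simpa using hu))

theorem onto (l : Lg sW Y) (ti : TI Y) (hg : g ∈ Y) (mv : ¬ Pr g sZ2) (a d : ZMod 3) :
    ∃ u ∈ sZ2, (g u).a = a ∧ (g u).d = d := by
  have au := l.au g hg
  let z : ZMod 3 × ZMod 3 → Co := fun p => ⟨0, 0, 0, 0, 0, 0, 0, 0, p.1, p.2⟩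
  have hz : ∀ p, z p ∈ sZ2 := fun _ => ⟨rfl, rfl, rfl, rfl, rfl, rfl, rfl, rfl⟩
  have inj : Function.Injective fun p => ((g (z p)).a, (g (z p)).d) := fun p q e => by
    have e1 : (g (z p)).a = (g (z q)).a := congrArg Prod.fst e
    have e2 : (g (z p)).d = (g (z q)).d := congrArg Prod.snd e
    have b1 := (au.mem _ (Z2_le_W (hz p))).1
    have b2 := (au.mem _ (Z2_le_W (hz q))).1
    have m : g ((z p)⁻¹ * z q) = (g (z p))⁻¹ * g (z q) := by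
      rw [au.mul _ (inv_mem (Z2_le_W (hz p))) _ (Z2_le_W (hz q)), au.inv (Z2_le_W (hz p))]
    have := inv_mul_eq_one.1 (inj0 l ti hg mv (mul_mem (inv_mem (hz p)) (hz q))
      (by rw [m]; simp [e1]) (by rw [m]; simp [e2, b1, b2]))
    exact Prod.ext (congrArg Co.i this) (congrArg Co.j this)
  obtain ⟨p, hp⟩ := Finite.surjective_of_injective inj (a, d)
  exact ⟨z p, hz p, congrArg Prod.fst hp, congrArg Prod.snd hp⟩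

theorem step (l : Lg sW Y) (ti : TI Y) (le : N ≤ Y) (nm : ∀ y ∈ Y, ∀ n ∈ N, y * n * y⁻¹ ∈ N)
    (inn : ∀ s ∈ sZ4, ∃ n ∈ N, ∀ u ∈ sW, n u = s * u * s⁻¹) (hg : g ∈ Y) (mv : ¬ Pr g sZ2)
    {s : Co} (hs : s ∈ sZ4) (nd : ∀ w ∈ sW, cm s w = 1 → w.a = 0 ∧ w.d = 0) :
    ∃ x ∈ N, ∀ u ∈ sZ2, x (g u) = cm s (g u) := by
  have au := l.au g hg
  have ai := l.au _ (inv_mem hg)
  have j2 : xj 1 ∈ sZ2 := ⟨rfl, rfl, rfl, rfl, rfl, rfl, rfl, rfl⟩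
  have j1 : xj 1 ≠ 1 := by decide
  have hw := au.mem _ (Z2_le_W j2)
  have hu := cm_Z hs hw
  have u1 : cm s (g (xj 1)) ≠ 1 := fun e => j1 (inj0 l ti hg mv j2 (nd _ hw e).1 (nd _ hw e).2)
  have hu' := ai.mem _ (Z2_le_W hu)
  have ad : ¬ ((g⁻¹ (cm s (g (xj 1)))).a = 0 ∧ (g⁻¹ (cm s (g (xj 1)))).d = 0) := fun e =>
    u1 (ai.inj _ (Z2_le_W hu) (ti g hg mv _ (memV hu' e.1 e.2) (by simpa using hu)))
  obtain ⟨k, k', hk⟩ : ∃ k k' : ZMod 3,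
      k' * (g⁻¹ (cm s (g (xj 1)))).a - k * (g⁻¹ (cm s (g (xj 1)))).d = 0 ∧
      k * (g⁻¹ (cm s (g (xj 1)))).a + k' * (g⁻¹ (cm s (g (xj 1)))).d = 1 := by
    revert ad
    generalize (g⁻¹ (cm s (g (xj 1)))).a = x
    generalize (g⁻¹ (cm s (g (xj 1)))).d = y
    revert x y
    decide
  have hr : (⟨0, 0, 0, 0, 0, 0, k, k', 0, 0⟩ : Co) ∈ sZ4 := ⟨rfl, rfl, rfl, rfl, rfl, rfl⟩
  obtain ⟨nr, hnr, er⟩ := inn _ hr
  obtain ⟨ns, hns, es⟩ := inn s hs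
  have ht := nm g hg nr hnr
  have et : ∀ z ∈ sZ2, (g * nr * g⁻¹) z = z * g (cm ⟨0, 0, 0, 0, 0, 0, k, k', 0, 0⟩ (g⁻¹ z)) :=
    fun z hz => by
      have h1 := ai.mem _ (Z2_le_W hz)
      rw [Equiv.Perm.mul_apply, Equiv.Perm.mul_apply, er _ h1, conj_eq_cm,
        au.mul _ h1 _ (Z2_le_W (cm_Z hr h1)), ai_self]
  have e0 : cm ⟨0, 0, 0, 0, 0, 0, k, k', 0, 0⟩ (g⁻¹ (cm s (g (xj 1)))) = xj 1 := by
    rw [cm_ZW hr hu', hk.1, hk.2]; rfl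
  have hy : (g * nr * g⁻¹)⁻¹ * ns * g ∈ Y := mul_mem (le (mul_mem (inv_mem ht) hns)) hg
  have pr : Pr (⇑((g * nr * g⁻¹)⁻¹ * ns * g)) sZ2 := by
    by_contra np
    refine j1 (ti _ hy np _ (Z2_le_V j2) ?_)
    have : ((g * nr * g⁻¹)⁻¹ * ns * g) (xj 1) = cm s (g (xj 1)) := by
      rw [Equiv.Perm.mul_apply, Equiv.Perm.mul_apply, Equiv.Perm.inv_eq_iff_eq, et _ hu, e0, es _ hw,
        conj_eq_cm, comm_Z hu hw]
    rw [this]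
    exact hu
  refine ⟨_, mul_mem (inv_mem ht) hns, fun u hu2 => ?_⟩
  have hz := pr u hu2
  have hgu := au.mem _ (Z2_le_W hu2)
  have c2 := cm_Z hs hgu
  have c1 := cm_Z hr (ai.mem _ (Z2_le_W hz))
  have e1 := et _ hz
  change (g * nr * g⁻¹) ((g * nr * g⁻¹)⁻¹ (ns (g u))) = _ at e1
  rw [ai_self, es _ hgu, conj_eq_cm, comm_Z c2 hgu] at e1
  change _ = ((g * nr * g⁻¹)⁻¹ * ns) (g u) * g (cm _ (g⁻¹ (((g * nr * g⁻¹)⁻¹ * ns) (g u)))) at e1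
  change ((g * nr * g⁻¹)⁻¹ * ns) (g u) ∈ sZ2 at hz
  change cm _ (g⁻¹ (((g * nr * g⁻¹)⁻¹ * ns) (g u))) ∈ sZ2 at c1
  generalize ((g * nr * g⁻¹)⁻¹ * ns) (g u) = z at hz c1 e1 ⊢
  generalize cm (⟨0, 0, 0, 0, 0, 0, k, k', 0, 0⟩ : Co) (g⁻¹ z) = c at c1 e1
  have e2 : g (c * u⁻¹) = z⁻¹ * cm s (g u) := by
    rw [au.mul _ (Z2_le_W c1) _ (inv_mem (Z2_le_W hu2)), au.inv (Z2_le_W hu2), mul_inv_eq_iff_eq_mul,
      mul_assoc, e1, inv_mul_cancel_left]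
  have e3 := ti g hg mv _ (Z2_le_V (mul_mem c1 (inv_mem hu2))) (by
    rw [e2]; exact mul_mem (inv_mem hz) c2)
  rw [e3, au.one] at e2
  exact inv_mul_eq_one.1 e2.symm

theorem jobW2 : JobW2 := fun Y N l ti le nm inn g hg mv => by
  refine ⟨onto l ti hg mv, ?_⟩
  have h1 : xh 1 ∈ sZ4 := ⟨rfl, rfl, rfl, rfl, rfl, rfl⟩
  have h2 : (⟨0, 0, 0, 0, 0, 0, 1, 1, 0, 0⟩ : Co) ∈ sZ4 := ⟨rfl, rfl, rfl, rfl, rfl, rfl⟩
  obtain ⟨x, hx, ex⟩ := step l ti le nm inn hg mv h1 fun w hw e => by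
    rw [cm_ZW h1 hw] at e
    exact ⟨by simpa [xh] using congrArg Co.i e, by simpa [xh] using congrArg Co.j e⟩
  obtain ⟨y, hy, ey⟩ := step l ti le nm inn hg mv h2 fun w hw e => by
    rw [cm_ZW h2 hw] at e
    have e1 : 1 * w.a - 1 * w.d = 0 := congrArg Co.i e
    have e2 : 1 * w.a + 1 * w.d = 0 := congrArg Co.j e
    revert e1 e2
    generalize w.a = p
    generalize w.d = q
    revert p q
    decide
  have key : ∀ u ∈ sZ2, (y * x⁻¹) u = ⟨0, 0, 0, 0, 0, 0, 0, 0, u.i - u.j, u.i + u.j⟩ := fun u hu => by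
    obtain ⟨v, hv, e1, e2⟩ := onto l ti hg mv u.i u.j
    have hw := (l.au g hg).mem _ (Z2_le_W hv)
    have e3 : x⁻¹ u = g v := by
      rw [Equiv.Perm.inv_eq_iff_eq, ex v hv, cm_ZW h1 hw, e1, e2]
      obtain ⟨p0, p1, p2, p3, p4, p5, p6, p7⟩ := hu
      ext <;> simp [xh, *]
    rw [Equiv.Perm.mul_apply, e3, ey v hv, cm_ZW h2 hw, e1, e2]
    simp
  exact ⟨y * x⁻¹, mul_mem hy (inv_mem hx), fun u hu => by
    rw [key u hu]; exact ⟨rfl, rfl, rfl, rfl, rfl, rfl, rfl, rfl⟩, fun u hu => by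
    rw [key u hu]; exact ⟨rfl, rfl⟩⟩

end H99.T3W
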