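import Cfsg.Agent.H98.Core

/-! Wielandt triples with abelian quotient, by transfer. -/

namespace H99

open Subgroup Cfsg H98

variable {G : Type*} [Group G]

/-- If `φ : M →* A` (with `A` abelian) kills `M ∩ M^a` for all `a ∉ M`, the transfer extends `φ`. -/
theorem transfer_eq_of_TI {M : Subgroup G} [M.FiniteIndex] {A : Type*} [CommGroup A] (φ : M →* A)
    (h : ∀ (a : G), a ∉ M → ∀ y ∈ M, ∀ hy : a⁻¹ * y * a ∈ M, φ ⟨a⁻¹ * y * a, hy⟩ = 1)
    (m : M) : φ.transfer m = φ m := by
  classical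
  have := Fintype.ofFinite (MulAction.orbitRel.Quotient (zpowers (m : G)) (G ⧸ M))
  rw [MonoidHom.transfer_eq_prod_quotient_orbitRel_zpowers_quot,
    Finset.prod_eq_single (Quotient.mk _ ((1 : G) : G ⧸ M))]
  · set q : MulAction.orbitRel.Quotient (zpowers (m : G)) (G ⧸ M) := Quotient.mk _ ((1 : G) : G ⧸ M)
      with hq
    have h1 : q.out = ((1 : G) : G ⧸ M) := by
      have h2 : q.out ∈ MulAction.orbit (zpowers (m : G)) ((1 : G) : G ⧸ M) :=
        MulAction.orbitRel_apply.1 (Quotient.exact (Quotient.out_eq q))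
      obtain ⟨⟨z, hz⟩, h3⟩ := h2
      rw [← h3]
      change ((z * 1 : G) : G ⧸ M) = _
      rw [QuotientGroup.eq]
      simpa using (zpowers_le.2 m.2) hz
    have h2 : q.out.out ∈ M := by
      have := QuotientGroup.eq.1 ((QuotientGroup.out_eq' q.out).trans h1)
      simpa using this
    have h3 : Function.minimalPeriod ((m : G) • ·) q.out = 1 := by
      rw [Function.minimalPeriod_eq_one_iff_isFixedPt, h1]
      change (((m : G) * 1 : G) : G ⧸ M) = _
      rw [QuotientGroup.eq]
      simp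
    have h4 : ∀ (k : ℕ) (hk), k = 1 → φ ⟨q.out.out⁻¹ * (m : G) ^ k * q.out.out, hk⟩ = φ m := by
      rintro _ hk rfl
      have : (⟨q.out.out⁻¹ * (m : G) ^ 1 * q.out.out, hk⟩ : M) = (⟨_, h2⟩ : M)⁻¹ * m * ⟨_, h2⟩ := by
        apply Subtype.ext
        simp
      rw [this, map_mul, map_mul, map_inv, mul_comm _ (φ m), inv_mul_cancel_right]
    exact h4 _ _ h3
  · intro q _ hq
    refine h _ (fun hm => hq ?_) _ (M.pow_mem m.2 _) _
    rw [← Quotient.out_eq q]
    congr 1
    rw [← QuotientGroup.out_eq' q.out, QuotientGroup.eq]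
    simpa using hm
  · intro h
    exact absurd (Finset.mem_univ _) h

/-- Wielandt's theorem for an abelian section `M / H`. -/
theorem exists_normal_inf_eq [Finite G] {H M : Subgroup G} (hHM : H ≤ M) (hc : ⁅M, M⁆ ≤ H)
    (h : ∀ a : G, a ∉ M → ∀ y ∈ M, a⁻¹ * y * a ∈ M → a⁻¹ * y * a ∈ H) :
    ∃ K : Subgroup G, K.Normal ∧ commutator G ≤ K ∧ K ⊓ M = H := by
  have hc' : commutator M ≤ H.subgroupOf M := by
    intro x hx
    apply hc
    have := mem_map_of_mem M.subtype hx
    rwa [commutator_def, map_commutator, map_subtype_top] at this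
  have hN : (H.subgroupOf M).Normal := Subgroup.Normal.of_commutator_le _ hc'
  letI : CommGroup (M ⧸ H.subgroupOf M) :=
    { (inferInstance : Group (M ⧸ H.subgroupOf M)) with
      mul_comm := (Subgroup.Normal.quotient_commutative_iff_commutator_le.2 hc').is_comm.comm }
  have key := transfer_eq_of_TI (QuotientGroup.mk' (H.subgroupOf M))
    fun a ha y hy hy2 => (QuotientGroup.eq_one_iff _).2 (h a ha y hy hy2)
  refine ⟨(QuotientGroup.mk' (H.subgroupOf M)).transfer.ker, inferInstance,
    Abelianization.commutator_subset_ker _, le_antisymm ?_ (le_inf ?_ hHM)⟩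
  · intro x hx
    have h1 := key ⟨x, hx.2⟩
    rw [MonoidHom.mem_ker.1 hx.1] at h1
    exact (QuotientGroup.eq_one_iff (N := H.subgroupOf M) ⟨x, hx.2⟩).1 h1.symm
  · intro x hx
    rw [MonoidHom.mem_ker, key ⟨x, hHM hx⟩]
    exact (QuotientGroup.eq_one_iff _).2 hx

theorem commutator_le_of_isCoatom [Finite G] {H M : Subgroup G} (hHM : H ≤ M)
    (hn : M ≤ normalizer (H : Set G)) (hmax : IsCoatom (H.subgroupOf M)) : ⁅M, M⁆ ≤ H := by
  obtain ⟨x, -, hx⟩ := SetLike.exists_of_lt (lt_top_iff_ne_top.2 hmax.1)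
  have h1 : H.subgroupOf M ⊔ zpowers x = ⊤ :=
    hmax.2 _ (lt_of_le_of_ne le_sup_left fun h => hx (h ▸ mem_sup_right (mem_zpowers x)))
  have h2 : H ⊔ zpowers (x : G) = M := by
    have := congrArg (map M.subtype) h1
    rwa [Subgroup.map_sup, subgroupOf_map_subtype, inf_eq_left.2 hHM, MonoidHom.map_zpowers,
      map_subtype_top] at this
  have hx2 : zpowers (x : G) ≤ normalizer (H : Set G) := (zpowers_le.2 x.2).trans hn
  rw [← h2]
  refine commutator_sup_left_le le_normalizer hx2 (commutator_le_left' (sup_le le_normalizer hx2)) ?_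
  refine commutator_sup_right_le le_normalizer hx2 (commutator_le_right' hx2) ?_
  rw [Subgroup.commutator_eq_bot_iff_le_centralizer.2 (le_centralizer _)]
  exact bot_le

end H99
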